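import Mathlib

/-! Complements in the subgroup lattice. -/

namespace CfsgLib.ClassGeo.CoLat

variable {G : Type*} [Group G] [Finite G]

/-- proper subgroups lie in a maximal one -/
theorem exists_coatom_ge (H : Subgroup G) (hH : H ≠ ⊤) : ∃ M : Subgroup G, IsCoatom M ∧ H ≤ M := by
  obtain h | ⟨M, hM, hle⟩ := eq_top_or_exists_le_coatom H
  · exact absurd h hH
  · exact ⟨M, hM, hle⟩

theorem complement_of_interval (T X M : Subgroup G)
    (hint : ∀ Y : Subgroup G, T ≤ Y → Y ≤ X → ∃ C : Subgroup G, T ≤ C ∧ C ≤ X ∧ Y ⊔ C = X ∧ Y ⊓ C = T)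
    (hTX : T ≤ X) (huniq : ∀ M' : Subgroup G, IsCoatom M' → X ≤ M' → M' = M)
    (H : Subgroup G) (hH : ¬ H ≤ M) (hHT : H ⊓ T = ⊥) :
    ∃ C : Subgroup G, H ⊔ C = ⊤ ∧ H ⊓ C = ⊥ := by
  obtain ⟨C, hTC, hCX, hsup, hinf⟩ := hint ((H ⊓ X) ⊔ T) le_sup_right (sup_le inf_le_right hTX)
  refine ⟨C, ?_, ?_⟩
  · by_contra hne
    obtain ⟨M', hM', hle⟩ := exists_coatom_ge (H ⊔ C) hne
    have hXM' : X ≤ M' := by
      rw [← hsup]
      refine sup_le (sup_le ?_ ?_) ?_
      · exact le_trans inf_le_left (le_trans le_sup_left hle)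
      · exact le_trans hTC (le_trans le_sup_right hle)
      · exact le_trans le_sup_right hle
    have := huniq M' hM' hXM'
    subst this
    exact hH (le_trans le_sup_left hle)
  · rw [eq_bot_iff, ← hHT]
    refine le_inf inf_le_left ?_
    rw [← hinf]
    refine le_inf ?_ inf_le_right
    exact le_trans (le_inf inf_le_left (le_trans inf_le_right hCX)) le_sup_left

/-- conjugating a complement -/
theorem complement_conj (g : G) (H C : Subgroup G) (h1 : H.map (MulAut.conj g).toMonoidHom ⊔ C = ⊤)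
    (h2 : H.map (MulAut.conj g).toMonoidHom ⊓ C = ⊥) :
    ∃ C' : Subgroup G, H ⊔ C' = ⊤ ∧ H ⊓ C' = ⊥ := by
  refine ⟨C.map (MulAut.conj g⁻¹).toMonoidHom, ?_, ?_⟩
  · have := congrArg (Subgroup.map (MulAut.conj g⁻¹).toMonoidHom) h1
    rw [Subgroup.map_sup, Subgroup.map_map] at this
    have h3 : ((MulAut.conj g⁻¹).toMonoidHom.comp (MulAut.conj g).toMonoidHom) = MonoidHom.id G := by
      ext x; simp [MulAut.conj_apply]; group
    rw [h3, Subgroup.map_id] at this
    rw [this]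
    exact Subgroup.map_top_of_surjective _ (MulEquiv.surjective _)
  · have := congrArg (Subgroup.map (MulAut.conj g⁻¹).toMonoidHom) h2
    rw [Subgroup.map_inf _ _ _ (MulEquiv.injective _), Subgroup.map_map] at this
    have h3 : ((MulAut.conj g⁻¹).toMonoidHom.comp (MulAut.conj g).toMonoidHom) = MonoidHom.id G := by
      ext x; simp [MulAut.conj_apply]; group
    rw [h3, Subgroup.map_id] at this
    rw [this]
    simp

/-- from the lattice of `X` to the interval `[⊥, X]` -/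
theorem interval_bot (X : Subgroup G) (hK : ComplementedLattice (Subgroup X)) :
    ∀ Y : Subgroup G, ⊥ ≤ Y → Y ≤ X → ∃ C : Subgroup G, ⊥ ≤ C ∧ C ≤ X ∧ Y ⊔ C = X ∧ Y ⊓ C = ⊥ := by
  intro Y _ hYX
  obtain ⟨C', hC'⟩ := hK.exists_isCompl (Y.subgroupOf X)
  refine ⟨C'.map X.subtype, bot_le, Subgroup.map_subtype_le _, ?_, ?_⟩
  · have h := congrArg (Subgroup.map X.subtype) hC'.sup_eq_top
    rw [Subgroup.map_sup, Subgroup.map_subgroupOf_eq_of_le hYX] at h
    rw [h, ← MonoidHom.range_eq_map, Subgroup.range_subtype]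
  · have h := congrArg (Subgroup.map X.subtype) hC'.inf_eq_bot
    rw [Subgroup.map_inf _ _ _ X.subtype_injective, Subgroup.map_subgroupOf_eq_of_le hYX] at h
    rw [h]
    simp

/-- from the lattice of `X/N` to the interval `[N, X]` -/
theorem interval_quot (X N : Subgroup G) (hNX : N ≤ X) [(N.subgroupOf X).Normal]
    (hK : ComplementedLattice (Subgroup (X ⧸ N.subgroupOf X))) :
    ∀ Y : Subgroup G, N ≤ Y → Y ≤ X → ∃ C : Subgroup G, N ≤ C ∧ C ≤ X ∧ Y ⊔ C = X ∧ Y ⊓ C = N := by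
  intro Y hNY hYX
  let π : X →* X ⧸ N.subgroupOf X := QuotientGroup.mk' (N.subgroupOf X)
  have hπ : Function.Surjective π := QuotientGroup.mk'_surjective _
  have hker : π.ker = N.subgroupOf X := QuotientGroup.ker_mk' _
  obtain ⟨C', hC'⟩ := hK.exists_isCompl ((Y.subgroupOf X).map π)
  -- the preimage in X
  let C1 : Subgroup X := C'.comap π
  have hkerC1 : N.subgroupOf X ≤ C1 := by
    intro x hx
    have : x ∈ π.ker := by rw [hker]; exact hx
    show π x ∈ C'
    rw [MonoidHom.mem_ker.mp this]; exact C'.one_mem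
  have hNYo : N.subgroupOf X ≤ Y.subgroupOf X := fun x hx => hNY hx
  have hsupC : Y.subgroupOf X ⊔ C1 = ⊤ := by
    have h := congrArg (Subgroup.comap π) hC'.sup_eq_top
    rw [Subgroup.comap_top] at h
    rw [eq_top_iff, ← h]
    intro x hx
    have hx' : π x ∈ (Y.subgroupOf X).map π ⊔ C' := hx
    rw [← Subgroup.map_comap_eq_self_of_surjective hπ C', ← Subgroup.map_sup] at hx'
    obtain ⟨y, hy, hyx⟩ := hx'
    have : y⁻¹ * x ∈ π.ker := by
      rw [MonoidHom.mem_ker, map_mul, map_inv, hyx]; simp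
    rw [hker] at this
    have hh : x = y * (y⁻¹ * x) := by group
    rw [hh]
    refine Subgroup.mul_mem _ hy (Subgroup.mem_sup_left (hNYo this))
  have hinfC : Y.subgroupOf X ⊓ C1 = N.subgroupOf X := by
    apply le_antisymm
    · intro x hx
      have h1 : π x ∈ (Y.subgroupOf X).map π ⊓ C' := ⟨⟨x, hx.1, rfl⟩, hx.2⟩
      rw [hC'.inf_eq_bot, Subgroup.mem_bot] at h1
      rw [← hker]; exact h1
    · exact le_inf hNYo hkerC1
  refine ⟨C1.map X.subtype, ?_, Subgroup.map_subtype_le _, ?_, ?_⟩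
  · intro n hn
    exact ⟨⟨n, hNX hn⟩, hkerC1 (by simpa [Subgroup.mem_subgroupOf] using hn), rfl⟩
  · have h := congrArg (Subgroup.map X.subtype) hsupC
    rw [Subgroup.map_sup, Subgroup.map_subgroupOf_eq_of_le hYX] at h
    rw [h, ← MonoidHom.range_eq_map, Subgroup.range_subtype]
  · have h := congrArg (Subgroup.map X.subtype) hinfC
    rw [Subgroup.map_inf _ _ _ X.subtype_injective, Subgroup.map_subgroupOf_eq_of_le hYX, Subgroup.map_subgroupOf_eq_of_le hNX] at h
    exact h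

end CfsgLib.ClassGeo.CoLat
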