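import Mathlib

/-! Counting Klein four-subgroups through ordered pairs of commuting involutions. -/

set_option autoImplicit false
set_option linter.unusedVariables false
set_option linter.style.haveILetI false
set_option linter.unusedSectionVars false
set_option linter.unusedSimpArgs false

namespace CfsgLib.ClassGeo.KleinCount

variable {G : Type*} [Group G]

/-- Ordered pairs of distinct commuting involutions. -/
structure IsPair (t u : G) : Prop where
  ht : t * t = 1
  hu : u * u = 1
  t1 : t ≠ 1
  u1 : u ≠ 1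
  ne : t ≠ u
  comm : t * u = u * t

/-- The subgroup attached to a pair. -/
def V4 (t u : G) (h : IsPair t u) : Subgroup G where
  carrier := {x | x = 1 ∨ x = t ∨ x = u ∨ x = t * u}
  one_mem' := Or.inl rfl
  mul_mem' := by
    have e1 : t * (t * u) = u := by rw [← mul_assoc, h.ht, one_mul]
    have e2 : u * (t * u) = t := by rw [h.comm, ← mul_assoc, h.hu, one_mul]
    have e3 : t * u * t = u := by rw [h.comm, mul_assoc, h.ht, mul_one]
    have e4 : t * u * u = t := by rw [mul_assoc, h.hu, mul_one]
    have e5 : t * u * (t * u) = 1 := by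
      rw [← mul_assoc, e3, h.hu]
    rintro a b (rfl | rfl | rfl | rfl) (rfl | rfl | rfl | rfl) <;>
      simp only [Set.mem_setOf_eq, one_mul, mul_one, h.ht, h.hu, e1, e2, e3, e4, e5, ← h.comm, true_or, or_true]
  inv_mem' := by
    have e5 : t * u * (t * u) = 1 := by
      rw [← mul_assoc, h.comm, mul_assoc u, h.ht, mul_one, h.hu]
    have hi : ∀ x : G, x * x = 1 → x⁻¹ = x := fun x hx => inv_eq_of_mul_eq_one_left hx
    rintro a (rfl | rfl | rfl | rfl)
    · simp
    · rw [hi _ h.ht]; simp
    · rw [hi _ h.hu]; simp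
    · rw [hi _ e5]; simp

theorem mem_V4 {t u : G} (h : IsPair t u) (x : G) : x ∈ V4 t u h ↔ x = 1 ∨ x = t ∨ x = u ∨ x = t * u := Iff.rfl

theorem card_V4 {t u : G} (h : IsPair t u) : Nat.card (V4 t u h) = 4 := by
  classical
  have e : Nat.card (V4 t u h) = Nat.card {x // x ∈ ({1, t, u, t * u} : Finset G)} := by
    apply Nat.card_congr
    refine Equiv.subtypeEquivRight ?_
    intro x
    simp [mem_V4]
  rw [e, Nat.card_eq_fintype_card, Fintype.card_coe]
  have n1 : t * u ≠ 1 := by
    intro h1
    apply h.ne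
    rw [eq_inv_of_mul_eq_one_left h1, inv_eq_of_mul_eq_one_left h.hu]
  have n2 : t * u ≠ t := by
    intro h1
    apply h.u1
    simpa using h1
  have n3 : t * u ≠ u := by
    intro h1
    apply h.t1
    simpa using h1
  rw [Finset.card_insert_of_notMem, Finset.card_insert_of_notMem, Finset.card_insert_of_notMem, Finset.card_singleton]
  · simp only [Finset.mem_singleton]
    intro h1
    exact n3 h1.symm
  · simp only [Finset.mem_insert, Finset.mem_singleton, not_or]
    refine ⟨h.ne, fun h1 => n2 h1.symm⟩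
  · simp only [Finset.mem_insert, Finset.mem_singleton, not_or]
    refine ⟨h.t1.symm, h.u1.symm, fun h1 => n1 h1.symm⟩

theorem klein_V4 {t u : G} (h : IsPair t u) : IsKleinFour (V4 t u h) := by
  have hc := card_V4 h
  haveI : Finite (V4 t u h) := Nat.finite_of_card_ne_zero (by omega)
  haveI : Nontrivial (V4 t u h) := by
    rw [← Finite.one_lt_card_iff_nontrivial, hc]
    norm_num
  refine ⟨hc, (Monoid.exponent_eq_prime_iff Nat.prime_two).2 ?_⟩
  rintro ⟨x, hx⟩ hx1
  have e5 : t * u * (t * u) = 1 := by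
    rw [← mul_assoc, h.comm, mul_assoc u, h.ht, mul_one, h.hu]
  have hxx : x * x = 1 := by
    rcases hx with rfl | rfl | rfl | rfl
    · simp
    · exact h.ht
    · exact h.hu
    · exact e5
  apply orderOf_eq_prime
  · apply Subtype.ext
    show x ^ 2 = 1
    rw [pow_two, hxx]
  · exact hx1

theorem klein_elem {V : Subgroup G} (hV : IsKleinFour V) {x : G} (hx : x ∈ V) : x * x = 1 := by
  have h1 : (⟨x, hx⟩ : V) ^ 2 = 1 := by
    have := Monoid.pow_exponent_eq_one (⟨x, hx⟩ : V)
    rwa [hV.exponent_two] at this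
  have h2 := congrArg Subtype.val h1
  rw [pow_two] at h2
  exact h2

theorem klein_comm {V : Subgroup G} (hV : IsKleinFour V) {x y : G} (hx : x ∈ V) (hy : y ∈ V) : x * y = y * x := by
  have h1 := klein_elem hV hx
  have h2 := klein_elem hV hy
  have h3 := klein_elem hV (V.mul_mem hx hy)
  calc x * y = x * y * (x * y) * (y⁻¹ * x⁻¹) := by group
    _ = y⁻¹ * x⁻¹ := by rw [h3, one_mul]
    _ = y * x := by
      rw [inv_eq_of_mul_eq_one_left h1, inv_eq_of_mul_eq_one_left h2]

theorem V4_eq {V : Subgroup G} (hV : IsKleinFour V) {t u : G} (h : IsPair t u) (ht : t ∈ V) (hu : u ∈ V) : V4 t u h = V := by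
  have hc := hV.card_four
  haveI : Finite V := Nat.finite_of_card_ne_zero (by omega)
  apply Subgroup.eq_of_le_of_card_ge
  · rintro x (rfl | rfl | rfl | rfl)
    · exact V.one_mem
    · exact ht
    · exact hu
    · exact V.mul_mem ht hu
  · rw [hc, card_V4 h]

theorem isPair_of_mem {V : Subgroup G} (hV : IsKleinFour V) {t u : G} (ht : t ∈ V) (hu : u ∈ V) (t1 : t ≠ 1) (u1 : u ≠ 1) (hne : t ≠ u) :
    IsPair t u :=
  ⟨klein_elem hV ht, klein_elem hV hu, t1, u1, hne, klein_comm hV ht hu⟩

variable [Finite G]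

open Classical in
/-- Count of pairs in terms of Klein four-subgroups. -/
theorem card_pairs : Nat.card {p : G × G // IsPair p.1 p.2} = 6 * Nat.card {V : Subgroup G // IsKleinFour V} := by
  classical
  haveI := Fintype.ofFinite G
  haveI : Fintype (Subgroup G) := Fintype.ofFinite _
  let Ps : Finset (G × G) := Finset.univ.filter fun p => IsPair p.1 p.2
  let Ks : Finset (Subgroup G) := Finset.univ.filter fun V => IsKleinFour V
  let f : G × G → Subgroup G := fun p => if h : IsPair p.1 p.2 then V4 p.1 p.2 h else ⊥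
  have hf : ∀ {t u : G} (h : IsPair t u), f (t, u) = V4 t u h := by
    intro t u h
    show (if h' : IsPair t u then V4 t u h' else ⊥) = _
    rw [dif_pos h]
  have hmaps : Set.MapsTo f Ps Ks := by
    rintro ⟨t, u⟩ hp
    have hp' : IsPair t u := (Finset.mem_filter.1 hp).2
    rw [hf hp']
    exact Finset.mem_filter.2 ⟨Finset.mem_univ _, klein_V4 hp'⟩
  have hfib : ∀ V ∈ Ks, (Ps.filter fun p => f p = V).card = 6 := by
    intro V hV
    have hK : IsKleinFour V := (Finset.mem_filter.1 hV).2
    let T : Finset G := Finset.univ.filter fun g => g ∈ V ∧ g ≠ 1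
    have hT : T.card = 3 := by
      have h4 : (Finset.univ.filter fun g : G => g ∈ V).card = 4 := by
        rw [← hK.card_four, Nat.card_eq_fintype_card, Fintype.card_subtype]
      have h5 : T = (Finset.univ.filter fun g : G => g ∈ V).erase 1 := by
        ext g
        simp [T, and_comm]
      rw [h5, Finset.card_erase_of_mem (by simp [V.one_mem]), h4]
    have hE : (Ps.filter fun p => f p = V) = T.offDiag := by
      ext ⟨t, u⟩
      simp only [Finset.mem_filter, Finset.mem_offDiag, Ps, T, Finset.mem_univ, true_and]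
      constructor
      · rintro ⟨hp, hfv⟩
        rw [hf hp] at hfv
        subst hfv
        exact ⟨⟨Or.inr (Or.inl rfl), hp.t1⟩, ⟨Or.inr (Or.inr (Or.inl rfl)), hp.u1⟩, hp.ne⟩
      · rintro ⟨⟨ht, t1⟩, ⟨hu, u1⟩, hne⟩
        have hp := isPair_of_mem hK ht hu t1 u1 hne
        refine ⟨hp, ?_⟩
        rw [hf hp]
        exact V4_eq hK hp ht hu
    rw [hE, Finset.offDiag_card, hT]
  have h1 := Finset.card_eq_sum_card_fiberwise hmaps
  rw [Finset.sum_congr rfl hfib, Finset.sum_const, smul_eq_mul] at h1
  have h2 : Nat.card {p : G × G // IsPair p.1 p.2} = Ps.card := by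
    rw [Nat.card_eq_fintype_card, Fintype.card_subtype]
  have h3 : Nat.card {V : Subgroup G // IsKleinFour V} = Ks.card := by
    rw [Nat.card_eq_fintype_card, Fintype.card_subtype]
  rw [h2, h3, h1, mul_comm]

/-- The number of pairs through fixed numbers of partners. -/
theorem card_pairs' (n : ℕ) (hn : ∀ t : G, t * t = 1 → t ≠ 1 → Nat.card {u : G // IsPair t u} = n) :
    Nat.card {p : G × G // IsPair p.1 p.2} = Nat.card {t : G // t * t = 1 ∧ t ≠ 1} * n := by
  classical
  haveI := Fintype.ofFinite {t : G // t * t = 1 ∧ t ≠ 1}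
  have e : {p : G × G // IsPair p.1 p.2} ≃ Σ t : {t : G // t * t = 1 ∧ t ≠ 1}, {u : G // IsPair t.1 u} :=
    { toFun := fun p => ⟨⟨p.1.1, p.2.ht, p.2.t1⟩, ⟨p.1.2, p.2⟩⟩
      invFun := fun q => ⟨(q.1.1, q.2.1), q.2.2⟩
      left_inv := fun p => rfl
      right_inv := fun q => rfl }
  rw [Nat.card_congr e, Nat.card_sigma]
  have : ∀ t : {t : G // t * t = 1 ∧ t ≠ 1}, Nat.card {u : G // IsPair t.1 u} = n := fun t => hn t.1 t.2.1 t.2.2
  simp only [this]
  rw [Finset.sum_const, smul_eq_mul, Finset.card_univ, Nat.card_eq_fintype_card]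

end CfsgLib.ClassGeo.KleinCount
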