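import Mathlib
import Cfsg.Agent.Lib.ClassGeo.SpOrder
import Cfsg.Agent.Lib.ClassGeo.Bridge

set_option autoImplicit false
set_option linter.unusedSimpArgs false
set_option linter.unusedVariables false
set_option linter.unusedSectionVars false

namespace CfsgLib.ClassGeo.SpInv

open Module CfsgLib.ClassGeo

section abstr

variable {F V : Type*} [Field F] [AddCommGroup V] [Module F V] {B : LinearMap.BilinForm F V}

section gen

variable {ι : Type*} [Fintype ι] [DecidableEq ι]

/-- A hyperbolic system adapted to a self-adjoint square-zero map. -/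
def Sys (B : LinearMap.BilinForm F V) (N : V →ₗ[F] V) (z : ι → V) (τ : ι → ι) : Prop :=
  (∀ i j, B (z i) (z j) = 0) ∧ (∀ i j, B (N (z i)) (z j) = if τ i = j then 1 else 0)

/-- The vectors orthogonal to the system and its image. -/
def Wp (B : LinearMap.BilinForm F V) (N : V →ₗ[F] V) (z : ι → V) (v : V) : Prop :=
  ∀ j, B (z j) v = 0 ∧ B (N (z j)) v = 0

theorem hsum1 {τ : ι → ι} (hτ : ∀ i, τ (τ i) = i) (f : ι → F) (j : ι) :
    ∑ i, f i * (if τ i = j then 1 else 0) = f (τ j) := by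
  rw [Finset.sum_eq_single (τ j)]
  · simp [hτ]
  · intro i _ hi
    have : τ i ≠ j := by
      rintro rfl
      exact hi (hτ i).symm
    simp [this]
  · simp

theorem sys_li (hsymm : ∀ u v, B u v = B v u) (N : V →ₗ[F] V) (hN2 : ∀ y, N (N y) = 0) (hadj : ∀ y z, B (N y) z = B y (N z))
    {τ : ι → ι} (hτ : ∀ i, τ (τ i) = i) {z : ι → V} (hz : Sys B N z τ) :
    LinearIndependent F (Sum.elim z (fun i => N (z i))) := by
  have hzu : ∀ i j, B (z j) (N (z i)) = if τ i = j then 1 else 0 := fun i j => by rw [hsymm, hz.2]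
  have huu : ∀ i j, B (N (z i)) (N (z j)) = 0 := fun i j => by rw [hadj, hN2, map_zero]
  rw [Fintype.linearIndependent_iff]
  intro g hg
  rw [Fintype.sum_sum_type] at hg
  simp only [Sum.elim_inl, Sum.elim_inr] at hg
  have h1 : ∀ j, g (Sum.inr (τ j)) = 0 := by
    intro j
    have := congrArg (B (z j)) hg
    simp only [map_add, map_sum, map_smul, smul_eq_mul, map_zero, hz.1, hzu, mul_zero, Finset.sum_const_zero, zero_add] at this
    rw [hsum1 hτ (fun i => g (Sum.inr i)) j] at this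
    exact this
  have h2 : ∀ j, g (Sum.inl (τ j)) = 0 := by
    intro j
    have := congrArg (B (N (z j))) hg
    simp only [map_add, map_sum, map_smul, smul_eq_mul, map_zero, huu, hz.2, mul_zero, Finset.sum_const_zero, add_zero] at this
    simpa using this
  rintro (i | i)
  · have := h2 (τ i)
    rwa [hτ] at this
  · have := h1 (τ i)
    rwa [hτ] at this

theorem formula_of_stuck (hsymm : ∀ u v, B u v = B v u) (hsep : ∀ u, (∀ v, B u v = 0) → u = 0)
    (N : V →ₗ[F] V) (hN2 : ∀ y, N (N y) = 0) (hadj : ∀ y z, B (N y) z = B y (N z))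
    {τ : ι → ι} (hτ : ∀ i, τ (τ i) = i) {z : ι → V} (hz : Sys B N z τ)
    (hst : ∀ a b, Wp B N z a → Wp B N z b → B (N a) b = 0) (v : V) :
    N v = ∑ i, B (N (z (τ i))) v • N (z i) := by
  have hzu : ∀ i j, B (z j) (N (z i)) = if τ i = j then 1 else 0 := fun i j => by rw [hsymm, hz.2]
  have huu : ∀ i j, B (N (z i)) (N (z j)) = 0 := fun i j => by rw [hadj, hN2, map_zero]
  obtain ⟨π, hπ⟩ : ∃ π : V → V, ∀ y, π y = y - (∑ i, B (N (z (τ i))) y • z i) - ∑ i, B (z (τ i)) y • N (z i) := ⟨_, fun _ => rfl⟩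
  have p1 : ∀ y j, B (z j) (π y) = 0 := by
    intro y j
    rw [hπ]
    simp only [map_sub, map_sum, map_smul, smul_eq_mul, hz.1, hzu, mul_zero, Finset.sum_const_zero, sub_zero]
    rw [hsum1 hτ (fun i => B (z (τ i)) y) j, hτ, sub_self]
  have p2 : ∀ y j, B (N (z j)) (π y) = 0 := by
    intro y j
    rw [hπ]
    simp only [map_sub, map_sum, map_smul, smul_eq_mul, hz.2, huu, mul_zero, Finset.sum_const_zero, sub_zero]
    simp [hτ]
  have p3 : ∀ y, N (π y) = N y - ∑ i, B (N (z (τ i))) y • N (z i) := by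
    intro y
    rw [hπ]
    simp only [map_sub, map_sum, map_smul, hN2, smul_zero, Finset.sum_const_zero, sub_zero]
  have hW : ∀ y, Wp B N z (π y) := fun y j => ⟨p1 y j, p2 y j⟩
  have hNa : N (π v) = 0 := by
    by_contra hne
    obtain ⟨u, hu⟩ : ∃ u, B (N (π v)) u ≠ 0 := by
      by_contra hc
      push Not at hc
      exact hne (hsep _ hc)
    have h0 := hst (π v) (π u) (hW v) (hW u)
    apply hu
    have e1 : ∀ i, B (N (π v)) (z i) = 0 := by
      intro i
      rw [hadj, hsymm, p2]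
    have e2 : ∀ i, B (N (π v)) (N (z i)) = 0 := by
      intro i
      rw [hadj, hN2, map_zero]
    rw [hπ u] at h0
    simp only [map_sub, map_sum, map_smul, smul_eq_mul, e1, e2, mul_zero, Finset.sum_const_zero, sub_zero] at h0
    exact h0
  rw [p3] at hNa
  exact sub_eq_zero.mp hNa

/-- The rank of `N` is the size of the system. -/
theorem rank_eq (N : V →ₗ[F] V) {z : ι → V} {τ : ι → ι} (hli : LinearIndependent F (Sum.elim z (fun i => N (z i))))
    (hform : ∀ v, N v = ∑ i, B (N (z (τ i))) v • N (z i)) :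
    finrank F (LinearMap.range N) = Fintype.card ι := by
  have hu : LinearIndependent F (fun i => N (z i)) := by
    have := hli.comp (Sum.inr : ι → ι ⊕ ι) Sum.inr_injective
    exact this
  have e : LinearMap.range N = Submodule.span F (Set.range (fun i => N (z i))) := by
    apply le_antisymm
    · rintro _ ⟨y, rfl⟩
      rw [hform]
      exact Submodule.sum_mem _ (fun i _ => Submodule.smul_mem _ _ (Submodule.subset_span ⟨i, rfl⟩))
    · rw [Submodule.span_le]
      rintro _ ⟨i, rfl⟩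
      exact ⟨z i, rfl⟩
  rw [e, finrank_span_eq_card hu]

/-- Witt extension for a linearly independent family. -/
theorem witt_family [FiniteDimensional F V] (hA : B.IsAlt) (hsep : ∀ u, (∀ v, B u v = 0) → u = 0)
    {κ : Type*} [Fintype κ] (v v' : κ → V)
    (hv : LinearIndependent F v) (hv' : LinearIndependent F v') (hG : ∀ i j, B (v' i) (v' j) = B (v i) (v j)) :
    ∃ g : V ≃ₗ[F] V, (∀ x y, B (g x) (g y) = B x y) ∧ ∀ i, g (v i) = v' i := by
  classical
  obtain ⟨b, hb⟩ : ∃ b : Basis κ F (Submodule.span F (Set.range v)), b = Basis.span hv := ⟨_, rfl⟩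
  have hbv : ∀ i, ((b i : Submodule.span F (Set.range v)) : V) = v i := by
    intro i
    rw [hb, Basis.span_apply]
  obtain ⟨φ, hφ⟩ : ∃ φ : Submodule.span F (Set.range v) →ₗ[F] V, φ = b.constr F v' := ⟨_, rfl⟩
  have hφb : ∀ i, φ (b i) = v' i := by
    intro i
    rw [hφ, Basis.constr_basis]
  have hinj : ∀ u, φ u = 0 → u = 0 := by
    intro u hu
    rw [hφ, Basis.constr_apply_fintype] at hu
    have h1 := Fintype.linearIndependent_iff.mp hv' _ hu
    apply b.equivFun.injective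
    ext i
    simpa using h1 i
  have k1 : ∀ (i) (t : Submodule.span F (Set.range v)), B (v' i) (φ t) = B (v i) t := by
    intro i t
    have : (B (v' i)) ∘ₗ φ = (B (v i)) ∘ₗ (Submodule.span F (Set.range v)).subtype := by
      apply b.ext
      intro j
      simp only [LinearMap.comp_apply, hφb, Submodule.subtype_apply, hbv, hG]
    exact LinearMap.congr_fun this t
  have hanti : ∀ x y, B x y = - B y x := fun x y => (hA.neg_eq y x).symm
  have k2 : ∀ s t : Submodule.span F (Set.range v), B (φ s) (φ t) = B s t := by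
    intro s t
    have : (B (φ s)) ∘ₗ φ = (B (s : V)) ∘ₗ (Submodule.span F (Set.range v)).subtype := by
      apply b.ext
      intro j
      simp only [LinearMap.comp_apply, hφb, Submodule.subtype_apply, hbv]
      rw [hanti (φ s) (v' j), k1, hanti (s : V) (v j)]
    exact LinearMap.congr_fun this t
  obtain ⟨g, hg, hgφ⟩ := (altEps hA hsep).witt _ φ (by
    intro u u' e
    have : φ (u - u') = 0 := by rw [map_sub, e, sub_self]
    exact sub_eq_zero.mp (hinj _ this)) k2
  refine ⟨g, hg, ?_⟩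
  intro i
  have := hgφ (b i)
  rw [hφb, hbv] at this
  exact this

end gen

section char2

variable [CharP F 2]

theorem Q_add (hsymm : ∀ u v, B u v = B v u) (N : V →ₗ[F] V) (hadj : ∀ y z, B (N y) z = B y (N z)) (u v : V) :
    B (N (u + v)) (u + v) = B (N u) u + B (N v) v := by
  simp only [map_add, LinearMap.add_apply]
  have e : B (N v) u = B (N u) v := by rw [hadj, hsymm]
  rw [e]
  have := CharTwo.add_self_eq_zero (B (N u) v)
  linear_combination this

theorem Q_smul (N : V →ₗ[F] V) (s : F) (v : V) : B (N (s • v)) (s • v) = s ^ 2 * B (N v) v := by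
  simp only [map_smul, LinearMap.smul_apply, smul_eq_mul]
  ring

theorem exists_sqrt [Finite F] (x : F) : ∃ s : F, s ^ 2 = x := by
  haveI : ExpChar F 2 := ExpChar.prime Nat.prime_two
  obtain ⟨l, hl⟩ := (Finite.surjective_of_injective (frobenius F 2).injective) x
  exact ⟨l, by rw [← hl, frobenius_def]⟩

/-- Index involution on pairs. -/
abbrev swapB (k : ℕ) : Fin k × Bool → Fin k × Bool := fun p => (p.1, !p.2)

/-- Adding a pair to a system. -/
noncomputable def zext {k : ℕ} (z : Fin k × Bool → V) (c d : V) : Fin (k + 1) × Bool → V :=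
  fun p => Fin.cases (if p.2 then d else c) (fun i => z (i, p.2)) p.1

theorem zext_zero {k : ℕ} (z : Fin k × Bool → V) (c d : V) (b : Bool) : zext z c d (0, b) = if b then d else c := by
  simp [zext]

theorem zext_succ {k : ℕ} (z : Fin k × Bool → V) (c d : V) (i : Fin k) (b : Bool) : zext z c d (Fin.succ i, b) = z (i, b) := by
  simp [zext]

theorem sys_ext (hA : B.IsAlt) (hsymm : ∀ u v, B u v = B v u) (N : V →ₗ[F] V) (hadj : ∀ y z, B (N y) z = B y (N z))
    {k : ℕ} {z : Fin k × Bool → V} (hz : Sys B N z (swapB k)) {c d : V}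
    (hc : Wp B N z c) (hd : Wp B N z d) (hcd : B c d = 0) (hQc : B (N c) c = 0) (hQd : B (N d) d = 0) (hNcd : B (N c) d = 1) :
    Sys B N (zext z c d) (swapB (k + 1)) := by
  have hW : ∀ b : Bool, Wp B N z (if b then d else c) := by
    intro b
    cases b
    · simpa using hc
    · simpa using hd
  have h00 : ∀ b b' : Bool, B (if b then d else c) (if b' then d else c) = 0 := by
    intro b b'
    cases b <;> cases b' <;> simp [hcd, hA.self_eq_zero, hsymm d c]
  have hNdc : B (N d) c = 1 := by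
    rw [hadj, hsymm, hNcd]
  have h00' : ∀ b b' : Bool, B (N (if b then d else c)) (if b' then d else c) = if (!b) = b' then 1 else 0 := by
    intro b b'
    cases b <;> cases b' <;> simp [hQc, hQd, hNcd, hNdc]
  constructor
  · rintro ⟨i, b⟩ ⟨j, b'⟩
    refine Fin.cases ?_ (fun i => ?_) i <;> refine Fin.cases ?_ (fun j => ?_) j
    · rw [zext_zero, zext_zero]
      exact h00 b b'
    · rw [zext_zero, zext_succ, hsymm]
      exact (hW b (j, b')).1
    · rw [zext_zero, zext_succ]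
      exact (hW b' (i, b)).1
    · rw [zext_succ, zext_succ]
      exact hz.1 _ _
  · rintro ⟨i, b⟩ ⟨j, b'⟩
    refine Fin.cases ?_ (fun i => ?_) i <;> refine Fin.cases ?_ (fun j => ?_) j
    · rw [zext_zero, zext_zero, h00']
      simp [swapB]
    · rw [zext_zero, zext_succ, hadj, hsymm, (hW b (j, b')).2]
      simp [swapB, (Fin.succ_ne_zero j).symm]
    · rw [zext_zero, zext_succ, (hW b' (i, b)).2]
      simp [swapB, Fin.succ_ne_zero i]
    · rw [zext_succ, zext_succ, hz.2]
      simp [swapB, Fin.succ_inj]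

theorem normalize (hsymm : ∀ u v, B u v = B v u) (N : V →ₗ[F] V) (hN2 : ∀ y, N (N y) = 0) (hadj : ∀ y z, B (N y) z = B y (N z))
    {ι : Type*} {z : ι → V} {c d : V} (hd : Wp B N z d) (hQd : B (N d) d = 0) (hr : B (N c) d ≠ 0) :
    ∃ d₂, Wp B N z d₂ ∧ B c d₂ = 0 ∧ B (N d₂) d₂ = 0 ∧ B (N c) d₂ = 1 := by
  obtain ⟨d₁, hd₁⟩ : ∃ d₁, d₁ = (B (N c) d)⁻¹ • d := ⟨_, rfl⟩
  have h1 : B (N c) d₁ = 1 := by
    rw [hd₁, map_smul, smul_eq_mul]
    exact inv_mul_cancel₀ hr
  have h2 : B (N d₁) d₁ = 0 := by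
    rw [hd₁, Q_smul, hQd, mul_zero]
  have h3 : Wp B N z d₁ := by
    intro j
    rw [hd₁]
    simp [(hd j).1, (hd j).2]
  obtain ⟨e, he⟩ : ∃ e, e = B c d₁ := ⟨_, rfl⟩
  have h4 : B (N d₁) (N d₁) = 0 := by rw [hadj, hN2, map_zero]
  have h5 : B (N c) (N d₁) = 0 := by rw [hadj, hN2, map_zero]
  have h6 : B c (N d₁) = 1 := by rw [← hadj, h1]
  refine ⟨d₁ + e • N d₁, ?_, ?_, ?_, ?_⟩
  · intro j
    have e1 : B (z j) (N d₁) = 0 := by
      rw [← hadj, (h3 j).2]
    have e2 : B (N (z j)) (N d₁) = 0 := by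
      rw [hadj, hN2, map_zero]
    simp [(h3 j).1, (h3 j).2, e1, e2]
  · simp only [map_add, map_smul, smul_eq_mul, h6, mul_one, ← he]
    exact CharTwo.add_self_eq_zero e
  · simp only [map_add, map_smul, hN2, smul_zero, add_zero, smul_eq_mul, h2, h4, mul_zero]
  · simp only [map_add, map_smul, smul_eq_mul, h1, h5, mul_zero, add_zero]

/-- Greedy construction of hyperbolic pairs. -/
theorem exists_stuck [Finite F] [FiniteDimensional F V] (hA : B.IsAlt) (hsymm : ∀ u v, B u v = B v u)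
    (N : V →ₗ[F] V) (hN2 : ∀ y, N (N y) = 0) (hadj : ∀ y z, B (N y) z = B y (N z)) :
    ∃ (k : ℕ) (z : Fin k × Bool → V), Sys B N z (swapB k) ∧
      ∀ c d, Wp B N z c → Wp B N z d → B (N c) c = 0 → B (N d) d = 0 → B (N c) d = 0 := by
  by_contra hc
  push Not at hc
  have hall : ∀ k, ∃ z : Fin k × Bool → V, Sys B N z (swapB k) := by
    intro k
    induction k with
    | zero => exact ⟨fun p => p.1.elim0, fun i => i.1.elim0, fun i => i.1.elim0⟩
    | succ k ih =>
      obtain ⟨z, hz⟩ := ih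
      obtain ⟨c, d, hc', hd', hQc, hQd, hcd⟩ := hc k z hz
      obtain ⟨d₂, h1, h2, h3, h4⟩ := normalize hsymm N hN2 hadj hd' hQd hcd
      exact ⟨zext z c d₂, sys_ext hA hsymm N hadj hz hc' h1 h2 hQc h3 h4⟩
  obtain ⟨z, hz⟩ := hall (finrank F V + 1)
  have hli := sys_li hsymm N hN2 hadj (τ := swapB _) (by simp) hz
  have := hli.fintype_card_le_finrank
  simp only [Fintype.card_sum, Fintype.card_prod, Fintype.card_fin, Fintype.card_bool] at this
  omega

theorem sys_sum {ι κ : Type*} [DecidableEq ι] [DecidableEq κ] (hsymm : ∀ u v, B u v = B v u) (N : V →ₗ[F] V)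
    (hadj : ∀ y z, B (N y) z = B y (N z))
    {z : ι → V} {w : κ → V} {τ : ι → ι} (hz : Sys B N z τ) (hw : Sys B N w id) (hzw : ∀ j, Wp B N z (w j)) :
    Sys B N (Sum.elim z w) (Sum.map τ id) := by
  constructor
  · rintro (i | i) (j | j)
    · exact hz.1 i j
    · exact (hzw j i).1
    · simp only [Sum.elim_inl, Sum.elim_inr]
      rw [hsymm]
      exact (hzw i j).1
    · exact hw.1 i j
  · rintro (i | i) (j | j)
    · simp only [Sum.elim_inl, Sum.map_inl, Sum.inl.injEq]
      exact hz.2 i j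
    · change B (N (z i)) (w j) = _
      rw [(hzw j i).2]
      simp
    · change B (N (w i)) (z j) = _
      rw [hadj, hsymm, (hzw i j).2]
      simp
    · simp only [Sum.elim_inr, Sum.map_inr, Sum.inr.injEq]
      exact hw.2 i j

theorem terminal_aux [Finite F] (hsymm : ∀ u v, B u v = B v u) (N : V →ₗ[F] V) (hadj : ∀ y z, B (N y) z = B y (N z))
    {ι : Type*} {z : ι → V} {w₁ y a : V} (hw₁ : Wp B N z w₁) (hQ : B (N w₁) w₁ = 1) (ha : Wp B N z a)
    (hy : ∀ a', Wp B N z a' → B (N a') a' = 0 → B (N y) a' = 0) (hyw : B (N y) w₁ = 1) (hya : B (N y) a = 0) :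
    B (N a) a = 0 := by
  obtain ⟨s, hs⟩ := exists_sqrt (B (N a) a)
  have h1 : Wp B N z (a + s • w₁) := by
    intro j
    simp [(ha j).1, (ha j).2, (hw₁ j).1, (hw₁ j).2]
  have h2 : B (N (a + s • w₁)) (a + s • w₁) = 0 := by
    rw [Q_add hsymm N hadj, Q_smul, hQ, mul_one, hs]
    exact CharTwo.add_self_eq_zero _
  have h3 := hy _ h1 h2
  simp only [map_add, map_smul, smul_eq_mul, hya, hyw, zero_add, mul_one] at h3
  rw [← hs, h3]
  ring

/-- The terminal block. -/
theorem terminal [Finite F] (hA : B.IsAlt) (hsymm : ∀ u v, B u v = B v u) (N : V →ₗ[F] V) (hN2 : ∀ y, N (N y) = 0)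
    (hadj : ∀ y z, B (N y) z = B y (N z))
    {ι : Type*} {z : ι → V}
    (hst : ∀ c d, Wp B N z c → Wp B N z d → B (N c) c = 0 → B (N d) d = 0 → B (N c) d = 0) :
    ∃ (t : ℕ) (w : Fin t → V), t ≤ 2 ∧ Sys B N w id ∧ (∀ j, Wp B N z (w j)) ∧
      ∀ a b, Wp B N z a → Wp B N w a → Wp B N z b → Wp B N w b → B (N a) b = 0 := by
  by_cases hall : ∀ a, Wp B N z a → B (N a) a = 0
  · refine ⟨0, Fin.elim0, by omega, ⟨fun i => i.elim0, fun i => i.elim0⟩, fun i => i.elim0, ?_⟩
    intro a b ha _ hb _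
    exact hst a b ha hb (hall a ha) (hall b hb)
  push Not at hall
  obtain ⟨w₀, hw₀, hQ₀⟩ := hall
  obtain ⟨e, he⟩ := exists_sqrt (B (N w₀) w₀)⁻¹
  obtain ⟨w₁, hw₁def⟩ : ∃ w₁, w₁ = e • w₀ := ⟨_, rfl⟩
  have hw₁ : Wp B N z w₁ := by
    intro j
    rw [hw₁def]
    simp [(hw₀ j).1, (hw₀ j).2]
  have hQ₁ : B (N w₁) w₁ = 1 := by
    rw [hw₁def, Q_smul, he]
    exact inv_mul_cancel₀ hQ₀
  have h11 : B w₁ w₁ = 0 := hA.self_eq_zero _
  by_cases hsub : ∀ c, Wp B N z c → B (N c) c = 0 → B (N w₁) c = 0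
  · refine ⟨1, fun _ => w₁, by omega, ⟨fun _ _ => h11, ?_⟩, fun _ => hw₁, ?_⟩
    · intro i j
      rw [if_pos (Subsingleton.elim _ _)]
      exact hQ₁
    · intro a b ha ha' hb hb'
      have k : ∀ a, Wp B N z a → Wp B N (fun _ : Fin 1 => w₁) a → B (N a) a = 0 := by
        intro a ha ha'
        exact terminal_aux hsymm N hadj hw₁ hQ₁ ha hsub hQ₁ (ha' 0).2
      exact hst a b ha hb (k a ha ha') (k b hb hb')
  push Not at hsub
  obtain ⟨c₀, hc₀, hQc₀, hr⟩ := hsub
  obtain ⟨c, hcdef⟩ : ∃ c, c = (B (N w₁) c₀)⁻¹ • c₀ := ⟨_, rfl⟩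
  have hc : Wp B N z c := by
    intro j
    rw [hcdef]
    simp [(hc₀ j).1, (hc₀ j).2]
  have hQc : B (N c) c = 0 := by
    rw [hcdef, Q_smul, hQc₀, mul_zero]
  have hw₁c : B (N w₁) c = 1 := by
    rw [hcdef, map_smul, smul_eq_mul]
    exact inv_mul_cancel₀ hr
  have hcw₁ : B (N c) w₁ = 1 := by
    rw [hadj, hsymm, hw₁c]
  -- second vector
  obtain ⟨w₂₀, hw₂₀⟩ : ∃ w₂₀, w₂₀ = w₁ + c := ⟨_, rfl⟩
  obtain ⟨β, hβ⟩ : ∃ β, β = B w₁ w₂₀ := ⟨_, rfl⟩
  obtain ⟨w₂, hw₂⟩ : ∃ w₂, w₂ = w₂₀ + β • N w₁ := ⟨_, rfl⟩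
  have huu : ∀ x y, B (N x) (N y) = 0 := fun x y => by rw [hadj, hN2, map_zero]
  have hNw₂ : N w₂ = N w₁ + N c := by
    rw [hw₂, hw₂₀]
    simp [hN2]
  have e1 : B (N w₁) w₂₀ = 0 := by
    rw [hw₂₀, map_add, hQ₁, hw₁c]
    exact CharTwo.add_self_eq_zero _
  have e2 : B (N w₁) w₂ = 0 := by
    rw [hw₂, map_add, map_smul, e1, huu]
    simp
  have e3 : B w₁ (N w₁) = 1 := by
    rw [← hadj, hQ₁]
  have e4 : B w₁ w₂ = 0 := by
    rw [hw₂, map_add, map_smul, e3, ← hβ, smul_eq_mul, mul_one]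
    exact CharTwo.add_self_eq_zero _
  have e5 : B (N w₂) w₂ = 1 := by
    rw [hNw₂, hw₂, hw₂₀]
    simp only [map_add, LinearMap.add_apply, map_smul, smul_eq_mul, huu, mul_zero, add_zero, hQ₁, hw₁c, hcw₁, hQc]
    have := CharTwo.add_self_eq_zero (1 : F)
    linear_combination this
  have e6 : B (N w₂) w₁ = 0 := by
    rw [hadj, hsymm, e2]
  have hw₂W : Wp B N z w₂ := by
    intro j
    have n1 : B (z j) (N w₁) = 0 := by
      rw [← hadj, (hw₁ j).2]
    have n2 : B (N (z j)) (N w₁) = 0 := huu _ _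
    rw [hw₂, hw₂₀]
    simp [(hw₁ j).1, (hw₁ j).2, (hc j).1, (hc j).2, n1, n2]
  refine ⟨2, ![w₁, w₂], by omega, ⟨?_, ?_⟩, ?_, ?_⟩
  · intro i j
    fin_cases i <;> fin_cases j
    · exact h11
    · exact e4
    · change B w₂ w₁ = 0
      rw [hsymm, e4]
    · exact hA.self_eq_zero _
  · intro i j
    fin_cases i <;> fin_cases j
    · simpa using hQ₁
    · simpa using e2
    · simpa using e6
    · simpa using e5
  · intro j
    fin_cases j
    · exact hw₁
    · exact hw₂W
  · intro a b ha ha' hb hb'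
    have k : ∀ a, Wp B N z a → Wp B N ![w₁, w₂] a → B (N a) a = 0 := by
      intro a ha ha'
      have n1 : B (N w₁) a = 0 := (ha' 0).2
      have n2 : B (N w₂) a = 0 := (ha' 1).2
      have n3 : B (N c) a = 0 := by
        rw [hNw₂, map_add, LinearMap.add_apply, n1, zero_add] at n2
        exact n2
      exact terminal_aux hsymm N hadj hw₁ hQ₁ ha (fun a' h1 h2 => hst c a' hc h1 hQc h2) hcw₁ n3
    exact hst a b ha hb (k a ha ha') (k b hb hb')

/-- Normal form of a self-adjoint square-zero map. -/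
theorem classify [Finite F] [FiniteDimensional F V] (hA : B.IsAlt) (hsymm : ∀ u v, B u v = B v u)
    (hsep : ∀ u, (∀ v, B u v = 0) → u = 0) (N : V →ₗ[F] V) (hN2 : ∀ y, N (N y) = 0)
    (hadj : ∀ y z, B (N y) z = B y (N z)) :
    ∃ (k t : ℕ) (z : (Fin k × Bool) ⊕ Fin t → V), t ≤ 2 ∧ Sys B N z (Sum.map (swapB k) id) ∧
      (∀ v, N v = ∑ i, B (N (z (Sum.map (swapB k) id i))) v • N (z i)) ∧
      (t = 0 → ∀ v, B (N v) v = 0) ∧ (t ≠ 0 → ∃ v, B (N v) v ≠ 0) := by
  obtain ⟨k, z, hz, hst⟩ := exists_stuck hA hsymm N hN2 hadj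
  obtain ⟨t, w, ht, hw, hzw, hfin⟩ := terminal hA hsymm N hN2 hadj hst
  have hS := sys_sum hsymm N hadj hz hw hzw
  have hτ : ∀ i, Sum.map (swapB k) (id : Fin t → Fin t) (Sum.map (swapB k) id i) = i := by
    rintro (⟨p, b⟩ | i) <;> simp [swapB]
  have hW : ∀ a, Wp B N (Sum.elim z w) a → Wp B N z a ∧ Wp B N w a := fun a ha =>
    ⟨fun j => ha (Sum.inl j), fun j => ha (Sum.inr j)⟩
  have hform := formula_of_stuck hsymm hsep N hN2 hadj hτ hS (fun a b ha hb =>
    hfin a b (hW a ha).1 (hW a ha).2 (hW b hb).1 (hW b hb).2)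
  refine ⟨k, t, Sum.elim z w, ht, hS, hform, ?_, ?_⟩
  · rintro rfl v
    rw [hform v]
    simp only [map_sum, LinearMap.sum_apply, map_smul, LinearMap.smul_apply, smul_eq_mul]
    refine Finset.sum_involution (fun i _ => Sum.map (swapB k) id i) ?_ ?_ (fun _ _ => Finset.mem_univ _) (fun i _ => hτ i)
    · intro i _
      rw [hτ, mul_comm]
      exact CharTwo.add_self_eq_zero _
    · intro i _ _
      rcases i with ⟨p, b⟩ | i
      · simp [swapB]
      · exact i.elim0
  · intro ht0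
    obtain ⟨j⟩ : Nonempty (Fin t) := Fin.pos_iff_nonempty.mp (Nat.pos_of_ne_zero ht0)
    refine ⟨w j, ?_⟩
    rw [hw.2]
    simp

/-- Conjugacy of two self-adjoint square-zero maps by an isometry. -/
theorem conj_of_invariants [Finite F] [FiniteDimensional F V] (hA : B.IsAlt) (hsymm : ∀ u v, B u v = B v u)
    (hsep : ∀ u, (∀ v, B u v = 0) → u = 0) (N N' : V →ₗ[F] V)
    (hN2 : ∀ y, N (N y) = 0) (hadj : ∀ y z, B (N y) z = B y (N z))
    (hN2' : ∀ y, N' (N' y) = 0) (hadj' : ∀ y z, B (N' y) z = B y (N' z))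
    (hr : finrank F (LinearMap.range N) = finrank F (LinearMap.range N'))
    (hev : Even (finrank F (LinearMap.range N)) → ((∀ v, B (N v) v = 0) ↔ (∀ v, B (N' v) v = 0))) :
    ∃ g : V ≃ₗ[F] V, (∀ x y, B (g x) (g y) = B x y) ∧ ∀ y, g (N y) = N' (g y) := by
  obtain ⟨k, t, z, ht, hz, hform, ht0, ht1⟩ := classify hA hsymm hsep N hN2 hadj
  obtain ⟨k', t', z', ht', hz', hform', ht0', ht1'⟩ := classify hA hsymm hsep N' hN2' hadj'
  have hτ : ∀ k t i, Sum.map (swapB k) (id : Fin t → Fin t) (Sum.map (swapB k) id i) = i := by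
    intro k t
    rintro (⟨p, b⟩ | i) <;> simp [swapB]
  have hli := sys_li hsymm N hN2 hadj (hτ k t) hz
  have hli' := sys_li hsymm N' hN2' hadj' (hτ k' t') hz'
  have hk := rank_eq N hli hform
  have hk' := rank_eq N' hli' hform'
  simp only [Fintype.card_sum, Fintype.card_prod, Fintype.card_fin, Fintype.card_bool] at hk hk'
  have hpar : t = t' := by
    by_cases he : Even (k * 2 + t)
    · have hiff := hev (by rw [hk]; exact he)
      have he' : t % 2 = 0 := by
        have := Nat.even_iff.mp he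
        omega
      by_cases h0 : t = 0
      · have : t' = 0 := by
          by_contra h1
          obtain ⟨v, hv⟩ := ht1' h1
          exact hv (hiff.mp (ht0 h0) v)
        omega
      · have : t' ≠ 0 := by
          intro h1
          obtain ⟨v, hv⟩ := ht1 h0
          exact hv (hiff.mpr (ht0' h1) v)
        omega
    · have he' : t % 2 = 1 := by
        have := Nat.not_even_iff.mp he
        omega
      omega
  subst hpar
  obtain rfl : k = k' := by omega
  obtain ⟨g, hg, hgv⟩ := witt_family hA hsep _ _ hli hli' (by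
    have e1 : ∀ i j, B (z i) (N (z j)) = B (z' i) (N' (z' j)) := by
      intro i j
      rw [hsymm, hz.2, hsymm, hz'.2]
    rintro (i | i) (j | j)
    · simp only [Sum.elim_inl]
      rw [hz.1, hz'.1]
    · simp only [Sum.elim_inl, Sum.elim_inr]
      rw [e1]
    · simp only [Sum.elim_inl, Sum.elim_inr]
      rw [hz.2, hz'.2]
    · simp only [Sum.elim_inr]
      rw [hadj, hN2, hadj', hN2', map_zero, map_zero])
  have hgu : ∀ i, g (N (z i)) = N' (z' i) := fun i => hgv (Sum.inr i)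
  refine ⟨g, hg, ?_⟩
  intro y
  rw [hform y, hform' (g y), map_sum]
  refine Finset.sum_congr rfl (fun i _ => ?_)
  have e9 := (hgu (Sum.map (swapB k) id i)).symm
  rw [map_smul, hgu, e9, hg]

end char2

end abstr

section std

open Matrix Cfsg

variable {F : Type*} [Field F] [Fintype F] [CharP F 2] {m : ℕ}

/-- The matrix `A - 1` as a linear map. -/
noncomputable def nM (A : Matrix (Fin m ⊕ Fin m) (Fin m ⊕ Fin m) F) : (Fin m ⊕ Fin m → F) →ₗ[F] (Fin m ⊕ Fin m → F) :=
  (A - 1).mulVecLin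

omit [Fintype F] [CharP F 2] in
theorem nM_apply (A : Matrix (Fin m ⊕ Fin m) (Fin m ⊕ Fin m) F) (y : Fin m ⊕ Fin m → F) : nM A y = A *ᵥ y - y := by
  simp [nM, Matrix.sub_mulVec]

omit [Fintype F] in
theorem symp_symm (u v : Fin m ⊕ Fin m → F) : sympBilin (F := F) m u v = sympBilin (F := F) m v u := by
  have := (sympBilin_isAlt (F := F) m).neg_eq v u
  rw [← this, CharTwo.neg_eq]

theorem all_of_card {X : Type*} [Finite X] (p q : X → Prop) (h : Nat.card {v // p v} = Nat.card {v // q v}) (hp : ∀ v, p v) : ∀ v, q v := by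
  have e1 : Nat.card {v // p v} = Nat.card X := Nat.card_congr (Equiv.subtypeUnivEquiv hp)
  have hb := Function.Injective.bijective_of_nat_card_le (Subtype.val_injective (p := q)) (by rw [← h, e1])
  intro v
  obtain ⟨⟨x, hx⟩, rfl⟩ := hb.2 v
  exact hx

/-- Conjugacy of involutions in `Sp`, in terms of invariants. -/
theorem main_iff (a b : ↥(Matrix.symplecticGroup (Fin m) F)) (ha : a * a = 1) (hb : b * b = 1) :
    IsConj a b ↔ ((((a : ↥(Matrix.symplecticGroup (Fin m) F)) : Matrix (Fin m ⊕ Fin m) (Fin m ⊕ Fin m) F) - 1).rank = (((b : ↥(Matrix.symplecticGroup (Fin m) F)) : Matrix (Fin m ⊕ Fin m) (Fin m ⊕ Fin m) F) - 1).rank ∧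
      (Even (((a : ↥(Matrix.symplecticGroup (Fin m) F)) : Matrix (Fin m ⊕ Fin m) (Fin m ⊕ Fin m) F) - 1).rank → Nat.card {v : Fin m ⊕ Fin m → F // Cfsg.sympForm m F v (Matrix.mulVec ((a : ↥(Matrix.symplecticGroup (Fin m) F)) : Matrix (Fin m ⊕ Fin m) (Fin m ⊕ Fin m) F) v) = 0} = Nat.card {v : Fin m ⊕ Fin m → F // Cfsg.sympForm m F v (Matrix.mulVec ((b : ↥(Matrix.symplecticGroup (Fin m) F)) : Matrix (Fin m ⊕ Fin m) (Fin m ⊕ Fin m) F) v) = 0})) := by
  classical
  constructor
  · intro h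
    obtain ⟨c, hc⟩ := isConj_iff.mp h
    have hcm : ∀ v, (c.1 * a.1) *ᵥ v = b.1 *ᵥ (c.1 *ᵥ v) := by
      intro v
      have e0 : c * a = b * c := by rw [← hc]; group
      have e1 : c.1 * a.1 = b.1 * c.1 := congrArg Subtype.val e0
      rw [e1, Matrix.mulVec_mulVec]
    constructor
    · have e0 : c.1 * (c⁻¹).1 = 1 := congrArg Subtype.val (mul_inv_cancel c)
      have e : b.1 - 1 = c.1 * (a.1 - 1) * (c⁻¹).1 := by
        have e1 : b.1 = c.1 * a.1 * (c⁻¹).1 := (congrArg Subtype.val hc).symm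
        rw [mul_sub, sub_mul, mul_one, e0, ← e1]
      have hu : IsUnit (c.1).det := (Matrix.isUnit_iff_isUnit_det _).mp (IsUnit.of_mul_eq_one _ e0)
      have hu' : IsUnit ((c⁻¹).1).det := by
        have e0' : (c⁻¹).1 * c.1 = 1 := congrArg Subtype.val (inv_mul_cancel c)
        exact (Matrix.isUnit_iff_isUnit_det _).mp (IsUnit.of_mul_eq_one _ e0')
      rw [e, Matrix.rank_mul_eq_left_of_isUnit_det _ _ hu', Matrix.rank_mul_eq_right_of_isUnit_det _ _ hu]
    · intro _
      obtain ⟨g, hg⟩ : ∃ g : (Fin m ⊕ Fin m → F) ≃ₗ[F] (Fin m ⊕ Fin m → F), g = (spEquiv m c : fIsom (F := F) (sympForm m F)).1 := ⟨_, rfl⟩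
      have hgc : ∀ v, g v = c.1 *ᵥ v := by
        intro v
        rw [hg]
        exact spEquiv_apply m c v
      refine Nat.card_congr (Equiv.subtypeEquiv g.toEquiv ?_)
      intro v
      change _ ↔ sympForm m F (g v) (b.1 *ᵥ (g v)) = 0
      rw [hgc, ← hcm, ← Matrix.mulVec_mulVec, (mem_sp_iff _).mp c.2]
  · rintro ⟨hr, hev⟩
    have hsymm := symp_symm (F := F) (m := m)
    have hA := sympBilin_isAlt (F := F) m
    have key : ∀ c : ↥(Matrix.symplecticGroup (Fin m) F), c * c = 1 →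
        (∀ y, nM c.1 (nM c.1 y) = 0) ∧ (∀ y z, sympBilin (F := F) m (nM c.1 y) z = sympBilin (F := F) m y (nM c.1 z)) ∧
        (∀ v, sympForm m F v (c.1 *ᵥ v) = sympBilin (F := F) m (nM c.1 v) v) := by
      intro c hc
      have h1 : ∀ y, c.1 *ᵥ (c.1 *ᵥ y) = y := by
        intro y
        have e : c.1 * c.1 = 1 := congrArg Subtype.val hc
        rw [Matrix.mulVec_mulVec, e, Matrix.one_mulVec]
      have hiso := (mem_sp_iff _).mp c.2
      have hadj : ∀ y z, sympBilin (F := F) m (nM c.1 y) z = sympBilin (F := F) m y (nM c.1 z) := by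
        intro y z
        rw [nM_apply, nM_apply]
        simp only [map_sub, LinearMap.sub_apply, sympBilin_apply]
        have := hiso (c.1 *ᵥ y) z
        rw [h1] at this
        rw [← this]
      refine ⟨?_, hadj, ?_⟩
      · intro y
        rw [nM_apply, nM_apply, Matrix.mulVec_sub, h1]
        ext i
        simp only [Pi.sub_apply, Pi.zero_apply]
        have e := CharTwo.add_self_eq_zero (y i - (c.1 *ᵥ y) i)
        linear_combination e
      · intro v
        have e1 : c.1 *ᵥ v = nM c.1 v + v := by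
          rw [nM_apply]
          abel
        rw [e1, ← sympBilin_apply, map_add, hA.self_eq_zero, add_zero, hsymm]
    obtain ⟨ka1, ka2, ka3⟩ := key a ha
    obtain ⟨kb1, kb2, kb3⟩ := key b hb
    have hsep := sympBilin_sep (F := F) m
    obtain ⟨g, hg, hgN⟩ := conj_of_invariants hA hsymm hsep (nM a.1) (nM b.1) ka1 ka2 kb1 kb2 hr (by
      intro he
      have hc := hev he
      constructor
      · intro h0
        have := all_of_card _ _ hc (fun v => by rw [ka3]; exact h0 v)
        intro v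
        rw [← kb3]
        exact this v
      · intro h0
        have := all_of_card _ _ hc.symm (fun v => by rw [kb3]; exact h0 v)
        intro v
        rw [← ka3]
        exact this v)
    obtain ⟨c, hc⟩ : ∃ c, c = (spEquiv m).symm (⟨g, hg⟩ : fIsom (F := F) (sympForm m F)) := ⟨_, rfl⟩
    have hcg : ∀ v, c.1 *ᵥ v = g v := by
      intro v
      have h1 : spEquiv m c = (⟨g, hg⟩ : fIsom (F := F) (sympForm m F)) := by
        rw [hc, MulEquiv.apply_symm_apply]
      have h2 := spEquiv_apply m c v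
      rw [h1] at h2
      exact h2.symm
    rw [isConj_iff]
    refine ⟨c, ?_⟩
    rw [mul_inv_eq_iff_eq_mul]
    apply Subtype.ext
    change c.1 * a.1 = b.1 * c.1
    apply matrix_eq_of_mulVec
    intro v
    rw [← Matrix.mulVec_mulVec, ← Matrix.mulVec_mulVec, hcg, hcg]
    have := hgN v
    rw [nM_apply, nM_apply, map_sub, sub_left_inj] at this
    exact this

end std

end CfsgLib.ClassGeo.SpInv
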