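import Mathlib
import Cfsg.Agent.Lib.ClassGeo.SpInvConj
import Cfsg.Agent.Lib.ClassGeo.OSpin5
import Cfsg.Agent.Lib.ClassGeo.OSpin3
import Cfsg.Agent.Lib.ClassGeo.OStd
import Cfsg.Agent.Lib.H9.QuadSing

set_option autoImplicit false
set_option linter.unusedSimpArgs false
set_option linter.unusedVariables false
set_option linter.unusedSectionVars false

namespace CfsgLib.ClassGeo.OInv

open Module Matrix Cfsg CfsgLib.ClassGeo CfsgLib.ClassGeo.Orth CfsgLib.ClassGeo.OSpin

section abstr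

variable {F V : Type*} [Field F] [AddCommGroup V] [Module F V]

theorem quad_sum_val (Q : QuadraticForm F V) {κ : Type*} (u : κ → V) (c : κ → F)
    (hu : ∀ i j, QuadraticMap.polar Q (u i) (u j) = 0) (s : Finset κ) :
    Q (∑ i ∈ s, c i • u i) = ∑ i ∈ s, c i ^ 2 * Q (u i) := by
  classical
  induction s using Finset.induction_on with
  | empty => simp
  | insert a s ha ih =>
    rw [Finset.sum_insert ha, Finset.sum_insert ha, q_add, ih]
    have e1 : QuadraticMap.polar Q (c a • u a) (∑ i ∈ s, c i • u i) = 0 := by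
      rw [← QuadraticMap.polarBilin_apply_apply, map_sum]
      apply Finset.sum_eq_zero
      intro i _
      rw [map_smul, map_smul, LinearMap.smul_apply, QuadraticMap.polarBilin_apply_apply, hu]
      simp
    rw [e1, add_zero, QuadraticMap.map_smul, smul_eq_mul, sq]

theorem witt_family_q [FiniteDimensional F V] (Q : QuadraticForm F V) (hQ : (QuadraticMap.polarBilin Q).Nondegenerate)
    {κ : Type*} [Fintype κ] (u u' : κ → V) (hu : LinearIndependent F u) (hu' : LinearIndependent F u')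
    (hp : ∀ i j, QuadraticMap.polar Q (u i) (u j) = 0) (hp' : ∀ i j, QuadraticMap.polar Q (u' i) (u' j) = 0)
    (hv : ∀ i, Q (u' i) = Q (u i)) :
    ∃ g : V ≃ₗ[F] V, (∀ x, Q (g x) = Q x) ∧ ∀ i, g (u i) = u' i := by
  classical
  obtain ⟨b, hb⟩ : ∃ b : Basis κ F (Submodule.span F (Set.range u)), b = Basis.span hu := ⟨_, rfl⟩
  have hbv : ∀ i, ((b i : Submodule.span F (Set.range u)) : V) = u i := by
    intro i
    rw [hb, Basis.span_apply]
  obtain ⟨φ, hφ⟩ : ∃ φ : Submodule.span F (Set.range u) →ₗ[F] V, φ = b.constr F u' := ⟨_, rfl⟩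
  have hφb : ∀ i, φ (b i) = u' i := by
    intro i
    rw [hφ, Basis.constr_basis]
  have hφa : ∀ x, φ x = ∑ i, b.equivFun x i • u' i := by
    intro x
    rw [hφ, Basis.constr_apply_fintype]
  have hinj : ∀ x, φ x = 0 → x = 0 := by
    intro x hx
    rw [hφa] at hx
    have h1 := Fintype.linearIndependent_iff.mp hu' _ hx
    apply b.equivFun.injective
    ext i
    simpa using h1 i
  have hiso : ∀ x, Q (φ x) = Q x := by
    intro x
    have e1 : (x : V) = ∑ i, b.equivFun x i • u i := by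
      calc (x : V) = ((∑ i, b.equivFun x i • b i : Submodule.span F (Set.range u)) : V) := by rw [b.sum_equivFun]
        _ = ∑ i, b.equivFun x i • u i := by
          rw [Submodule.coe_sum]
          exact Finset.sum_congr rfl (fun i _ => by rw [Submodule.coe_smul, hbv])
    rw [hφa, e1, quad_sum_val Q u' _ hp', quad_sum_val Q u _ hp]
    exact Finset.sum_congr rfl (fun i _ => by rw [hv])
  obtain ⟨g, hg, hgφ⟩ := quad_witt Q hQ _ φ (by
    intro x x' e
    have : φ (x - x') = 0 := by rw [map_sub, e, sub_self]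
    exact sub_eq_zero.mp (hinj _ this)) hiso
  refine ⟨g, hg, fun i => ?_⟩
  have := hgφ (b i)
  rwa [hφb, hbv] at this

/-- Conjugacy of two self-adjoint square-zero maps by an isometry of the quadratic form. -/
theorem conj_isom [Finite F] [FiniteDimensional F V] [CharP F 2] (Q : QuadraticForm F V)
    (hQ : (QuadraticMap.polarBilin Q).Nondegenerate) (N N' : V →ₗ[F] V)
    (hN2 : ∀ y, N (N y) = 0) (hadj : ∀ y z, QuadraticMap.polarBilin Q (N y) z = QuadraticMap.polarBilin Q y (N z))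
    (hN2' : ∀ y, N' (N' y) = 0) (hadj' : ∀ y z, QuadraticMap.polarBilin Q (N' y) z = QuadraticMap.polarBilin Q y (N' z))
    (hQN : ∀ v, Q (N v) = QuadraticMap.polarBilin Q (N v) v) (hQN' : ∀ v, Q (N' v) = QuadraticMap.polarBilin Q (N' v) v)
    (hr : finrank F (LinearMap.range N) = finrank F (LinearMap.range N'))
    (hev : (∀ v, QuadraticMap.polarBilin Q (N v) v = 0) ↔ (∀ v, QuadraticMap.polarBilin Q (N' v) v = 0)) :
    ∃ g : V ≃ₗ[F] V, (∀ x, Q (g x) = Q x) ∧ ∀ y, g (N y) = N' (g y) := by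
  classical
  have hA : (QuadraticMap.polarBilin Q).IsAlt := by
    intro x
    rw [QuadraticMap.polarBilin_apply_apply, QuadraticMap.polar_self, two_smul]
    exact CharTwo.add_self_eq_zero _
  have hsymm : ∀ u v, QuadraticMap.polarBilin Q u v = QuadraticMap.polarBilin Q v u := by
    intro u v
    rw [QuadraticMap.polarBilin_apply_apply, QuadraticMap.polarBilin_apply_apply, QuadraticMap.polar_comm]
  have hsep : ∀ u, (∀ v, QuadraticMap.polarBilin Q u v = 0) → u = 0 := hQ.1
  obtain ⟨k, t, z, ht, hz, hform, ht0, ht1⟩ := SpInv.classify hA hsymm hsep N hN2 hadj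
  obtain ⟨k', t', z', ht', hz', hform', ht0', ht1'⟩ := SpInv.classify hA hsymm hsep N' hN2' hadj'
  have hτ : ∀ k t i, Sum.map (SpInv.swapB k) (id : Fin t → Fin t) (Sum.map (SpInv.swapB k) id i) = i := by
    intro k t
    rintro (⟨p, b⟩ | i) <;> simp [SpInv.swapB]
  have hli := SpInv.sys_li hsymm N hN2 hadj (hτ k t) hz
  have hli' := SpInv.sys_li hsymm N' hN2' hadj' (hτ k' t') hz'
  have hk := SpInv.rank_eq N hli hform
  have hk' := SpInv.rank_eq N' hli' hform'
  simp only [Fintype.card_sum, Fintype.card_prod, Fintype.card_fin, Fintype.card_bool] at hk hk'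
  have hpar : t = t' := by
    by_cases h0 : t = 0
    · have : t' = 0 := by
        by_contra h1
        obtain ⟨v, hv⟩ := ht1' h1
        exact hv (hev.mp (ht0 h0) v)
      omega
    · have : t' ≠ 0 := by
        intro h1
        obtain ⟨v, hv⟩ := ht1 h0
        exact hv (hev.mpr (ht0' h1) v)
      omega
  subst hpar
  obtain rfl : k = k' := by omega
  have hu : LinearIndependent F (fun i => N (z i)) := hli.comp (Sum.inr : _ → _ ⊕ _) Sum.inr_injective
  have hu' : LinearIndependent F (fun i => N' (z' i)) := hli'.comp (Sum.inr : _ → _ ⊕ _) Sum.inr_injective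
  obtain ⟨g, hg, hgu⟩ := witt_family_q Q hQ _ _ hu hu' (by
    intro i j
    rw [← QuadraticMap.polarBilin_apply_apply, hadj, hN2, map_zero]) (by
    intro i j
    rw [← QuadraticMap.polarBilin_apply_apply, hadj', hN2', map_zero]) (by
    intro i
    rw [hQN, hQN', hz.2, hz'.2])
  have hB : ∀ x y, QuadraticMap.polarBilin Q (g x) (g y) = QuadraticMap.polarBilin Q x y := by
    intro x y
    simp only [QuadraticMap.polarBilin_apply_apply, QuadraticMap.polar, ← map_add, hg]
  refine ⟨g, hg, ?_⟩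
  intro y
  rw [hform y, hform' (g y), map_sum]
  refine Finset.sum_congr rfl (fun i _ => ?_)
  have e9 := (hgu (Sum.map (SpInv.swapB k) id i)).symm
  rw [map_smul, hgu, e9, hB]

end abstr

section mat

variable {F : Type*} [Field F] [Fintype F] {ι : Type} [Fintype ι] [DecidableEq ι]
variable {Q : QuadraticForm F (ι → F)}

theorem gl_conj_rank (g t s : GL ι F) (h : g * t * g⁻¹ = s) :
    ((s : Matrix ι ι F) - 1).rank = ((t : Matrix ι ι F) - 1).rank := by
  have e0 : (g : Matrix ι ι F) * ((g⁻¹ : GL ι F) : Matrix ι ι F) = 1 := by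
    rw [← Units.val_mul, mul_inv_cancel, Units.val_one]
  have e : (s : Matrix ι ι F) - 1 = (g : Matrix ι ι F) * ((t : Matrix ι ι F) - 1) * ((g⁻¹ : GL ι F) : Matrix ι ι F) := by
    rw [← h, Units.val_mul, Units.val_mul, mul_sub, sub_mul, mul_one, e0]
  have hu : IsUnit (g : Matrix ι ι F).det := (Matrix.isUnit_iff_isUnit_det _).mp g.isUnit
  have hu' : IsUnit ((g⁻¹ : GL ι F) : Matrix ι ι F).det := (Matrix.isUnit_iff_isUnit_det _).mp (g⁻¹).isUnit
  rw [e, Matrix.rank_mul_eq_left_of_isUnit_det _ _ hu', Matrix.rank_mul_eq_right_of_isUnit_det _ _ hu]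

/-- The map `t - 1`. -/
noncomputable def nOf (t : GL ι F) : (ι → F) →ₗ[F] (ι → F) := ((t : Matrix ι ι F) - 1).mulVecLin

omit [Fintype F] in
theorem nOf_apply (t : GL ι F) (y : ι → F) : nOf t y = (t : Matrix ι ι F) *ᵥ y - y := by
  simp [nOf, Matrix.sub_mulVec]

theorem polar_mat (t : ↥(Cfsg.isometryGroup F ⇑Q)) (u v : ι → F) :
    QuadraticMap.polarBilin Q (((t : GL ι F) : Matrix ι ι F) *ᵥ u) (((t : GL ι F) : Matrix ι ι F) *ᵥ v) = QuadraticMap.polarBilin Q u v := by
  have e : ∀ x, Q (((t : GL ι F) : Matrix ι ι F) *ᵥ x) = Q x := fun x => t.2 x x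
  simp only [QuadraticMap.polarBilin_apply_apply, QuadraticMap.polar, ← Matrix.mulVec_add, e]

theorem key_facts [CharP F 2] (t : ↥(Cfsg.isometryGroup F ⇑Q)) (ht : t * t = 1) :
    (∀ y, ((t : GL ι F) : Matrix ι ι F) *ᵥ (((t : GL ι F) : Matrix ι ι F) *ᵥ y) = y) ∧
    (∀ y, nOf t.1 (nOf t.1 y) = 0) ∧
    (∀ y z, QuadraticMap.polarBilin Q (nOf t.1 y) z = QuadraticMap.polarBilin Q y (nOf t.1 z)) ∧
    (∀ v, Q (nOf t.1 v) = QuadraticMap.polarBilin Q (nOf t.1 v) v) := by
  have h1 : ∀ y, ((t : GL ι F) : Matrix ι ι F) *ᵥ (((t : GL ι F) : Matrix ι ι F) *ᵥ y) = y := by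
    intro y
    have e : ((t : GL ι F) : Matrix ι ι F) * ((t : GL ι F) : Matrix ι ι F) = 1 := by
      have := congrArg (fun x : ↥(Cfsg.isometryGroup F ⇑Q) => ((x : GL ι F) : Matrix ι ι F)) ht
      exact this
    rw [Matrix.mulVec_mulVec, e, Matrix.one_mulVec]
  have hadj : ∀ y z, QuadraticMap.polarBilin Q (nOf t.1 y) z = QuadraticMap.polarBilin Q y (nOf t.1 z) := by
    intro y z
    rw [nOf_apply, nOf_apply]
    simp only [map_sub, LinearMap.sub_apply]
    have := polar_mat t (((t : GL ι F) : Matrix ι ι F) *ᵥ y) z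
    rw [h1] at this
    rw [this]
  refine ⟨h1, ?_, hadj, ?_⟩
  · intro y
    rw [nOf_apply, nOf_apply, Matrix.mulVec_sub, h1]
    ext i
    simp only [Pi.sub_apply, Pi.zero_apply]
    have e := CharTwo.add_self_eq_zero (y i - (((t : GL ι F) : Matrix ι ι F) *ᵥ y) i)
    linear_combination e
  · intro v
    have e1 : ((t : GL ι F) : Matrix ι ι F) *ᵥ v = nOf t.1 v + v := by
      rw [nOf_apply]
      abel
    have e2 : Q (((t : GL ι F) : Matrix ι ι F) *ᵥ v) = Q v := t.2 v v
    rw [e1, q_add] at e2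
    rw [QuadraticMap.polarBilin_apply_apply]
    have e3 := CharTwo.add_self_eq_zero (QuadraticMap.polar Q (nOf t.1 v) v)
    linear_combination e2 - e3

/-- From an isometry intertwining `t - 1` and `s - 1` to conjugacy. -/
theorem conj_of_intertwine (t s : ↥(Cfsg.isometryGroup F ⇑Q)) (g : (ι → F) ≃ₗ[F] (ι → F)) (hg : ∀ x, Q (g x) = Q x)
    (hgN : ∀ y, g (nOf t.1 y) = nOf s.1 (g y)) : IsConj t s := by
  obtain ⟨c, hc₀⟩ := exists_of_isom (Q := Q) (p := g) hg
  have hc : phi Q c = g := hc₀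
  rw [isConj_iff]
  refine ⟨c, ?_⟩
  rw [mul_inv_eq_iff_eq_mul]
  apply phi_injective (Q := Q)
  rw [map_mul, map_mul, hc]
  ext1 y
  change g (phi Q t y) = phi Q s (g y)
  have := hgN y
  rw [nOf_apply, nOf_apply, map_sub, sub_left_inj] at this
  rw [phi_apply, phi_apply]
  exact this

/-- Conjugacy of involutions of the orthogonal group is conjugacy in the symplectic group of the polar form. -/
theorem conj_iff_polar [CharP F 2] (hQ : (QuadraticMap.polarBilin Q).Nondegenerate)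
    (t s : ↥(Cfsg.isometryGroup F ⇑Q)) (ht : t * t = 1) (hs : s * s = 1) :
    IsConj t s ↔ ∃ g ∈ Cfsg.preserving (Units.coeHom (Matrix ι ι F)) (fun u v => Q (u + v) - Q u - Q v),
      g * (t : GL ι F) * g⁻¹ = (s : GL ι F) := by
  classical
  constructor
  · intro h
    obtain ⟨c, hc⟩ := isConj_iff.mp h
    refine ⟨c.1, ?_, congrArg Subtype.val hc⟩
    intro u v
    have e : ∀ x, Q (((c : GL ι F) : Matrix ι ι F) *ᵥ x) = Q x := fun x => c.2 x x
    change Q (((c : GL ι F) : Matrix ι ι F) *ᵥ u + ((c : GL ι F) : Matrix ι ι F) *ᵥ v) - Q (((c : GL ι F) : Matrix ι ι F) *ᵥ u) - Q (((c : GL ι F) : Matrix ι ι F) *ᵥ v) = _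
    rw [← Matrix.mulVec_add, e, e, e]
  · rintro ⟨g, hg, hgc⟩
    obtain ⟨h1, ka1, ka2, ka3⟩ := key_facts t ht
    obtain ⟨h2, kb1, kb2, kb3⟩ := key_facts s hs
    have hpol : ∀ u v, QuadraticMap.polarBilin Q ((g : Matrix ι ι F) *ᵥ u) ((g : Matrix ι ι F) *ᵥ v) = QuadraticMap.polarBilin Q u v := fun u v => hg u v
    have hcomm : ∀ v, (s.1 : Matrix ι ι F) *ᵥ ((g : Matrix ι ι F) *ᵥ v) = (g : Matrix ι ι F) *ᵥ ((t.1 : Matrix ι ι F) *ᵥ v) := by
      intro v
      have e0 : g * t.1 = s.1 * g := by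
        rw [← hgc]
        group
      have e1 : (g : Matrix ι ι F) * (t.1 : Matrix ι ι F) = (s.1 : Matrix ι ι F) * (g : Matrix ι ι F) := by
        rw [← Units.val_mul, ← Units.val_mul, e0]
      rw [Matrix.mulVec_mulVec, Matrix.mulVec_mulVec, e1]
    have hNg : ∀ v, nOf s.1 ((g : Matrix ι ι F) *ᵥ v) = (g : Matrix ι ι F) *ᵥ (nOf t.1 v) := by
      intro v
      rw [nOf_apply, nOf_apply, hcomm, Matrix.mulVec_sub]
    obtain ⟨g₁, hg₁, hg₁N⟩ := conj_isom Q hQ (nOf t.1) (nOf s.1) ka1 ka2 kb1 kb2 ka3 kb3 (gl_conj_rank g t.1 s.1 hgc).symm (by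
      constructor
      · intro h0 v
        have hs' : v = (g : Matrix ι ι F) *ᵥ (((g⁻¹ : GL ι F) : Matrix ι ι F) *ᵥ v) := by
          rw [Matrix.mulVec_mulVec, ← Units.val_mul, mul_inv_cancel, Units.val_one, Matrix.one_mulVec]
        rw [hs', hNg, hpol]
        exact h0 _
      · intro h0 v
        have := h0 ((g : Matrix ι ι F) *ᵥ v)
        rwa [hNg, hpol] at this)
    exact conj_of_intertwine t s g₁ hg₁ hg₁N

omit [Fintype F] in
theorem wRank_phi (t : ↥(Cfsg.isometryGroup F ⇑Q)) : wRank (phi Q t) = (((t : GL ι F) : Matrix ι ι F) - 1).rank := by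
  unfold wRank Matrix.rank
  have e : LinearMap.range (wT (phi Q t)) = LinearMap.range (((t : GL ι F) : Matrix ι ι F) - 1).mulVecLin := by
    ext x
    constructor
    · rintro ⟨y, rfl⟩
      refine ⟨-y, ?_⟩
      simp only [wT_apply, phi_apply, Matrix.mulVecLin_apply, Matrix.sub_mulVec, Matrix.one_mulVec, Matrix.mulVec_neg]
      abel
    · rintro ⟨y, rfl⟩
      refine ⟨-y, ?_⟩
      simp only [wT_apply, phi_apply, Matrix.mulVecLin_apply, Matrix.sub_mulVec, Matrix.one_mulVec, Matrix.mulVec_neg, map_neg]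
      abel
  rw [e]

theorem mem_omega_iff_even [CharP F 2] (hQ : (QuadraticMap.polarBilin Q).Nondegenerate)
    (h : Fintype.card F ≠ 2 ∨ Fintype.card ι ≠ 4) (t : ↥(Cfsg.isometryGroup F ⇑Q)) :
    t ∈ Cfsg.Omega F ⇑Q ↔ Even (((t : GL ι F) : Matrix ι ι F) - 1).rank := by
  classical
  have hr2 : ringChar F = 2 := by
    rw [ringChar.eq_iff]
    infer_instance
  have hw : wTheta Q (phi Q t) = 1 := by
    have hsq := wTheta_sq_eq_one hQ (isoEquiv Q t).2
    change wTheta Q (phi Q t) * wTheta Q (phi Q t) = 1 at hsq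
    unfold wTheta at hsq ⊢
    by_cases h0 : wDisc Q (phi Q t) = 0
    · rw [h0] at hsq
      simp at hsq
    · exact quadraticChar_eq_one_of_char_two hr2 h0
  rw [mem_omega_iff_wall_all hQ h t]
  have e : wDelta (phi Q t) = 1 ↔ Even (((t : GL ι F) : Matrix ι ι F) - 1).rank := by
    unfold wDelta
    rw [wRank_phi]
    exact neg_one_pow_eq_one_iff_even (by decide)
  rw [← e]
  exact ⟨fun h => h.1, fun h => ⟨h, hw⟩⟩

/-- If `t` fixes a nonsingular vector then `O`-conjugates of `t` are `Ω`-conjugates. -/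
theorem conj_omega_of_fix [CharP F 2] (hQ : (QuadraticMap.polarBilin Q).Nondegenerate) (hn : 2 ≤ Fintype.card ι)
    (h : Fintype.card F ≠ 2 ∨ Fintype.card ι ≠ 4) (t s c : ↥(Cfsg.isometryGroup F ⇑Q)) (hc : c * t * c⁻¹ = s) {v : ι → F} (hv : Q v ≠ 0)
    (htv : ((t : GL ι F) : Matrix ι ι F) *ᵥ v = v) : ∃ g ∈ Cfsg.Omega F ⇑Q, g * t * g⁻¹ = s := by
  classical
  by_cases hcm : c ∈ Cfsg.Omega F ⇑Q
  · exact ⟨c, hcm, hc⟩
  obtain ⟨r, hr₀⟩ := exists_of_isom (Q := Q) (rT_mem v)
  have hr : phi Q r = rT Q v := hr₀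
  have hrt : r * t = t * r := by
    apply phi_injective (Q := Q)
    rw [map_mul, map_mul, hr]
    have e := rT_conj (phi Q t) (isoEquiv Q t).2 hv
    have e2 : phi Q t v = v := by
      rw [phi_apply]
      exact htv
    rw [e2] at e
    exact (mul_inv_eq_iff_eq_mul.mp e).symm
  have hrm : r ∉ Cfsg.Omega F ⇑Q := by
    intro hm
    have h1 := (mem_omega_iff_wall_all hQ h r).mp hm
    rw [hr, wDelta_rT hQ hv] at h1
    exact absurd h1.1 (by decide)
  have hcr : c * r ∈ Cfsg.Omega F ⇑Q := by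
    rw [Subgroup.mul_mem_iff_of_index_two (omega_index_even (by
      have := CharTwo.two_eq_zero (R := F)
      exact this) hn Q hQ h)]
    exact ⟨fun h' => absurd h' hcm, fun h' => absurd h' hrm⟩
  refine ⟨c * r, hcr, ?_⟩
  rw [← hc]
  have : c * r * t * (c * r)⁻¹ = c * (r * t * r⁻¹) * c⁻¹ := by group
  rw [this, hrt]
  congr 2
  group

/-- If `t` fixes no nonsingular vector then its fixed space is a totally singular space of at least half dimension. -/
theorem ts_of_no_fix [CharP F 2] (t : ↥(Cfsg.isometryGroup F ⇑Q)) (ht : t * t = 1)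
    (h0 : ∀ v, ((t : GL ι F) : Matrix ι ι F) *ᵥ v = v → Q v = 0) :
    (∀ x ∈ LinearMap.ker (nOf t.1), Q x = 0) ∧
    Fintype.card ι ≤ 2 * finrank F (LinearMap.ker (nOf t.1)) ∧
    (((t : GL ι F) : Matrix ι ι F) - 1).rank + finrank F (LinearMap.ker (nOf t.1)) = Fintype.card ι := by
  obtain ⟨h1, ka1, ka2, ka3⟩ := key_facts t ht
  have h2 : ∀ x ∈ LinearMap.ker (nOf t.1), Q x = 0 := by
    intro x hx
    apply h0
    have := LinearMap.mem_ker.mp hx
    rw [nOf_apply] at this
    exact sub_eq_zero.mp this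
  have h3 := LinearMap.finrank_range_add_finrank_ker (nOf t.1)
  have h4 : LinearMap.range (nOf t.1) ≤ LinearMap.ker (nOf t.1) := by
    rintro _ ⟨y, rfl⟩
    exact ka1 y
  have h5 := Submodule.finrank_mono h4
  rw [finrank_fintype_fun_eq_card] at h3
  have h6 : finrank F (LinearMap.range (nOf t.1)) = (((t : GL ι F) : Matrix ι ι F) - 1).rank := rfl
  refine ⟨h2, by omega, by omega⟩

end mat

end CfsgLib.ClassGeo.OInv
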