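import Mathlib
import Cfsg.Agent.Lib.ClassGeo.OInvConj

set_option autoImplicit false
set_option linter.unusedSimpArgs false
set_option linter.unusedVariables false
set_option linter.unusedSectionVars false

namespace CfsgLib.ClassGeo.OInv

open Module Matrix Cfsg CfsgLib.ClassGeo CfsgLib.ClassGeo.Orth CfsgLib.ClassGeo.OSpin

section mat

variable {F : Type*} [Field F] [Fintype F] {ι : Type} [Fintype ι] [DecidableEq ι]
variable {Q : QuadraticForm F (ι → F)}

omit [Fintype F] in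
theorem nOf_conj (g t s : GL ι F) (h : g * t * g⁻¹ = s) (v : ι → F) :
    nOf s ((g : Matrix ι ι F) *ᵥ v) = (g : Matrix ι ι F) *ᵥ (nOf t v) := by
  have e0 : g * t = s * g := by
    rw [← h]
    group
  have e1 : (g : Matrix ι ι F) * (t : Matrix ι ι F) = (s : Matrix ι ι F) * (g : Matrix ι ι F) := by
    rw [← Units.val_mul, ← Units.val_mul, e0]
  rw [nOf_apply, nOf_apply, Matrix.mulVec_sub, Matrix.mulVec_mulVec, Matrix.mulVec_mulVec, e1]

omit [Fintype F] in
theorem map_range_nOf (g t s : GL ι F) (h : g * t * g⁻¹ = s) :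
    (LinearMap.range (nOf t)).map (Matrix.mulVecLin (g : Matrix ι ι F)) = LinearMap.range (nOf s) := by
  ext x
  constructor
  · rintro ⟨_, ⟨w, rfl⟩, rfl⟩
    exact ⟨(g : Matrix ι ι F) *ᵥ w, nOf_conj g t s h w⟩
  · rintro ⟨w, rfl⟩
    have hs' : w = (g : Matrix ι ι F) *ᵥ (((g⁻¹ : GL ι F) : Matrix ι ι F) *ᵥ w) := by
      rw [Matrix.mulVec_mulVec, ← Units.val_mul, mul_inv_cancel, Units.val_one, Matrix.one_mulVec]
    rw [hs', nOf_conj g t s h]
    exact ⟨_, ⟨_, rfl⟩, rfl⟩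

theorem mem_omega_iff_delta [CharP F 2] (hQ : (QuadraticMap.polarBilin Q).Nondegenerate)
    (h : Fintype.card F ≠ 2 ∨ Fintype.card ι ≠ 4) (t : ↥(Cfsg.isometryGroup F ⇑Q)) :
    t ∈ Cfsg.Omega F ⇑Q ↔ wDelta (phi Q t) = 1 := by
  classical
  rw [mem_omega_iff_even hQ h t]
  unfold wDelta
  rw [wRank_phi]
  exact (neg_one_pow_eq_one_iff_even (by decide)).symm

/-- Splitting of classes of involutions for forms of plus type. -/
theorem split_plus [CharP F 2] (hQ : (QuadraticMap.polarBilin Q).Nondegenerate) {m : ℕ} (hcard : Fintype.card ι = 2 * m)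
    (hn : 2 ≤ Fintype.card ι) (h : Fintype.card F ≠ 2 ∨ Fintype.card ι ≠ 4) (t s c : ↥(Cfsg.isometryGroup F ⇑Q)) (hc : c * t * c⁻¹ = s)
    (ht : t * t = 1) (htO : t ∈ Cfsg.Omega F ⇑Q) :
    (¬ ((((t : GL ι F) : Matrix ι ι F) - 1).rank = m ∧ ∀ v : ι → F, Q (v + Matrix.mulVec ((t : GL ι F) : Matrix ι ι F) v) = 0) →
      ∃ g ∈ Cfsg.Omega F ⇑Q, g * t * g⁻¹ = s) ∧
    ((((((t : GL ι F) : Matrix ι ι F) - 1).rank = m ∧ ∀ v : ι → F, Q (v + Matrix.mulVec ((t : GL ι F) : Matrix ι ι F) v) = 0)) →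
      ((∃ g ∈ Cfsg.Omega F ⇑Q, g * t * g⁻¹ = s) ↔
        Even (finrank F ↥(LinearMap.range (Matrix.toLin' (((t : GL ι F) : Matrix ι ι F) - 1)) ⊓ LinearMap.range (Matrix.toLin' (((s : GL ι F) : Matrix ι ι F) - 1)))))) := by
  classical
  obtain ⟨h1, ka1, ka2, ka3⟩ := key_facts t ht
  have hfr : finrank F (ι → F) = 2 * m := by
    rw [finrank_fintype_fun_eq_card, hcard]
  have hvec : ∀ v : ι → F, nOf t.1 v = v + Matrix.mulVec ((t : GL ι F) : Matrix ι ι F) v := by
    intro v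
    rw [nOf_apply]
    ext i
    simp only [Pi.sub_apply, Pi.add_apply]
    rw [CharTwo.sub_eq_add, add_comm]
  constructor
  · intro hnot
    by_cases h0 : ∀ v, ((t : GL ι F) : Matrix ι ι F) *ᵥ v = v → Q v = 0
    · exfalso
      apply hnot
      obtain ⟨h2, h3, h4⟩ := ts_of_no_fix t ht h0
      have h5 := ts_finrank_le hQ _ h2
      rw [hfr] at h5
      refine ⟨by omega, fun v => h2 _ ?_⟩
      rw [LinearMap.mem_ker, ← hvec]
      exact ka1 v
    · push Not at h0
      obtain ⟨v, hv1, hv2⟩ := h0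
      exact conj_omega_of_fix hQ hn h t s c hc hv2 hv1
  · rintro ⟨hr, hv⟩
    have hgen := hgen_all hQ h
    have eA : LinearMap.range (Matrix.toLin' (((t : GL ι F) : Matrix ι ι F) - 1)) = LinearMap.range (nOf t.1) := by
      rw [Matrix.toLin'_apply']
      rfl
    have eS : LinearMap.range (Matrix.toLin' (((s : GL ι F) : Matrix ι ι F) - 1)) = LinearMap.range (nOf s.1) := by
      rw [Matrix.toLin'_apply']
      rfl
    rw [eA, eS]
    have hdim : finrank F (LinearMap.range (nOf t.1)) = m := hr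
    have hA : MaxTS Q (LinearMap.range (nOf t.1)) := by
      refine ⟨?_, ?_⟩
      · rintro _ ⟨y, rfl⟩
        rw [hvec]
        exact hv y
      · rw [hdim, hfr]
    have hme : Even m := by
      have := (mem_omega_iff_even hQ h t).mp htO
      rwa [hr] at this
    have hd : finrank F ↥(LinearMap.range (nOf t.1) ⊓ LinearMap.range (nOf s.1)) ≤ m := by
      rw [← hdim]
      exact Submodule.finrank_mono inf_le_left
    have key : ∀ g : ↥(Cfsg.isometryGroup F ⇑Q), g * t * g⁻¹ = s →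
        (Even (finrank F ↥(LinearMap.range (nOf t.1) ⊓ LinearMap.range (nOf s.1))) ↔ g ∈ Cfsg.Omega F ⇑Q) := by
      intro g hg
      have e1 := even_iff_wDelta_mat hQ hgen hA hdim g
      have e2 : g.1 * t.1 * g.1⁻¹ = s.1 := congrArg Subtype.val hg
      rw [map_range_nOf g.1 t.1 s.1 e2] at e1
      rw [mem_omega_iff_delta hQ h g, ← e1, Nat.even_sub hd]
      simp [hme]
    constructor
    · rintro ⟨g, hg, hgc⟩
      exact (key g hgc).mpr hg
    · intro he
      exact ⟨c, (key c hc).mp he, hc⟩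

end mat

end CfsgLib.ClassGeo.OInv
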