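import Mathlib
import Cfsg.Agent.Lib.ClassGeo.SL2Inv
import Cfsg.Agent.Lib.ClassGeo.KleinCount

/-! Commuting involutions of `PSL₂(q)`, `q` odd. -/

set_option autoImplicit false
set_option linter.unusedVariables false
set_option linter.style.haveILetI false
set_option linter.unusedSectionVars false
set_option linter.unusedSimpArgs false

namespace CfsgLib.ClassGeo.SL2Inv

open CfsgLib.H9.SL2Cl Matrix
open CfsgLib.H9.BorelChar (zS zS_00 zS_01 zS_10 zS_11 zS_central zS_sq)
open CfsgLib.H9.Torus CfsgLib.H9.PSL2 CfsgLib.ClassGeo.KleinCount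

variable {F : Type*} [Field F] [Fintype F]

/-- Fibres of the projection have two points. -/
theorem card_preimage (h2 : (2 : F) ≠ 0) (U : Set (ProjectiveSpecialLinearGroup (Fin 2) F)) :
    Nat.card {y : SL2 F // pr y ∈ U} = 2 * Nat.card U := by
  classical
  have e : {y : SL2 F // pr y ∈ U} ≃ Σ u : U, {y : SL2 F // pr y = u.1} :=
    { toFun := fun y => ⟨⟨pr y.1, y.2⟩, ⟨y.1, rfl⟩⟩
      invFun := fun q => ⟨q.2.1, by rw [q.2.2]; exact q.1.2⟩
      left_inv := fun y => rfl
      right_inv := by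
        rintro ⟨⟨u, hu⟩, ⟨y, hy⟩⟩
        dsimp only at hy
        subst hy
        rfl }
  haveI := Fintype.ofFinite U
  rw [Nat.card_congr e, Nat.card_sigma]
  have hf : ∀ u : U, Nat.card {y : SL2 F // pr y = u.1} = 2 := by
    rintro ⟨u, hu⟩
    obtain ⟨y₀, rfl⟩ := pr_surj u
    rw [Nat.card_eq_two_iff]
    refine ⟨⟨y₀, rfl⟩, ⟨zS F * y₀, ?_⟩, ?_, ?_⟩
    · exact (pr_eq_iff _ _).2 (Or.inr rfl)
    · intro h
      have h3 := congrArg Subtype.val h
      simp only at h3
      have h4 : y₀ * y₀⁻¹ = zS F * y₀ * y₀⁻¹ := by rw [← h3]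
      simp only [mul_inv_cancel, mul_inv_cancel_right] at h4
      exact zS_ne_one h2 h4.symm
    · ext ⟨y, hy⟩
      simp only [Set.mem_univ, iff_true, Set.mem_insert_iff, Set.mem_singleton_iff, Subtype.mk.injEq]
      rcases (pr_eq_iff _ _).1 hy with h | h
      · exact Or.inl h
      · exact Or.inr h
  simp only [hf]
  rw [Finset.sum_const, smul_eq_mul, Finset.card_univ, Nat.card_eq_fintype_card, mul_comm]

/-- Partners of an involution. -/
theorem isPair_pr_iff (h2 : (2 : F) ≠ 0) {x : SL2 F} (hx : trS x = 0) (y : SL2 F) :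
    IsPair (pr x) (pr y) ↔ y * x = zS F * (x * y) := by
  constructor
  · intro h
    have h3 : pr (y * x) = pr (x * y) := h.comm.symm
    rcases (pr_eq_iff _ _).1 h3 with h4 | h4
    · exfalso
      have hy : trS y = 0 := pr_sq_one_lift h2 h.hu h.u1
      have h6 : (y * x⁻¹) * (y * x⁻¹) = 1 := by
        have c1 : y * x⁻¹ = x⁻¹ * y := by
          rw [mul_inv_eq_iff_eq_mul, mul_assoc, h4]
          simp
        calc (y * x⁻¹) * (y * x⁻¹) = y * (x⁻¹ * y) * x⁻¹ := by group
          _ = y * (y * x⁻¹) * x⁻¹ := by rw [c1]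
          _ = (y * y) * (x * x)⁻¹ := by group
          _ = 1 := by rw [sq_of_tr0 hy, sq_of_tr0 hx]; simp
      rcases sq_one_cases h2 h6 with h7 | h7
      · apply h.ne
        have : y = x := by simpa [mul_inv_eq_one] using h7
        rw [this]
      · apply h.ne
        have : y = zS F * x := mul_inv_eq_iff_eq_mul.1 h7
        rw [this]
        exact ((pr_eq_iff _ _).2 (Or.inr rfl)).symm
    · exact h4
  · intro h
    have hy := tr0_of_anti h2 h
    refine ⟨pr_sq_of_tr0 hx, pr_sq_of_tr0 hy, pr_ne_one_of_tr0 h2 hx, pr_ne_one_of_tr0 h2 hy, ?_, ?_⟩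
    · intro h3
      have hc : y * x = x * y := by
        rcases (pr_eq_iff _ _).1 h3 with h4 | h4
        · rw [h4]
        · rw [h4, ← mul_assoc y, ← zS_central, mul_assoc]
      rw [hc] at h
      have h5 : (1 : SL2 F) = zS F := by
        have h6 : 1 * (x * y) = zS F * (x * y) := by rw [one_mul]; exact h
        exact mul_right_cancel h6
      exact zS_ne_one h2 h5.symm
    · exact (pr_eq_iff (x * y) (y * x)).2 (Or.inr (by rw [h, ← mul_assoc, zS_sq, one_mul]))

theorem card_anti (hodd : Odd (Fintype.card F)) {x : SL2 F} (hx : trS x = 0) :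
    Nat.card {y : SL2 F // y * x = zS F * (x * y)} = Nat.card (Subgroup.centralizer ({x} : Set (SL2 F))) := by
  classical
  have h2 : (2 : F) ≠ 0 := two_ne hodd
  haveI : Fintype (SL2 F) := Fintype.ofFinite _
  have h1 := card_hat hodd hx
  have hdisj : Disjoint (fun y : SL2 F => y * x = x * y) (fun y : SL2 F => y * x = zS F * (x * y)) := by
    rw [Pi.disjoint_iff]
    intro y
    rw [Prop.disjoint_iff]
    rintro ⟨h3, h4⟩
    rw [h3] at h4
    have h6 : 1 * (x * y) = zS F * (x * y) := by rw [one_mul]; exact h4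
    exact zS_ne_one h2 (mul_right_cancel h6).symm
  have h3 : Nat.card (hat x) = Nat.card {y : SL2 F // y * x = x * y ∨ y * x = zS F * (x * y)} := by
    apply Nat.card_congr
    refine Equiv.subtypeEquivRight fun y => ?_
    exact mem_hat x y
  have h4 : Nat.card (Subgroup.centralizer ({x} : Set (SL2 F))) = Nat.card {y : SL2 F // y * x = x * y} := by
    apply Nat.card_congr
    refine Equiv.subtypeEquivRight fun y => ?_
    exact Subgroup.mem_centralizer_singleton_iff
  simp only [Nat.card_eq_fintype_card] at h1 h3 h4 ⊢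
  rw [Fintype.card_subtype_or_disjoint _ _ hdisj] at h3
  rw [h4] at h1
  rw [h4]
  omega

theorem card_partners (hodd : Odd (Fintype.card F)) {x : SL2 F} (hx : trS x = 0) :
    2 * Nat.card {u : ProjectiveSpecialLinearGroup (Fin 2) F // IsPair (pr x) u} =
      Nat.card (Subgroup.centralizer ({x} : Set (SL2 F))) := by
  have h2 : (2 : F) ≠ 0 := two_ne hodd
  rw [← card_anti hodd hx]
  have h3 := card_preimage h2 {u : ProjectiveSpecialLinearGroup (Fin 2) F | IsPair (pr x) u}
  have e : Nat.card {y : SL2 F // y * x = zS F * (x * y)} = Nat.card {y : SL2 F // pr y ∈ {u : ProjectiveSpecialLinearGroup (Fin 2) F | IsPair (pr x) u}} := by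
    apply Nat.card_congr
    refine Equiv.subtypeEquivRight fun y => ?_
    exact (isPair_pr_iff h2 hx y).symm
  rw [e, h3]
  rfl

theorem card_SL_eq (hodd : Odd (Fintype.card F)) :
    Nat.card (SL2 F) = 2 * Nat.card (ProjectiveSpecialLinearGroup (Fin 2) F) := by
  have h3 := CfsgLib.ClassGeo.card_PSL_mul (F := F) rfl 2 (by norm_num)
  have hg : Nat.gcd 2 (Fintype.card F - 1) = 2 := by
    apply Nat.gcd_eq_left
    obtain ⟨k, hk⟩ := hodd
    omega
  rw [hg] at h3
  rw [h3, mul_comm]

theorem card_invol (hodd : Odd (Fintype.card F)) {x : SL2 F} (hx : trS x = 0) :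
    Nat.card {t : ProjectiveSpecialLinearGroup (Fin 2) F // t * t = 1 ∧ t ≠ 1} *
      Nat.card (Subgroup.centralizer ({x} : Set (SL2 F))) = Nat.card (ProjectiveSpecialLinearGroup (Fin 2) F) := by
  classical
  have h2 : (2 : F) ≠ 0 := two_ne hodd
  have e : Nat.card {t : ProjectiveSpecialLinearGroup (Fin 2) F // t * t = 1 ∧ t ≠ 1} = Nat.card (ConjClasses.mk (pr x)).carrier := by
    apply Nat.card_congr
    refine Equiv.subtypeEquivRight fun t => ?_
    rw [ConjClasses.mem_carrier_iff_mk_eq, ConjClasses.mk_eq_mk_iff_isConj]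
    constructor
    · rintro ⟨h3, h4⟩
      exact isConj_invol h2 h3 h4 (pr_sq_of_tr0 hx) (pr_ne_one_of_tr0 h2 hx)
    · intro h3
      obtain ⟨c, hc⟩ := isConj_iff.1 h3.symm
      rw [← hc]
      constructor
      · have := pr_sq_of_tr0 hx
        calc c * pr x * c⁻¹ * (c * pr x * c⁻¹) = c * (pr x * pr x) * c⁻¹ := by group
          _ = 1 := by rw [this]; simp
      · intro h4
        apply pr_ne_one_of_tr0 h2 hx
        have h5 : c * pr x = 1 * c := mul_inv_eq_iff_eq_mul.1 h4
        simpa using h5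
  have h3 := CfsgLib.H9.SL2Cl.card_carrier_mul (pr x)
  have h4 := Subgroup.card_mul_index (Subgroup.centralizer ({pr x} : Set (ProjectiveSpecialLinearGroup (Fin 2) F)))
  have h5 : Nat.card (ConjClasses.mk (pr x)).carrier = (Subgroup.centralizer ({pr x} : Set (ProjectiveSpecialLinearGroup (Fin 2) F))).index := by
    have h6 : 0 < Nat.card (Subgroup.centralizer ({pr x} : Set (ProjectiveSpecialLinearGroup (Fin 2) F))) := Nat.card_pos
    rw [← h4, mul_comm] at h3
    exact Nat.eq_of_mul_eq_mul_left h6 h3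
  rw [e, h5, index_hat]
  have h7 := Subgroup.card_mul_index (hat x)
  rw [card_hat hodd hx, card_SL_eq hodd] at h7
  have : 2 * (Nat.card (Subgroup.centralizer ({x} : Set (SL2 F))) * (hat x).index) = 2 * Nat.card (ProjectiveSpecialLinearGroup (Fin 2) F) := by
    rw [← h7]
    ring
  have h8 := Nat.eq_of_mul_eq_mul_left (by norm_num) this
  rw [mul_comm]
  exact h8

/-- A trace zero element. -/
def x0 (F : Type*) [Field F] : SL2 F := mk 0 (-1) 1 0 (by ring)

theorem tr_x0 : trS (x0 F) = 0 := by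
  simp [trS, x0]

theorem card_klein (hodd : Odd (Fintype.card F)) :
    12 * Nat.card {V : Subgroup (ProjectiveSpecialLinearGroup (Fin 2) F) // IsKleinFour V} =
      Nat.card (ProjectiveSpecialLinearGroup (Fin 2) F) := by
  have h2 : (2 : F) ≠ 0 := two_ne hodd
  have hn : ∀ t : ProjectiveSpecialLinearGroup (Fin 2) F, t * t = 1 → t ≠ 1 →
      Nat.card {u // IsPair t u} = Nat.card {u : ProjectiveSpecialLinearGroup (Fin 2) F // IsPair (pr (x0 F)) u} := by
    intro t ht ht1
    obtain ⟨x, rfl⟩ := pr_surj t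
    have hx := pr_sq_one_lift h2 ht ht1
    have h3 := card_partners hodd hx
    have h4 := card_partners hodd (tr_x0 (F := F))
    rw [card_cent_conj (conj_tr0 h2 hx (tr_x0 (F := F)))] at h3
    omega
  have h3 := card_pairs' _ hn
  rw [card_pairs] at h3
  have h4 := card_invol hodd (tr_x0 (F := F))
  rw [← card_partners hodd (tr_x0 (F := F))] at h4
  rw [← h4]
  have : 12 * Nat.card {V : Subgroup (ProjectiveSpecialLinearGroup (Fin 2) F) // IsKleinFour V} = 2 * (6 * Nat.card {V : Subgroup (ProjectiveSpecialLinearGroup (Fin 2) F) // IsKleinFour V}) := by ring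
  rw [this, h3]
  ring

end CfsgLib.ClassGeo.SL2Inv
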