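import Mathlib
import Cfsg.Agent.Lib.ClassGeo.UBridge
import Cfsg.Agent.Lib.ClassGeo.SpOver2

set_option autoImplicit false
set_option linter.unusedSimpArgs false
set_option linter.unusedVariables false
set_option linter.unusedSectionVars false

namespace CfsgLib.ClassGeo

open Module

section abstract

variable {F V : Type*} [Field F] [AddCommGroup V] [Module F V] {σ : F →+* F} {B : V →ₛₗ[σ] V →ₗ[F] F}

/-- The isometries of determinant one, as a subgroup of the linear automorphisms. -/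
def suG (B : V →ₛₗ[σ] V →ₗ[F] F) : Subgroup (V ≃ₗ[F] V) where
  carrier := {p | (∀ x y, B (p x) (p y) = B x y) ∧ LinearMap.det (p : V →ₗ[F] V) = 1}
  one_mem' := ⟨fun _ _ => rfl, LinearMap.det_id⟩
  mul_mem' := by
    rintro a b ⟨h1, h2⟩ ⟨h3, h4⟩
    refine ⟨fun x y => ?_, ?_⟩
    · change B (a (b x)) (a (b y)) = _
      rw [h1, h3]
    · have : ((a * b : V ≃ₗ[F] V) : V →ₗ[F] V) = (a : V →ₗ[F] V) ∘ₗ (b : V →ₗ[F] V) := rfl
      rw [this, LinearMap.det_comp, h2, h4, one_mul]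
  inv_mem' := by
    rintro p ⟨h1, h2⟩
    refine ⟨fun x y => ?_, ?_⟩
    · have := h1 (p⁻¹ x) (p⁻¹ y)
      have e : ∀ z, p (p⁻¹ z) = z := fun z => p.apply_symm_apply z
      rw [e, e] at this
      exact this.symm
    · have h3 : (p : V →ₗ[F] V) ∘ₗ ((p⁻¹ : V ≃ₗ[F] V) : V →ₗ[F] V) = LinearMap.id := by
        ext z
        exact p.apply_symm_apply z
      have h4 := congrArg LinearMap.det h3
      rw [LinearMap.det_comp, h2, one_mul, LinearMap.det_id] at h4
      exact h4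

theorem mem_suG {p : V ≃ₗ[F] V} : p ∈ suG B ↔ (∀ x y, B (p x) (p y) = B x y) ∧ LinearMap.det (p : V →ₗ[F] V) = 1 := Iff.rfl

theorem UT_le_suG [FiniteDimensional F V] (hf : FForm σ B) : UT B ≤ suG B := fun p hp => UT_isom_det hf p hp

theorem uT_mem_suG [FiniteDimensional F V] (hf : FForm σ B) (v : V) (a : F) (hv : B v v = 0) (ha : a + σ a = 0) : uT v a hv ∈ suG B :=
  UT_le_suG hf (uT_mem hf v a hv ha)

theorem eich_mem_suG [FiniteDimensional F V] (hf : FForm σ B) (u z : V) (d : F) (huu : B u u = 0) (hzu : B z u = 0) (hd : d + σ d = B z z) :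
    eich hf u z d huu hzu ∈ suG B :=
  ⟨eich_isom hf u z d huu hzu hd, eich_det hf u z d huu hzu⟩

/-- The set of isotropic vectors all of whose transvections lie in `M`. -/
def TS (M : Subgroup (V ≃ₗ[F] V)) (B : V →ₛₗ[σ] V →ₗ[F] F) : Set V :=
  {v | ∃ hv : B v v = 0, ∀ a, a + σ a = 0 → uT v a hv ∈ M}

theorem uT_conj' (hf : FForm σ B) (p : V ≃ₗ[F] V) (hp : ∀ x y, B (p x) (p y) = B x y) (v : V) (a : F) (hv : B v v = 0) (hv' : B (p v) (p v) = 0) :
    uT (p v) a hv' = p * uT v a hv * p⁻¹ := by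
  ext x
  change uT (p v) a hv' x = p (uT v a hv (p⁻¹ x))
  have e : p (p⁻¹ x) = x := p.apply_symm_apply x
  have e2 : B (p v) x = B v (p⁻¹ x) := by
    conv_lhs => rw [← e, hp]
  rw [uT_apply hf, uT_apply hf, map_add, map_smul, e, e2]

theorem TS.conj (hf : FForm σ B) {M : Subgroup (V ≃ₗ[F] V)} {p : V ≃ₗ[F] V} (hpM : p ∈ M) (hp : ∀ x y, B (p x) (p y) = B x y) {v : V}
    (hv : v ∈ TS M B) : p v ∈ TS M B := by
  obtain ⟨hvv, hall⟩ := hv
  have hv' : B (p v) (p v) = 0 := by rw [hp, hvv]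
  refine ⟨hv', fun a ha => ?_⟩
  rw [uT_conj' hf p hp v a hvv hv']
  exact M.mul_mem (M.mul_mem hpM (hall a ha)) (M.inv_mem hpM)

theorem uT_smul (hf : FForm σ B) (c : F) (v : V) (a : F) (hv : B v v = 0) (hv' : B (c • v) (c • v) = 0) :
    uT (c • v) a hv' = uT v (a * (σ c * c)) hv := by
  ext x
  rw [uT_apply hf, uT_apply hf, LinearMap.map_smulₛₗ₂, smul_smul]
  simp only [LinearMap.smul_apply, smul_eq_mul]
  congr 2
  ring

theorem TS.smul (hf : FForm σ B) {M : Subgroup (V ≃ₗ[F] V)} (c : F) {v : V} (hv : v ∈ TS M B) : c • v ∈ TS M B := by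
  obtain ⟨hvv, hall⟩ := hv
  have hv' : B (c • v) (c • v) = 0 := by
    simp only [LinearMap.map_smulₛₗ₂, map_smul, smul_eq_mul, hvv, LinearMap.smul_apply]
    ring
  refine ⟨hv', fun a ha => ?_⟩
  rw [uT_smul hf c v a hvv hv']
  apply hall
  simp only [map_mul, hf.σσ]
  linear_combination (σ c * c) * ha

theorem TS.of_smul (hf : FForm σ B) {M : Subgroup (V ≃ₗ[F] V)} {c : F} (hc : c ≠ 0) {v : V} (hv : c • v ∈ TS M B) : v ∈ TS M B := by
  have := TS.smul hf c⁻¹ hv
  rwa [smul_smul, inv_mul_cancel₀ hc, one_smul] at this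

theorem UT_le_of_TS (hf : FForm σ B) {M : Subgroup (V ≃ₗ[F] V)} (hS : ∀ v, B v v = 0 → v ∈ TS M B) : UT B ≤ M := by
  rw [UT, Subgroup.closure_le]
  rintro p ⟨v, a, hv, ha, hp⟩
  obtain ⟨_, hall⟩ := hS v hv
  have : p = uT v a hv := by
    ext x
    rw [hp, uT_apply hf]
  rw [this]
  exact hall a ha

/-- Adding a multiple of an isotropic vector to make a vector isotropic. -/
theorem FForm.iso_add (hf : FForm σ B) (x e : V) (hee : B e e = 0) (hex : B e x ≠ 0) : ∃ c : F, B (x + c • e) (x + c • e) = 0 := by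
  obtain ⟨t, ht⟩ := hf.trace_surj (- B x x) (by rw [map_neg, hf.self_fixed])
  have hxe : B x e = σ (B e x) := (hf.symm e x).symm
  have hσ : σ (B e x) ≠ 0 := (map_ne_zero σ).mpr hex
  refine ⟨t / σ (B e x), ?_⟩
  simp only [map_add, LinearMap.add_apply, LinearMap.map_smulₛₗ₂, map_smul, smul_eq_mul, hee, hxe, map_div₀, hf.σσ, mul_zero, add_zero]
  have e1 : t / σ (B e x) * σ (B e x) = t := div_mul_cancel₀ t hσ
  have e2 : σ t / B e x * B e x = σ t := div_mul_cancel₀ _ hex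
  linear_combination e1 + e2 + ht

section fd

variable [FiniteDimensional F V] [Finite F]

theorem suG_le_UT (h : HForm σ B) (hdim : 2 ≤ finrank F V) (hdim3 : finrank F V ≠ 3) : suG B ≤ UT B :=
  fun p hp => su_le_UT h hdim hdim3 p hp.1 hp.2

theorem suG_eq_UT (h : HForm σ B) (hdim : 2 ≤ finrank F V) (hdim3 : finrank F V ≠ 3) : suG B = UT B :=
  le_antisymm (suG_le_UT h hdim hdim3) (UT_le_suG h.toF)

/-- Overgroups of a parabolic subgroup of `SU`. -/
theorem su_parab (h : HForm σ B) (hdim : 4 ≤ finrank F V) (W : Submodule F V) (hts : ∀ x ∈ W, ∀ y ∈ W, B x y = 0)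
    (M : Subgroup (V ≃ₗ[F] V)) (hle : M ≤ suG B) (hst : linStab W ⊓ suG B ≤ M) (hnot : ¬ M ≤ linStab W) : suG B ≤ M := by
  have hf := h.toF
  refine (suG_le_UT h (by omega) (by omega)).trans (UT_le_of_TS hf ?_)
  -- vectors in the perp
  have hperpS : ∀ v, B v v = 0 → v ∈ hperp B W → v ∈ TS M B := by
    intro v hv hvW
    refine ⟨hv, fun a ha => hst ⟨?_, uT_mem_suG hf v a hv ha⟩⟩
    apply mem_linStab_of_le
    intro x hx
    rw [uT_apply hf, hf.zero_symm (hvW x hx)]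
    simpa using hx
  obtain ⟨g, hgM, hg⟩ := SetLike.not_le_iff_exists.mp hnot
  have hgI := (hle hgM).1
  obtain ⟨w, hw, hgw⟩ : ∃ w ∈ W, g w ∉ W := by
    by_contra hcon
    push Not at hcon
    exact hg (mem_linStab_of_le W g hcon)
  have hex : ∃ g' ∈ M, ∃ y, B y y = 0 ∧ y ∈ hperp B W ∧ g' y ∉ hperp B W ∧ ∀ x y, B (g' x) (g' y) = B x y := by
    by_cases hA : g w ∈ hperp B W
    · have hnotp : g w ∉ hperp B (hperp B W) := by rwa [hf.hperp_hperp]
      rw [mem_hperp] at hnotp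
      push Not at hnotp
      obtain ⟨y', hy', hy'w⟩ := hnotp
      have hww : B (g w) (g w) = 0 := by rw [hgI]; exact hts w hw w hw
      have hwy' : B (g w) y' ≠ 0 := fun h0 => hy'w (hf.zero_symm h0)
      obtain ⟨c, hc⟩ := hf.iso_add y' (g w) hww hwy'
      refine ⟨g⁻¹, M.inv_mem hgM, y' + c • g w, hc, (hperp B W).add_mem hy' ((hperp B W).smul_mem _ hA), ?_, (suG B).inv_mem (hle hgM) |>.1⟩
      intro hmem
      have h1 := hmem w hw
      have h2 := hgI w ((g⁻¹ : V ≃ₗ[F] V) (y' + c • g w))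
      have e : g ((g⁻¹ : V ≃ₗ[F] V) (y' + c • g w)) = y' + c • g w := g.apply_symm_apply _
      rw [e, h1, map_add, map_smul, hww, smul_zero, add_zero] at h2
      exact hwy' (mul_eq_zero.mp (show B (g w) y' * 1 = 0 by rw [mul_one]; exact h2) |>.resolve_right one_ne_zero)
    · exact ⟨g, hgM, w, hts w hw w hw, fun w' hw' => hts w' hw' w hw, hA, hgI⟩
  obtain ⟨g', hg'M, y, hyy, hyW, hg'y, hg'I⟩ := hex
  -- the base point off the perp
  obtain ⟨v₀, hv₀⟩ : ∃ v₀, v₀ = g' y := ⟨_, rfl⟩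
  have hv₀S : v₀ ∈ TS M B := by
    rw [hv₀]
    exact TS.conj hf hg'M hg'I (hperpS y hyy hyW)
  have hv₀v₀ : B v₀ v₀ = 0 := hv₀S.1
  have hv₀W : v₀ ∉ hperp B W := by rwa [hv₀]
  intro v hv
  by_cases hvW : v ∈ hperp B W
  · exact hperpS v hv hvW
  have nz : ∀ x, x ∉ hperp B W → ∃ z ∈ W, B x z ≠ 0 := by
    intro x hx
    rw [mem_hperp] at hx
    push Not at hx
    obtain ⟨z, hz, hzx⟩ := hx
    exact ⟨z, hz, fun h0 => hzx (hf.zero_symm h0)⟩
  obtain ⟨z, hz, hz1, hz2⟩ := exists_both_ne W (B v₀) (B v) (nz v₀ hv₀W) (nz v hvW)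
  have hz1' : B z v₀ ≠ 0 := fun h0 => hz1 (hf.zero_symm h0)
  have hz2' : B z v ≠ 0 := fun h0 => hz2 (hf.zero_symm h0)
  -- normalise
  obtain ⟨e, he⟩ : ∃ e, e = σ (B z v₀)⁻¹ • z := ⟨_, rfl⟩
  have heW : e ∈ W := by
    rw [he]
    exact W.smul_mem _ hz
  have hev₀ : B e v₀ = 1 := by
    rw [he, LinearMap.map_smulₛₗ₂, hf.σσ]
    exact inv_mul_cancel₀ hz1'
  have hev0 : B e v ≠ 0 := by
    rw [he, LinearMap.map_smulₛₗ₂]
    exact mul_ne_zero ((map_ne_zero σ).mpr ((map_ne_zero σ).mpr (inv_ne_zero hz1'))) hz2'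
  obtain ⟨c, hc⟩ : ∃ c, c = (B e v)⁻¹ := ⟨_, rfl⟩
  have hc0 : c ≠ 0 := by
    rw [hc]
    exact inv_ne_zero hev0
  obtain ⟨x', hx'⟩ : ∃ x', x' = c • v := ⟨_, rfl⟩
  have hex' : B e x' = 1 := by
    rw [hx', map_smul, hc]
    exact inv_mul_cancel₀ hev0
  have hx'x' : B x' x' = 0 := by
    rw [hx']
    simp only [LinearMap.map_smulₛₗ₂, map_smul, smul_eq_mul, hv, LinearMap.smul_apply]
    ring
  have hee : B e e = 0 := hts e heW e heW
  obtain ⟨z', hz'⟩ : ∃ z', z' = v₀ - x' := ⟨_, rfl⟩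
  have hz'e : B z' e = 0 := by
    apply hf.zero_symm
    rw [hz', map_sub, hev₀, hex', sub_self]
  have e1 : B z' z' = - B v₀ x' - B x' v₀ := by
    rw [hz']
    simp only [map_sub, LinearMap.sub_apply, hv₀v₀, hx'x']
    ring
  have e2 : B v₀ z' = - B v₀ x' := by
    rw [hz', map_sub, hv₀v₀]
    ring
  have e3 : B z' v₀ = - B x' v₀ := by
    rw [hz', map_sub, LinearMap.sub_apply, hv₀v₀]
    ring
  have e4 : σ (B v₀ x') = B x' v₀ := hf.symm _ _
  have e5 : σ (B z' z') = B z' z' := hf.self_fixed z'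
  obtain ⟨d, hd⟩ : ∃ d, d = B z' z' - B v₀ z' := ⟨_, rfl⟩
  have hdd : d + σ d = B z' z' := by
    rw [hd, map_sub, e5, e2, map_neg, e4, e1]
    ring
  have hσd : σ d = B z' z' - B z' v₀ := by
    rw [hd, map_sub, e5, hf.symm]
  have hEv : eich hf e z' d hee hz'e v₀ = x' := by
    rw [eich_apply, hev₀, hσd, hz']
    simp only [one_smul, mul_one]
    module
  have hEM : eich hf e z' d hee hz'e ∈ M := by
    refine hst ⟨?_, eich_mem_suG hf e z' d hee hz'e hdd⟩
    apply mem_linStab_of_le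
    intro x hx
    rw [eich_apply, hts e heW x hx]
    simp only [zero_smul, sub_zero, mul_zero, add_zero]
    exact W.add_mem hx (W.smul_mem _ heW)
  have hfin : x' ∈ TS M B := by
    rw [← hEv]
    exact TS.conj hf hEM (eich_isom hf e z' d hee hz'e hdd) hv₀S
  rw [hx'] at hfin
  exact TS.of_smul hf hc0 hfin

/-- A transvection moving a non-zero subspace. -/
theorem exists_uT_not_stab (h : HForm σ B) (W : Submodule F V) (hts : ∀ x ∈ W, ∀ y ∈ W, B x y = 0) (hW0 : W ≠ ⊥) :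
    ∃ p ∈ suG B, p ∉ linStab W := by
  have hf := h.toF
  obtain ⟨w, hw, hw0⟩ := Submodule.exists_mem_ne_zero_of_ne_bot hW0
  obtain ⟨v', hv', hwv'⟩ := hf.exists_iso_partner w (hts w hw w hw) hw0
  obtain ⟨a, ha0, ha⟩ := h.exists_anti
  refine ⟨uT v' a hv', uT_mem_suG hf v' a hv' ha, ?_⟩
  intro hmem
  have h1 := (hmem w).mp hw
  rw [uT_apply hf] at h1
  have h2 := W.sub_mem h1 hw
  rw [add_sub_cancel_left] at h2
  have hv'w : B v' w = 1 := by rw [← hf.symm, hwv', map_one]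
  rw [hv'w, mul_one] at h2
  have h3 := W.smul_mem a⁻¹ h2
  rw [smul_smul, inv_mul_cancel₀ ha0, one_smul] at h3
  have := hts w hw v' h3
  rw [hwv'] at this
  exact one_ne_zero this

theorem su_parab_isMaximalIn (h : HForm σ B) (hdim : 4 ≤ finrank F V) (W : Submodule F V) (hW0 : W ≠ ⊥) (hts : ∀ x ∈ W, ∀ y ∈ W, B x y = 0) :
    Cfsg.Geo.IsMaximalIn (suG B) (linStab W ⊓ suG B) := by
  constructor
  · refine lt_of_le_of_ne inf_le_right ?_
    intro heq
    obtain ⟨p, hp, hpW⟩ := exists_uT_not_stab h W hts hW0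
    rw [← heq] at hp
    exact hpW hp.1
  · intro M h1 h2
    by_cases hM : M ≤ linStab W
    · left
      exact le_antisymm (le_inf hM h2) h1
    · right
      exact le_antisymm h2 (su_parab h hdim W hts M h2 h1 hM)

end fd

end abstract

section std

variable {F : Type*} [Field F] [Fintype F] {q : ℕ} (hF : Fintype.card F = q ^ 2) (n : ℕ)

open Cfsg Matrix

theorem map_SU : ((GU n F q) ⊓ Cfsg.Geo.specialLinear (Fin n) F).map (glLin (ι := Fin n) (F := F)).toMonoidHom = suG (stdH n hF) := by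
  ext p
  constructor
  · rintro ⟨g, ⟨hg1, hg2⟩, rfl⟩
    refine ⟨fun x y => ?_, ?_⟩
    · change stdH n hF (glLin g x) (glLin g y) = _
      rw [stdH_apply, stdH_apply, glLin_apply, glLin_apply]
      exact hg1 y x
    · have h1 : Matrix.GeneralLinearGroup.det g = 1 := hg2
      have h2 := det_glLin_symm (ι := Fin n) (F := F) (glLin g)
      change LinearMap.det ((glLin g : (Fin n → F) ≃ₗ[F] (Fin n → F)) : (Fin n → F) →ₗ[F] (Fin n → F)) = 1
      rw [← h2, MulEquiv.symm_apply_apply]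
      exact congrArg Units.val h1
  · rintro ⟨h1, h2⟩
    refine ⟨glLin.symm p, ⟨?_, ?_⟩, by simp⟩
    · intro u v
      change hermForm n F q (((glLin.symm p : GL (Fin n) F) : Matrix (Fin n) (Fin n) F) *ᵥ u) (((glLin.symm p : GL (Fin n) F) : Matrix (Fin n) (Fin n) F) *ᵥ v) = _
      rw [glLin_symm_mulVec, glLin_symm_mulVec]
      exact h1 v u
    · change Matrix.GeneralLinearGroup.det _ = 1
      apply Units.ext
      change ((glLin.symm p : GL (Fin n) F) : Matrix (Fin n) (Fin n) F).det = 1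
      rw [det_glLin_symm]
      exact h2

include hF in
/-- The stabiliser of a totally singular subspace is maximal in `SU`. -/
theorem SU_parab_isMaximalIn (hn : 4 ≤ n) (W : Submodule F (Fin n → F)) (hW0 : W ≠ ⊥) (hW : Cfsg.Geo.IsTotallySingularFor (hermForm n F q) W) :
    Cfsg.Geo.IsMaximalIn (GU n F q ⊓ Cfsg.Geo.specialLinear (Fin n) F) (Cfsg.Geo.subspaceStabilizer W ⊓ (GU n F q ⊓ Cfsg.Geo.specialLinear (Fin n) F)) := by
  apply isMaximalIn_of_map (glLin (ι := Fin n) (F := F))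
  rw [Subgroup.map_inf (Cfsg.Geo.subspaceStabilizer W) _ _ (glLin (ι := Fin n) (F := F)).injective, map_SU hF, map_subspaceStabilizer]
  refine su_parab_isMaximalIn (stdH_hform n hF) (by simpa using hn) W hW0 ?_
  intro x hx y hy
  exact hW y hy x hx

end std

end CfsgLib.ClassGeo
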