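import Mathlib
import Cfsg.Agent.Lib.ClassGeo.UFrames
import Cfsg.Agent.Lib.ClassGeo.SUGen

set_option autoImplicit false
set_option linter.unusedSimpArgs false
set_option linter.unusedVariables false
set_option linter.unusedSectionVars false

namespace CfsgLib.ClassGeo

open Module Cfsg

section ti

variable {F : Type*} [Field F] [Fintype F] {q : ℕ} (hF : Fintype.card F = q ^ 2)
variable {V : Type*} [AddCommGroup V] [Module F V] [FiniteDimensional F V] {B : V →ₛₗ[qFrob hF] V →ₗ[F] F}

include hF in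
/-- Decomposition of the complement of a totally isotropic subspace. -/
theorem ti_dec (h : HForm (qFrob hF) B) (Y : Submodule F V) (hY : ∀ u ∈ Y, ∀ v ∈ Y, B u v = 0) (n k : ℕ)
    (hn : finrank F V = n) (hk : finrank F Y = k) :
    2 * k ≤ n ∧ ∃ C : Submodule F V, C ≤ hperp B Y ∧ NondegOn B C ∧ finrank F C = n - 2 * k ∧ Y ⊓ C = ⊥ ∧
      ∀ x ∈ hperp B Y, ∃ s ∈ Y, ∃ c ∈ C, x = s + c := by
  have hf := h.toF
  have hle : Y ≤ hperp B Y := fun u hu w hw => hY w hw u hu
  have hdim := hf.finrank_hperp Y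
  have hle' := Submodule.finrank_mono hle
  refine ⟨by omega, ?_⟩
  obtain ⟨C', hC'⟩ := Submodule.exists_isCompl Y
  obtain ⟨C, hC⟩ : ∃ C, C = C' ⊓ hperp B Y := ⟨_, rfl⟩
  have hdec : ∀ x ∈ hperp B Y, ∃ s ∈ Y, ∃ c ∈ C, x = s + c := by
    intro x hx
    have h1 : x ∈ Y ⊔ C' := by
      rw [hC'.sup_eq_top]
      trivial
    obtain ⟨s, hs, c, hc, rfl⟩ := Submodule.mem_sup.mp h1
    refine ⟨s, hs, c, ?_, rfl⟩
    rw [hC]
    refine ⟨hc, ?_⟩
    have : c = (s + c) - s := by abel
    rw [this]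
    exact (hperp B Y).sub_mem hx (hle hs)
  have hinf : Y ⊓ C = ⊥ := by
    rw [eq_bot_iff, hC]
    rintro x ⟨hx1, hx2, -⟩
    have : x ∈ Y ⊓ C' := ⟨hx1, hx2⟩
    rwa [hC'.inf_eq_bot] at this
  have hCle : C ≤ hperp B Y := by
    rw [hC]
    exact inf_le_right
  have hsup : Y ⊔ C = hperp B Y := by
    apply le_antisymm
    · exact sup_le hle hCle
    · intro x hx
      obtain ⟨s, hs, c, hc, rfl⟩ := hdec x hx
      exact Submodule.add_mem_sup hs hc
  have hr := Submodule.finrank_sup_add_finrank_inf_eq Y C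
  rw [hsup, hinf, finrank_bot, add_zero] at hr
  refine ⟨C, hCle, ?_, by omega, hinf, hdec⟩
  intro c hc hall
  have hcY : c ∈ Y := by
    rw [← hf.hperp_hperp Y]
    intro x hx
    obtain ⟨s, hs, c', hc', rfl⟩ := hdec x hx
    rw [map_add, LinearMap.add_apply]
    have h1 : B c c' = 0 := hall c' hc'
    have h2 : B c s = 0 := hf.zero_symm (hCle hc s hs)
    have h3 : B s c = 0 := hCle hc s hs
    rw [hf.zero_symm h2, hf.zero_symm h1, add_zero]
  have : c ∈ Y ⊓ C := ⟨hcY, hc⟩
  rwa [hinf, Submodule.mem_bot] at this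

include hF in
/-- The number of isotropic vectors orthogonal to, but not inside, a totally isotropic subspace. -/
theorem ti_fiber (h : HForm (qFrob hF) B) (Y : Submodule F V) (hY : ∀ u ∈ Y, ∀ v ∈ Y, B u v = 0) (n k : ℕ)
    (hn : finrank F V = n) (hk : finrank F Y = k) :
    Nat.card {v : V // v ∈ hperp B Y ∧ B v v = 0 ∧ v ∉ Y} =
      (q ^ 2) ^ k * (Nat.card {v : Fin (n - 2 * k) → F // hermForm (n - 2 * k) F q v v = 0} - 1) := by
  classical
  have hf := h.toF
  obtain ⟨h2k, C, hCle, hCn, hCr, hinf, hdec⟩ := ti_dec hF h Y hY n k hn hk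
  have hV : Finite V := Module.finite_of_finite F
  have hYcard : Nat.card Y = (q ^ 2) ^ k := by
    rw [Module.natCard_eq_pow_finrank (K := F), hk, Nat.card_eq_fintype_card, hF]
  have hcount := card_norm_in_sub hF h.symm C hCn (n - 2 * k) hCr 0
  have e1 : {v : V // v ∈ hperp B Y ∧ B v v = 0 ∧ v ∉ Y} ≃ Y × {c : V // (c ∈ C ∧ B c c = 0) ∧ c ≠ 0} := by
    refine (Equiv.ofBijective (fun p : Y × {c : V // (c ∈ C ∧ B c c = 0) ∧ c ≠ 0} =>
        (⟨(p.1 : V) + p.2.1, ?_, ?_, ?_⟩ : {v : V // v ∈ hperp B Y ∧ B v v = 0 ∧ v ∉ Y})) ⟨?_, ?_⟩).symm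
    · exact (hperp B Y).add_mem (fun w hw => hY w hw _ p.1.2) (hCle p.2.2.1.1)
    · have h1 : B (p.1 : V) (p.2.1) = 0 := hCle p.2.2.1.1 _ p.1.2
      have h2 : B (p.2.1) (p.1 : V) = 0 := hf.zero_symm h1
      simp only [map_add, LinearMap.add_apply, hY _ p.1.2 _ p.1.2, h1, h2, p.2.2.1.2, add_zero]
    · intro hmem
      have h3 : p.2.1 ∈ Y := by
        have : p.2.1 = ((p.1 : V) + p.2.1) - p.1 := by abel
        rw [this]
        exact Y.sub_mem hmem p.1.2
      have : p.2.1 ∈ Y ⊓ C := ⟨h3, p.2.2.1.1⟩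
      rw [hinf, Submodule.mem_bot] at this
      exact p.2.2.2 this
    · rintro ⟨⟨s, hs⟩, ⟨c, hc⟩⟩ ⟨⟨s', hs'⟩, ⟨c', hc'⟩⟩ heq
      have h1 : s + c = s' + c' := congrArg Subtype.val heq
      have h2 : s - s' = c' - c := by
        have : s - s' = (s + c) - s' - c := by abel
        rw [this, h1]
        abel
      have h3 : s - s' ∈ Y ⊓ C := ⟨Y.sub_mem hs hs', by
        rw [h2]
        exact C.sub_mem hc'.1.1 hc.1.1⟩
      rw [hinf, Submodule.mem_bot] at h3
      have h4 : s = s' := sub_eq_zero.mp h3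
      have h5 : c = c' := by
        rw [h4] at h1
        exact add_left_cancel h1
      subst h4
      subst h5
      rfl
    · rintro ⟨v, hv, hvv, hvY⟩
      obtain ⟨s, hs, c, hc, rfl⟩ := hdec v hv
      have h1 : B s c = 0 := hCle hc _ hs
      have h2 : B c s = 0 := hf.zero_symm h1
      have hcc : B c c = 0 := by
        simpa [hY _ hs _ hs, h1, h2] using hvv
      have hc0 : c ≠ 0 := by
        rintro rfl
        apply hvY
        simpa using hs
      exact ⟨⟨⟨s, hs⟩, ⟨c, ⟨hc, hcc⟩, hc0⟩⟩, rfl⟩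
  rw [Nat.card_congr e1, Nat.card_prod, hYcard]
  congr 1
  rw [← hcount]
  -- removing the zero vector
  have h3 := Nat.card_congr (Equiv.sumCompl (fun c : {c : V // c ∈ C ∧ B c c = 0} => c.1 = 0))
  have hfin1 : Finite {c : {c : V // c ∈ C ∧ B c c = 0} // c.1 = 0} := Subtype.finite
  have hfin2 : Finite {c : {c : V // c ∈ C ∧ B c c = 0} // ¬ c.1 = 0} := Subtype.finite
  rw [Nat.card_sum] at h3
  have h4 : Nat.card {c : {c : V // c ∈ C ∧ B c c = 0} // c.1 = 0} = 1 := by
    rw [Nat.card_eq_one_iff_unique]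
    refine ⟨⟨fun a b => Subtype.ext (Subtype.ext (by rw [a.2, b.2]))⟩, ⟨⟨⟨0, C.zero_mem, by simp⟩, rfl⟩⟩⟩
  have h5 : Nat.card {c : {c : V // c ∈ C ∧ B c c = 0} // ¬ c.1 = 0} = Nat.card {c : V // (c ∈ C ∧ B c c = 0) ∧ c ≠ 0} :=
    Nat.card_congr ⟨fun c => ⟨c.1.1, c.1.2, c.2⟩, fun c => ⟨⟨c.1, c.2.1⟩, c.2.2⟩, fun _ => rfl, fun _ => rfl⟩
  rw [h4, h5] at h3
  omega

/-- Membership in the complement of a span. -/
theorem mem_hperp_span {ι : Type*} (y : ι → V) (v : V) :
    v ∈ hperp B (Submodule.span F (Set.range y)) ↔ ∀ i, B (y i) v = 0 := by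
  constructor
  · intro h i
    exact h _ (Submodule.subset_span ⟨i, rfl⟩)
  · intro h w hw
    induction hw using Submodule.span_induction with
    | mem w hw =>
      obtain ⟨i, rfl⟩ := hw
      exact h i
    | zero => simp
    | add a b _ _ ha hb => rw [map_add, LinearMap.add_apply, ha, hb, add_zero]
    | smul c a _ ha => rw [LinearMap.map_smulₛₗ₂, ha, smul_zero]

theorem span_ti {ι : Type*} (hf : FForm (qFrob hF) B) (y : ι → V) (hy : ∀ i j, B (y i) (y j) = 0) :
    ∀ u ∈ Submodule.span F (Set.range y), ∀ v ∈ Submodule.span F (Set.range y), B u v = 0 := by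
  intro u hu v hv
  have h1 : ∀ i, y i ∈ hperp B (Submodule.span F (Set.range y)) := fun i => (mem_hperp_span hF y (y i)).mpr (fun j => hy j i)
  have h2 : Submodule.span F (Set.range y) ≤ hperp B (Submodule.span F (Set.range y)) := by
    rw [Submodule.span_le]
    rintro _ ⟨i, rfl⟩
    exact h1 i
  exact h2 hv u hu

include hF in
/-- Recursion for the number of totally isotropic frames. -/
theorem card_ti_frames_succ (h : HForm (qFrob hF) B) (n : ℕ) (hn : finrank F V = n) (k : ℕ) :
    Nat.card {y : Fin (k + 1) → V // LinearIndependent F y ∧ ∀ i j, B (y i) (y j) = 0} =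
      Nat.card {y : Fin k → V // LinearIndependent F y ∧ ∀ i j, B (y i) (y j) = 0} *
        ((q ^ 2) ^ k * (Nat.card {v : Fin (n - 2 * k) → F // hermForm (n - 2 * k) F q v v = 0} - 1)) := by
  classical
  have hf := h.toF
  have hV : Finite V := Module.finite_of_finite F
  have e1 : {y : Fin (k + 1) → V // LinearIndependent F y ∧ ∀ i j, B (y i) (y j) = 0} ≃
      Σ y : {y : Fin k → V // LinearIndependent F y ∧ ∀ i j, B (y i) (y j) = 0},
        {v : V // v ∈ hperp B (Submodule.span F (Set.range y.1)) ∧ B v v = 0 ∧ v ∉ Submodule.span F (Set.range y.1)} :=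
    { toFun := fun y => ⟨⟨Fin.tail y.1, by
          have h1 : y.1 = Fin.cons (y.1 0) (Fin.tail y.1) := (Fin.cons_self_tail y.1).symm
          have h2 := y.2.1
          rw [h1, linearIndependent_fin_cons] at h2
          exact h2.1, fun i j => y.2.2 _ _⟩, ⟨y.1 0, by
            rw [mem_hperp_span]
            exact fun i => y.2.2 _ _, y.2.2 _ _, by
            have h1 : y.1 = Fin.cons (y.1 0) (Fin.tail y.1) := (Fin.cons_self_tail y.1).symm
            have h2 := y.2.1
            rw [h1, linearIndependent_fin_cons] at h2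
            exact h2.2⟩⟩
      invFun := fun z => ⟨Fin.cons z.2.1 z.1.1, by
          rw [linearIndependent_fin_cons]
          exact ⟨z.1.2.1, z.2.2.2.2⟩, by
          have h1 := (mem_hperp_span hF z.1.1 z.2.1).mp z.2.2.1
          have h2 : ∀ i, B z.2.1 (z.1.1 i) = 0 := fun i => hf.zero_symm (h1 i)
          intro i j
          refine Fin.cases ?_ (fun i' => ?_) i <;> refine Fin.cases ?_ (fun j' => ?_) j
          · simpa using z.2.2.2.1
          · simpa using h2 j'
          · simpa using h1 i'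
          · simpa using z.1.2.2 i' j'⟩
      left_inv := by
        intro y
        apply Subtype.ext
        exact Fin.cons_self_tail y.1
      right_inv := by
        rintro ⟨⟨y, hy⟩, v, hv⟩
        rfl }
  have hfin : Finite {y : Fin k → V // LinearIndependent F y ∧ ∀ i j, B (y i) (y j) = 0} := Subtype.finite
  have hft : Fintype {y : Fin k → V // LinearIndependent F y ∧ ∀ i j, B (y i) (y j) = 0} := Fintype.ofFinite _
  rw [Nat.card_congr e1, Nat.card_sigma]
  have h2 : ∀ y : {y : Fin k → V // LinearIndependent F y ∧ ∀ i j, B (y i) (y j) = 0},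
      Nat.card {v : V // v ∈ hperp B (Submodule.span F (Set.range y.1)) ∧ B v v = 0 ∧ v ∉ Submodule.span F (Set.range y.1)} =
        (q ^ 2) ^ k * (Nat.card {v : Fin (n - 2 * k) → F // hermForm (n - 2 * k) F q v v = 0} - 1) := by
    intro y
    refine ti_fiber hF h _ (span_ti hF hf y.1 y.2.2) n k hn ?_
    rw [finrank_span_eq_card y.2.1, Fintype.card_fin]
  rw [Finset.sum_congr rfl (fun y _ => h2 y), Finset.sum_const, Finset.card_univ, smul_eq_mul, ← Nat.card_eq_fintype_card]

include hF in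
/-- The number of totally isotropic frames. -/
theorem card_ti_frames (h : HForm (qFrob hF) B) (n : ℕ) (hn : finrank F V = n) (k : ℕ) :
    Nat.card {y : Fin k → V // LinearIndependent F y ∧ ∀ i j, B (y i) (y j) = 0} =
      ∏ i ∈ Finset.range k, ((q ^ 2) ^ i * (Nat.card {v : Fin (n - 2 * i) → F // hermForm (n - 2 * i) F q v v = 0} - 1)) := by
  induction k with
  | zero =>
    simp only [Finset.range_zero, Finset.prod_empty]
    rw [Nat.card_eq_one_iff_unique]
    refine ⟨⟨fun a b => Subtype.ext (Subsingleton.elim _ _)⟩, ⟨⟨fun i => i.elim0, linearIndependent_empty_type, fun i => i.elim0⟩⟩⟩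
  | succ k ih =>
    rw [card_ti_frames_succ hF h n hn k, ih, Finset.prod_range_succ]

include hF in
/-- Frames versus subspaces. -/
theorem card_ti_subspaces (h : HForm (qFrob hF) B) (k : ℕ) :
    Nat.card {W : Submodule F V // finrank F W = k ∧ ∀ u ∈ W, ∀ v ∈ W, B u v = 0} * ∏ i : Fin k, ((q ^ 2) ^ k - (q ^ 2) ^ (i : ℕ)) =
      Nat.card {y : Fin k → V // LinearIndependent F y ∧ ∀ i j, B (y i) (y j) = 0} := by
  classical
  have hf := h.toF
  have hV : Finite V := Module.finite_of_finite F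
  let f : {y : Fin k → V // LinearIndependent F y ∧ ∀ i j, B (y i) (y j) = 0} →
      {W : Submodule F V // finrank F W = k ∧ ∀ u ∈ W, ∀ v ∈ W, B u v = 0} := fun y =>
    ⟨Submodule.span F (Set.range y.1), by rw [finrank_span_eq_card y.2.1, Fintype.card_fin], span_ti hF hf y.1 y.2.2⟩
  have e1 := (Equiv.sigmaFiberEquiv f).symm
  have hfin : Finite {W : Submodule F V // finrank F W = k ∧ ∀ u ∈ W, ∀ v ∈ W, B u v = 0} := Subtype.finite
  have hft : Fintype {W : Submodule F V // finrank F W = k ∧ ∀ u ∈ W, ∀ v ∈ W, B u v = 0} := Fintype.ofFinite _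
  rw [Nat.card_congr e1, Nat.card_sigma]
  have h2 : ∀ W : {W : Submodule F V // finrank F W = k ∧ ∀ u ∈ W, ∀ v ∈ W, B u v = 0},
      Nat.card {y : {y : Fin k → V // LinearIndependent F y ∧ ∀ i j, B (y i) (y j) = 0} // f y = W} = ∏ i : Fin k, ((q ^ 2) ^ k - (q ^ 2) ^ (i : ℕ)) := by
    rintro ⟨W, hW, hW'⟩
    have e2 : {y : {y : Fin k → V // LinearIndependent F y ∧ ∀ i j, B (y i) (y j) = 0} // f y = ⟨W, hW, hW'⟩} ≃ {s : Fin k → W // LinearIndependent F s} :=
      { toFun := fun y => ⟨fun i => ⟨y.1.1 i, by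
            have h3 : Submodule.span F (Set.range y.1.1) = W := congrArg Subtype.val y.2
            have h4 : y.1.1 i ∈ Submodule.span F (Set.range y.1.1) := Submodule.subset_span ⟨i, rfl⟩
            rw [h3] at h4
            exact h4⟩, by
            apply LinearIndependent.of_comp (Submodule.subtype _)
            exact y.1.2.1⟩
        invFun := fun s => ⟨⟨fun i => (s.1 i : V), s.2.map' (Submodule.subtype W) (Submodule.ker_subtype _),
            fun i j => hW' _ (s.1 i).2 _ (s.1 j).2⟩, by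
            apply Subtype.ext
            apply Submodule.eq_of_le_of_finrank_eq
            · rw [Submodule.span_le]
              rintro _ ⟨i, rfl⟩
              exact (s.1 i).2
            · have h5 := finrank_span_eq_card (s.2.map' (Submodule.subtype W) (Submodule.ker_subtype _))
              rw [Fintype.card_fin] at h5
              rw [hW]
              exact h5⟩
        left_inv := by
          intro y
          rfl
        right_inv := by
          intro s
          rfl }
    rw [Nat.card_congr e2, card_linearIndependent (by rw [hW]), hW, hF]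
  rw [Finset.sum_congr rfl (fun W _ => h2 W), Finset.sum_const, Finset.card_univ, smul_eq_mul, Nat.card_eq_fintype_card]

include hF in
theorem herm_zero_pos (m : ℕ) : 1 ≤ Nat.card {v : Fin m → F // hermForm m F q v v = 0} := by
  have hq2 := qfrob_two_le hF
  have hz : (0 : F) ^ q = 0 := zero_pow (by omega)
  exact Nat.card_pos_iff.mpr ⟨⟨⟨0, by simp [hermForm, hz]⟩⟩, Subtype.finite⟩

include hF in
/-- Counting totally isotropic planes. -/
theorem count_ti_planes (n : ℕ) (N A₁ A₂ : ℤ) (hN : (Nat.card {W : Submodule F (Fin n → F) // finrank F W = 2 ∧ ∀ u ∈ W, ∀ v ∈ W, hermForm n F q u v = 0} : ℤ) = N)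
    (h1 : (Nat.card {v : Fin n → F // hermForm n F q v v = 0} : ℤ) = A₁ + 1)
    (h2 : (Nat.card {v : Fin (n - 2) → F // hermForm (n - 2) F q v v = 0} : ℤ) = A₂ + 1) :
    N * (((q : ℤ) ^ 4 - 1) * ((q : ℤ) ^ 4 - (q : ℤ) ^ 2)) = A₁ * ((q : ℤ) ^ 2 * A₂) := by
  have hq2 := qfrob_two_le hF
  have h := stdH_hform n hF
  have hmain := card_ti_subspaces hF h 2
  rw [card_ti_frames hF h n (by simp) 2] at hmain
  have e : Nat.card {W : Submodule F (Fin n → F) // finrank F W = 2 ∧ ∀ u ∈ W, ∀ v ∈ W, hermForm n F q u v = 0} =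
      Nat.card {W : Submodule F (Fin n → F) // finrank F W = 2 ∧ ∀ u ∈ W, ∀ v ∈ W, stdH n hF u v = 0} := by
    refine Nat.card_congr (Equiv.subtypeEquivRight fun W => ?_)
    constructor
    · rintro ⟨h1, h2⟩
      exact ⟨h1, fun u hu v hv => h2 v hv u hu⟩
    · rintro ⟨h1, h2⟩
      exact ⟨h1, fun u hu v hv => h2 v hv u hu⟩
  rw [← e] at hmain
  simp only [Finset.prod_range_succ, Finset.prod_range_zero, Fin.prod_univ_two, one_mul, pow_zero, pow_one, Fin.val_zero, Fin.val_one, mul_zero, mul_one, Nat.sub_zero] at hmain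
  have hmain' : Nat.card {W : Submodule F (Fin n → F) // finrank F W = 2 ∧ ∀ u ∈ W, ∀ v ∈ W, hermForm n F q u v = 0} * (((q ^ 2) ^ 2 - 1) * ((q ^ 2) ^ 2 - q ^ 2)) =
      (Nat.card {v : Fin n → F // hermForm n F q v v = 0} - 1) * (q ^ 2 * (Nat.card {v : Fin (n - 2) → F // hermForm (n - 2) F q v v = 0} - 1)) := hmain
  have hm := congrArg (Nat.cast : ℕ → ℤ) hmain'
  have p1 := herm_zero_pos hF n
  have p2 := herm_zero_pos hF (n - 2)
  have p3 : 1 ≤ (q ^ 2) ^ 2 := Nat.one_le_pow _ _ (by positivity)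
  have p4 : q ^ 2 ≤ (q ^ 2) ^ 2 := Nat.le_self_pow (by norm_num) _
  push_cast [Nat.cast_sub p1, Nat.cast_sub p2, Nat.cast_sub p3, Nat.cast_sub p4] at hm
  rw [hN, h1, h2] at hm
  linear_combination hm

end ti

end CfsgLib.ClassGeo
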