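import Mathlib
import Cfsg.Agent.Lib.ClassGeo.UTI
import Cfsg.Agent.Lib.ClassGeo.UDet
import Cfsg.Agent.Lib.ClassGeo.SubStabGL

set_option autoImplicit false
set_option linter.unusedSimpArgs false
set_option linter.unusedVariables false
set_option linter.unusedSectionVars false

namespace CfsgLib.ClassGeo

open Module Cfsg Matrix

section gen

/-- Orbit-stabiliser in a form convenient for transitive actions. -/
theorem card_eq_of_act {G X : Type*} [Group G] [Finite G] (S : Subgroup G) (act : G → X)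
    (hact : ∀ a b, act a = act b ↔ a⁻¹ * b ∈ S) (hsurj : Function.Surjective act) :
    Nat.card G = Nat.card X * Nat.card S := by
  have hidx : S.index = Nat.card X := by
    rw [Subgroup.index]
    let φ : G ⧸ S → X := Quotient.lift (s := QuotientGroup.leftRel S) act (by
      intro a b hab
      exact (hact a b).mpr (QuotientGroup.leftRel_apply.mp hab))
    refine Nat.card_congr (Equiv.ofBijective φ ⟨?_, ?_⟩)
    · intro a b
      induction a using QuotientGroup.induction_on with | _ a => ?_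
      induction b using QuotientGroup.induction_on with | _ b => ?_
      intro hab
      rw [QuotientGroup.eq]
      exact (hact a b).mp hab
    · intro x
      obtain ⟨g, rfl⟩ := hsurj x
      exact ⟨QuotientGroup.mk g, rfl⟩
  have hcard := Subgroup.card_mul_index S
  rw [hidx] at hcard
  rw [← hcard, mul_comm]

end gen

section eps

variable {F V : Type*} [Field F] [AddCommGroup V] [Module F V] {σ : F →+* F} {B : V →ₛₗ[σ] V →ₗ[F] F}

theorem HForm.toEps [FiniteDimensional F V] [Finite F] (h : HForm σ B) : EpsForm σ 1 B where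
  σσ := h.σσ
  εε := by simp
  symm := fun x y => by rw [one_mul, h.symm]
  trace := fun v => by
    obtain ⟨t, ht⟩ := h.trace_surj (B v v) (h.self_fixed v)
    exact ⟨t, by rw [one_mul]; exact ht.symm⟩
  sep := h.sep
  rep := fun f => h.toF.rep f

/-- Witt: totally isotropic subspaces of the same dimension are conjugate. -/
theorem ti_witt [FiniteDimensional F V] [Finite F] (h : HForm σ B) (W W' : Submodule F V) (hr : finrank F W = finrank F W')
    (hW : ∀ u ∈ W, ∀ v ∈ W, B u v = 0) (hW' : ∀ u ∈ W', ∀ v ∈ W', B u v = 0) :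
    ∃ g : V ≃ₗ[F] V, (∀ x y, B (g x) (g y) = B x y) ∧ W.map (g : V →ₗ[F] V) = W' := by
  obtain ⟨φ⟩ : Nonempty (W ≃ₗ[F] W') := ⟨LinearEquiv.ofFinrankEq _ _ hr⟩
  obtain ⟨g, hg, hgφ⟩ := (HForm.toEps h).witt W (W'.subtype ∘ₗ (φ : W →ₗ[F] W')) (by
    intro a b hab
    exact φ.injective (Subtype.ext hab)) (by
    intro u v
    change B ((φ u : W') : V) ((φ v : W') : V) = _
    rw [hW' _ (φ u).2 _ (φ v).2, hW _ u.2 _ v.2])
  refine ⟨g, hg, ?_⟩
  ext y
  constructor
  · rintro ⟨x, hx, rfl⟩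
    have := hgφ ⟨x, hx⟩
    change g x ∈ W'
    rw [show g x = ((φ ⟨x, hx⟩ : W') : V) from this]
    exact (φ ⟨x, hx⟩).2
  · intro hy
    refine ⟨(φ.symm ⟨y, hy⟩ : W), (φ.symm ⟨y, hy⟩).2, ?_⟩
    have := hgφ (φ.symm ⟨y, hy⟩)
    change g _ = y
    rw [show g _ = ((φ (φ.symm ⟨y, hy⟩) : W') : V) from this]
    simp

end eps

section abstr

variable {F V : Type*} [Field F] [AddCommGroup V] [Module F V] {σ : F →+* F} {B : V →ₛₗ[σ] V →ₗ[F] F}
variable [FiniteDimensional F V] [Finite F]

/-- Hilbert 90. -/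
theorem hilbert90 (h : HForm σ B) (c : F) (hc : c * σ c = 1) : ∃ d : F, d ≠ 0 ∧ d * (σ d)⁻¹ = c := by
  have hf := h.toF
  have hex : ∃ x : F, x + c * σ x ≠ 0 := by
    by_cases hc1 : c = -1
    · obtain ⟨e, he⟩ := h.exists_moved
      refine ⟨e, ?_⟩
      rw [hc1]
      intro h0
      apply he
      linear_combination - h0
    · refine ⟨1, ?_⟩
      rw [map_one, mul_one]
      intro h0
      apply hc1
      linear_combination h0
  obtain ⟨x, hx⟩ := hex
  obtain ⟨d, hd⟩ : ∃ d, d = x + c * σ x := ⟨_, rfl⟩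
  rw [← hd] at hx
  have h1 : d = c * σ d := by
    rw [hd]
    simp only [map_add, map_mul, hf.σσ]
    linear_combination (-x) * hc
  have hσ : σ d ≠ 0 := (map_ne_zero σ).mpr hx
  refine ⟨d, hx, ?_⟩
  calc d * (σ d)⁻¹ = (c * σ d) * (σ d)⁻¹ := by rw [← h1]
    _ = c := by field_simp

/-- An isometry stabilising a totally isotropic subspace with prescribed determinant of norm one. -/
theorem exists_hstab_det (h : HForm σ B) (W : Submodule F V) (hW : ∀ u ∈ W, ∀ v ∈ W, B u v = 0) (hW0 : W ≠ ⊥) (c : F) (hc : c * σ c = 1) :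
    ∃ g : V ≃ₗ[F] V, (∀ x y, B (g x) (g y) = B x y) ∧ (∀ x ∈ W, g x ∈ W) ∧ LinearMap.det (g : V →ₗ[F] V) = c := by
  have hf := h.toF
  obtain ⟨d, hd0, hd⟩ := hilbert90 h c hc
  have hσd : σ d ≠ 0 := (map_ne_zero σ).mpr hd0
  obtain ⟨e, he, he0⟩ := Submodule.exists_mem_ne_zero_of_ne_bot hW0
  have hee : B e e = 0 := hW e he e he
  have hT : NondegOn B (⊤ : Submodule F V) := fun x _ hx => h.sep x (fun v => hx v trivial)
  obtain ⟨f, -, hff, hef⟩ := hT.exists_iso_partner hf e trivial he0 hee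
  have hfe : B f e = 1 := by rw [← hf.symm, hef, map_one]
  obtain ⟨δ, hδ⟩ : ∃ δ, δ = (σ d)⁻¹ := ⟨_, rfl⟩
  have hδ1 : σ d * δ = 1 := by
    rw [hδ]
    field_simp
  have hδ2 : d * σ δ = 1 := by
    have := congrArg σ hδ1
    rw [map_mul, hf.σσ, map_one] at this
    exact this
  let g₀ : V →ₗ[F] V := LinearMap.transvection ((d - 1) • B f) e ∘ₗ LinearMap.transvection ((δ - 1) • B e) f
  have hg₀ : ∀ x, g₀ x = x + ((δ - 1) * B e x) • f + ((d - 1) * B f x) • e := by
    intro x
    simp only [g₀, LinearMap.comp_apply, LinearMap.transvection.apply, LinearMap.smul_apply, smul_eq_mul, map_add, map_smul, hff, mul_zero, zero_smul, add_zero]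
    abel
  have hiso : ∀ x y, B (g₀ x) (g₀ y) = B x y := by
    intro x y
    have e1 : B x e = σ (B e x) := (hf.symm e x).symm
    have e2 : B x f = σ (B f x) := (hf.symm f x).symm
    simp only [hg₀, map_add, LinearMap.add_apply, map_smul, LinearMap.map_smulₛₗ₂, smul_eq_mul, hee, hff, hef, hfe, e1, e2, map_mul, map_sub, map_one, mul_zero, add_zero, zero_add, mul_one]
    linear_combination (σ (B f x) * B e y) * hδ1 + (σ (B e x) * B f y) * hδ2
  have hinj : Function.Injective g₀ := by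
    rw [← LinearMap.ker_eq_bot, LinearMap.ker_eq_bot']
    intro x hx
    apply h.sep
    intro y
    rw [← hiso, hx]
    simp
  refine ⟨LinearEquiv.ofInjectiveEndo g₀ hinj, hiso, ?_, ?_⟩
  · intro x hx
    change g₀ x ∈ W
    rw [hg₀, hW e he x hx]
    simp only [mul_zero, zero_smul, add_zero]
    exact W.add_mem hx (W.smul_mem _ he)
  · change LinearMap.det g₀ = c
    simp only [g₀]
    rw [LinearMap.det_comp, LinearMap.transvection.det, LinearMap.transvection.det]
    simp only [LinearMap.smul_apply, smul_eq_mul, hfe, hef, mul_one]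
    rw [← hd, hδ]
    ring

end abstr

section stabF

variable {F V : Type*} [Field F] [AddCommGroup V] [Module F V] [FiniteDimensional F V]

theorem iff_of_stab (g : V ≃ₗ[F] V) (W : Submodule F V) (h : ∀ x ∈ W, g x ∈ W) (x : V) : x ∈ W ↔ g x ∈ W := by
  refine ⟨h x, fun hx => ?_⟩
  have h1 : W.map (g : V →ₗ[F] V) ≤ W := by
    rintro _ ⟨y, hy, rfl⟩
    exact h y hy
  have h2 : W.map (g : V →ₗ[F] V) = W := by
    apply Submodule.eq_of_le_of_finrank_eq h1
    rw [LinearEquiv.finrank_map_eq]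
  rw [← h2] at hx
  obtain ⟨y, hy, hyx⟩ := hx
  have : y = x := g.injective hyx
  rwa [← this]

end stabF

section std

variable {F : Type*} [Field F] [Fintype F] {q : ℕ} (hF : Fintype.card F = q ^ 2) (n : ℕ)

/-- The stabiliser of a subspace in the isometry group of the Hermitian form. -/
def guStab (W : Submodule F (Fin n → F)) : Subgroup (fIsom (F := F) (hermForm n F q)) where
  carrier := {g | ∀ x, x ∈ W ↔ (g : (Fin n → F) ≃ₗ[F] (Fin n → F)) x ∈ W}
  mul_mem' := by
    intro a b ha hb x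
    rw [hb x, ha]
    rfl
  one_mem' := fun x => Iff.rfl
  inv_mem' := by
    intro a ha x
    have h1 := ha ((a : (Fin n → F) ≃ₗ[F] (Fin n → F)).symm x)
    rw [LinearEquiv.apply_symm_apply] at h1
    exact h1.symm

theorem mem_guStab {W : Submodule F (Fin n → F)} {g : fIsom (F := F) (hermForm n F q)} :
    g ∈ guStab n W ↔ ∀ x, x ∈ W ↔ (g : (Fin n → F) ≃ₗ[F] (Fin n → F)) x ∈ W := Iff.rfl

include hF in
/-- The isometry group is transitive on totally isotropic subspaces. -/
theorem card_GU_eq_orbit (W : Submodule F (Fin n → F)) (k : ℕ) (hWk : finrank F W = k) (hW : ∀ u ∈ W, ∀ v ∈ W, hermForm n F q u v = 0) :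
    Nat.card (fIsom (F := F) (hermForm n F q)) =
      Nat.card {W' : Submodule F (Fin n → F) // finrank F W' = k ∧ ∀ u ∈ W', ∀ v ∈ W', hermForm n F q u v = 0} * Nat.card (guStab (q := q) n W) := by
  have h := stdH_hform n hF
  have hfinE : Finite ((Fin n → F) ≃ₗ[F] (Fin n → F)) := Finite.of_injective (fun g : (Fin n → F) ≃ₗ[F] (Fin n → F) => (g : (Fin n → F) → (Fin n → F))) DFunLike.coe_injective
  refine card_eq_of_act (guStab (q := q) n W) (fun g => ⟨W.map ((g : (Fin n → F) ≃ₗ[F] (Fin n → F)) : (Fin n → F) →ₗ[F] (Fin n → F)), ?_, ?_⟩) ?_ ?_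
  · rw [LinearEquiv.finrank_map_eq, hWk]
  · rintro _ ⟨u, hu, rfl⟩ _ ⟨v, hv, rfl⟩
    have := g.2 u v
    change hermForm n F q (g.1 u) (g.1 v) = 0
    rw [this]
    exact hW u hu v hv
  · intro a b
    rw [Subtype.mk.injEq, mem_guStab]
    constructor
    · intro hab x
      have h1 : (b : (Fin n → F) ≃ₗ[F] (Fin n → F)) x ∈ W.map (((b : (Fin n → F) ≃ₗ[F] (Fin n → F))) : (Fin n → F) →ₗ[F] (Fin n → F)) ↔ x ∈ W := by
        rw [Submodule.mem_map_equiv, LinearEquiv.symm_apply_apply]
      rw [← h1, ← hab, Submodule.mem_map_equiv]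
      rfl
    · intro hab
      ext y
      rw [Submodule.mem_map_equiv, Submodule.mem_map_equiv]
      have h1 := hab ((b : (Fin n → F) ≃ₗ[F] (Fin n → F)).symm y)
      have h2 : ((a⁻¹ * b : fIsom (F := F) (hermForm n F q)) : (Fin n → F) ≃ₗ[F] (Fin n → F)) ((b : (Fin n → F) ≃ₗ[F] (Fin n → F)).symm y) = (a : (Fin n → F) ≃ₗ[F] (Fin n → F)).symm y := by
        change (a : (Fin n → F) ≃ₗ[F] (Fin n → F)).symm ((b : (Fin n → F) ≃ₗ[F] (Fin n → F)) ((b : (Fin n → F) ≃ₗ[F] (Fin n → F)).symm y)) = _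
        rw [LinearEquiv.apply_symm_apply]
      rw [h2] at h1
      exact h1.symm
  · rintro ⟨W', hW'k, hW'⟩
    obtain ⟨g, hg, hgW⟩ := ti_witt h W W' (by rw [hWk, hW'k]) (fun u hu v hv => hW v hv u hu) (fun u hu v hv => hW' v hv u hu)
    refine ⟨⟨g, fun a b => hg b a⟩, Subtype.ext hgW⟩

include hF in
/-- Recursion for the order of `GU`. -/
theorem GU_rec (m : ℕ) : Nat.card (GU (m + 2) F q) =
    (Nat.card {v : Fin (m + 2) → F // hermForm (m + 2) F q v v = 0} - 1) * q ^ (2 * m + 1) * Nat.card (GU m F q) := by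
  have hq2 := qfrob_two_le hF
  rw [card_GU hF (m + 2), card_GU hF m]
  have h1 := herm_zero_closed hF (m + 1)
  have p1 := herm_zero_pos hF (m + 2)
  have e1 : (Nat.card {v : Fin (m + 2) → F // hermForm (m + 2) F q v v = 0} - 1) =
      if Even m then (q ^ (m + 2) - 1) * (q ^ (m + 1) + 1) else (q ^ (m + 2) + 1) * (q ^ (m + 1) - 1) := by
    have p2 : 1 ≤ q ^ (m + 2) := Nat.one_le_pow _ _ (by omega)
    have p3 : 1 ≤ q ^ (m + 1) := Nat.one_le_pow _ _ (by omega)
    zify [p1]
    rw [show (m + 1 + 1 : ℕ) = m + 2 from rfl] at h1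
    rw [h1]
    split_ifs with he
    · have hs : (-1 : ℤ) ^ (m + 2) = 1 := (he.add (by norm_num : Even 2)).neg_one_pow
      rw [hs]
      zify [p2]
      ring
    · have hs : (-1 : ℤ) ^ (m + 2) = -1 := ((Nat.not_even_iff_odd.mp he).add_even (by norm_num : Even 2)).neg_one_pow
      rw [hs]
      zify [p3]
      ring
  rw [e1, Finset.prod_range_succ, Finset.prod_range_succ]
  have e2 : q ^ ((m + 2) * (m + 2 - 1) / 2) = q ^ (2 * m + 1) * q ^ (m * (m - 1) / 2) := by
    rw [← pow_add]
    congr 1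
    have h3 : (m + 2) * (m + 2 - 1) = 2 * (2 * m + 1) + m * (m - 1) := by
      cases m with
      | zero => rfl
      | succ k =>
        show (k + 1 + 2) * (k + 2) = 2 * (2 * (k + 1) + 1) + (k + 1) * k
        ring
    rw [h3, Nat.mul_add_div (by norm_num)]
  rw [e2]
  by_cases he : Even m
  · have h4 : ¬ Even (m + 1) := by
      rw [Nat.even_add_one]
      simpa using he
    rw [if_pos he, if_pos he, if_neg h4]
    ring
  · have h4 : Even (m + 1) := Nat.even_add_one.mpr he
    rw [if_neg he, if_neg he, if_pos h4]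
    ring

include hF in
theorem GU_rec' (N : ℕ) (hN : 2 ≤ N) : Nat.card (GU N F q) =
    (Nat.card {v : Fin N → F // hermForm N F q v v = 0} - 1) * q ^ (2 * (N - 2) + 1) * Nat.card (GU (N - 2) F q) := by
  obtain ⟨m, rfl⟩ : ∃ m, N = m + 2 := ⟨N - 2, by omega⟩
  exact GU_rec hF m

include hF in
/-- The chain of recursions. -/
theorem GU_chain (n k : ℕ) (hk : 2 * k ≤ n) : Nat.card (GU n F q) =
    (∏ i ∈ Finset.range k, ((q ^ 2) ^ i * (Nat.card {v : Fin (n - 2 * i) → F // hermForm (n - 2 * i) F q v v = 0} - 1))) *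
      q ^ (k * (2 * n - 3 * k)) * Nat.card (GU (n - 2 * k) F q) := by
  induction k with
  | zero =>
    simp only [Finset.range_zero, Finset.prod_empty, one_mul, zero_mul, pow_zero]
    rfl
  | succ k ih =>
    rw [ih (by omega), GU_rec' hF (n - 2 * k) (by omega), Finset.prod_range_succ]
    have e : n - 2 * k - 2 = n - 2 * (k + 1) := by omega
    rw [e]
    have hexp : k * (2 * n - 3 * k) + (2 * (n - 2 * (k + 1)) + 1) = 2 * k + (k + 1) * (2 * n - 3 * (k + 1)) := by
      obtain ⟨m, rfl⟩ : ∃ m, n = 2 * k + 2 + m := ⟨n - (2 * k + 2), by omega⟩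
      have e1 : 2 * (2 * k + 2 + m) - 3 * k = k + 4 + 2 * m := by omega
      have e2 : 2 * (2 * k + 2 + m) - 3 * (k + 1) = k + 1 + 2 * m := by omega
      have e3 : 2 * k + 2 + m - 2 * (k + 1) = m := by omega
      rw [e1, e2, e3]
      ring
    have hp : q ^ (k * (2 * n - 3 * k)) * q ^ (2 * (n - 2 * (k + 1)) + 1) = (q ^ 2) ^ k * q ^ ((k + 1) * (2 * n - 3 * (k + 1))) := by
      rw [← pow_add, ← pow_mul, ← pow_add, hexp]
    generalize q ^ (2 * (n - 2 * (k + 1)) + 1) = A at hp ⊢
    generalize q ^ (k * (2 * n - 3 * k)) = A' at hp ⊢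
    generalize q ^ ((k + 1) * (2 * n - 3 * (k + 1))) = A'' at hp ⊢
    calc _ = (∏ i ∈ Finset.range k, ((q ^ 2) ^ i * (Nat.card {v : Fin (n - 2 * i) → F // hermForm (n - 2 * i) F q v v = 0} - 1))) * (A' * A) *
          (Nat.card {v : Fin (n - 2 * k) → F // hermForm (n - 2 * k) F q v v = 0} - 1) * Nat.card (GU (n - 2 * (k + 1)) F q) := by ring
      _ = _ := by rw [hp]; ring

include hF in
/-- The order of the stabiliser of a totally isotropic subspace in the general unitary group. -/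
theorem card_guStab (W : Submodule F (Fin n → F)) (k : ℕ) (hWk : finrank F W = k) (hW : ∀ u ∈ W, ∀ v ∈ W, hermForm n F q u v = 0) :
    Nat.card (guStab (q := q) n W) = q ^ (k * (2 * n - 3 * k)) * (∏ i : Fin k, ((q ^ 2) ^ k - (q ^ 2) ^ (i : ℕ))) * Nat.card (GU (n - 2 * k) F q) := by
  have hq2 := qfrob_two_le hF
  have h := stdH_hform n hF
  have h1 := card_GU_eq_orbit hF n W k hWk hW
  have e0 : Nat.card (GU n F q) = Nat.card (fIsom (F := F) (hermForm n F q)) := Nat.card_congr (preservingEquiv (hermForm n F q)).toEquiv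
  rw [← e0] at h1
  have hle := (ti_dec hF h W (fun u hu v hv => hW v hv u hu) n k (by simp) hWk).1
  rw [GU_chain hF n k hle] at h1
  rw [← card_ti_frames hF h n (by simp) k, ← card_ti_subspaces hF h k] at h1
  have e : Nat.card {W : Submodule F (Fin n → F) // finrank F W = k ∧ ∀ u ∈ W, ∀ v ∈ W, hermForm n F q u v = 0} =
      Nat.card {W : Submodule F (Fin n → F) // finrank F W = k ∧ ∀ u ∈ W, ∀ v ∈ W, stdH n hF u v = 0} := by
    refine Nat.card_congr (Equiv.subtypeEquivRight fun W => ?_)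
    constructor
    · rintro ⟨h1, h2⟩
      exact ⟨h1, fun u hu v hv => h2 v hv u hu⟩
    · rintro ⟨h1, h2⟩
      exact ⟨h1, fun u hu v hv => h2 v hv u hu⟩
  rw [e] at h1
  have hpos : 0 < Nat.card {W : Submodule F (Fin n → F) // finrank F W = k ∧ ∀ u ∈ W, ∀ v ∈ W, stdH n hF u v = 0} :=
    Nat.card_pos_iff.mpr ⟨⟨⟨W, hWk, fun u hu v hv => hW v hv u hu⟩⟩, Subtype.finite⟩
  apply Nat.eq_of_mul_eq_mul_left hpos
  rw [← h1]
  ring

include hF in
/-- `(q + 1)` times the order of the stabiliser in `SU` is the order of the stabiliser in `GU`. -/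
theorem card_guStab_eq (hn : 1 ≤ n) (W : Submodule F (Fin n → F)) (hW : ∀ u ∈ W, ∀ v ∈ W, hermForm n F q u v = 0) :
    (q + 1) * Nat.card ↥((stabilizing (slToMat n F) (W : Set (Fin n → F))).subgroupOf (SU n F q)) = Nat.card (guStab (q := q) n W) := by
  classical
  have hq2 := qfrob_two_le hF
  have h := stdH_hform n hF
  have hfinE : Finite ((Fin n → F) ≃ₗ[F] (Fin n → F)) := Finite.of_injective (fun g : (Fin n → F) ≃ₗ[F] (Fin n → F) => (g : (Fin n → F) → (Fin n → F))) DFunLike.coe_injective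
  let δ : ↥(guStab (q := q) n W) →* Fˣ := (LinearEquiv.det (R := F) (M := Fin n → F)).comp ((fIsom (F := F) (hermForm n F q)).subtype.comp (guStab (q := q) n W).subtype)
  have hδ : ∀ g : ↥(guStab (q := q) n W), ((δ g : Fˣ) : F) = LinearMap.det (((g : fIsom (F := F) (hermForm n F q)) : (Fin n → F) ≃ₗ[F] (Fin n → F)) : (Fin n → F) →ₗ[F] (Fin n → F)) := fun g => LinearEquiv.coe_det _
  have h1 := Subgroup.card_mul_index δ.ker
  rw [Subgroup.index_ker] at h1
  -- the kernel
  have h2 : Nat.card δ.ker = Nat.card ↥((stabilizing (slToMat n F) (W : Set (Fin n → F))).subgroupOf (SU n F q)) := by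
    symm
    refine Nat.card_congr (Equiv.ofBijective (fun x => ⟨⟨⟨slLin n (x.1.1 : SpecialLinearGroup (Fin n) F), x.1.2⟩, fun v => x.2 v⟩, ?_⟩) ⟨?_, ?_⟩)
    · rw [MonoidHom.mem_ker]
      apply Units.ext
      rw [hδ]
      exact slLin_det n _
    · intro x x' hx
      have h3 : slLin n (x.1.1 : SpecialLinearGroup (Fin n) F) = slLin n (x'.1.1 : SpecialLinearGroup (Fin n) F) :=
        congrArg (fun g : δ.ker => ((g : ↥(guStab (q := q) n W)) : fIsom (F := F) (hermForm n F q)).1) hx
      apply Subtype.ext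
      apply Subtype.ext
      exact slLin_injective n h3
    · rintro ⟨⟨g, hgS⟩, hgk⟩
      have hd : LinearMap.det ((g : (Fin n → F) ≃ₗ[F] (Fin n → F)) : (Fin n → F) →ₗ[F] (Fin n → F)) = 1 := by
        have := congrArg Units.val (MonoidHom.mem_ker.mp hgk)
        rwa [hδ] at this
      obtain ⟨A, hA⟩ := exists_sl_of_det n _ hd
      have hAS : A ∈ SU n F q := by
        intro u v
        have := g.2 u v
        rwa [← hA] at this
      refine ⟨⟨⟨A, hAS⟩, ?_⟩, ?_⟩
      · rw [Subgroup.mem_subgroupOf]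
        intro v
        have := hgS v
        rwa [← hA] at this
      · apply Subtype.ext
        apply Subtype.ext
        apply Subtype.ext
        exact hA
  rw [h2] at h1
  -- the image
  have h3 : Nat.card δ.range = q + 1 := by
    have hcount := Cfsg.Agent.S0754.result hF (1 : F) one_ne_zero (one_pow q)
    rw [← hcount]
    refine Nat.card_congr (Equiv.ofBijective (fun g => ⟨((g.1 : Fˣ) : F), ?_⟩) ⟨?_, ?_⟩)
    · obtain ⟨g, hg⟩ := g.2
      rw [← hg, hδ, ← det_glLin_symm]
      apply det_norm_of_isom hF n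
      intro u v
      rw [glLin_symm_mulVec, glLin_symm_mulVec]
      exact g.1.2 u v
    · intro g g' hgg
      apply Subtype.ext
      apply Units.ext
      exact congrArg Subtype.val hgg
    · rintro ⟨x, hx⟩
      have hx0 : x ≠ 0 := by
        rintro rfl
        rw [zero_pow (by omega)] at hx
        exact zero_ne_one hx
      have hxσ : x * qFrob hF x = 1 := by
        rw [qFrob_apply, ← hx, pow_succ, mul_comm]
      obtain ⟨g, hg1, hg2, hg3⟩ : ∃ g : (Fin n → F) ≃ₗ[F] (Fin n → F), (∀ a b, hermForm n F q (g a) (g b) = hermForm n F q a b) ∧ (∀ y, y ∈ W ↔ g y ∈ W) ∧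
          LinearMap.det (g : (Fin n → F) →ₗ[F] (Fin n → F)) = x := by
        by_cases hW0 : W = ⊥
        · obtain ⟨g₀, hg₀⟩ := exists_gu_det hF n hn (Units.mk0 x hx0) (Units.ext (by simpa using hx))
          refine ⟨glLin (g₀ : GL (Fin n) F), ?_, ?_, ?_⟩
          · intro a b
            rw [glLin_apply, glLin_apply]
            exact g₀.2 a b
          · apply iff_of_stab
            intro y hy
            rw [hW0, Submodule.mem_bot] at hy ⊢
            rw [hy, map_zero]
          · have e1 := congrArg Units.val hg₀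
            rw [guDet_apply] at e1
            have e2 := det_glLin_symm (glLin (g₀ : GL (Fin n) F))
            rw [MulEquiv.symm_apply_apply] at e2
            rw [← e2, e1]
            rfl
        · obtain ⟨g, hg1, hg2, hg3⟩ := exists_hstab_det h W (fun u hu v hv => hW v hv u hu) hW0 x hxσ
          exact ⟨g, fun a b => hg1 b a, iff_of_stab g W hg2, hg3⟩
      refine ⟨⟨Units.mk0 x hx0, ⟨⟨⟨g, hg1⟩, hg2⟩, ?_⟩⟩, rfl⟩
      apply Units.ext
      rw [hδ]
      exact hg3
  rw [h3] at h1
  rw [← h1, mul_comm]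

end std

end CfsgLib.ClassGeo
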