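import Mathlib
import Cfsg.Agent.Lib.ClassGeo.UParab

set_option autoImplicit false
set_option linter.unusedSimpArgs false
set_option linter.unusedVariables false
set_option linter.unusedSectionVars false

namespace CfsgLib.ClassGeo

open Module Cfsg Matrix

section perp

variable {F V : Type*} [Field F] [AddCommGroup V] [Module F V] {σ : F →+* F} {B : V →ₛₗ[σ] V →ₗ[F] F}
variable [FiniteDimensional F V] [Finite F]

theorem NondegOn.hperp_nondeg (hf : FForm σ B) {W : Submodule F V} (hW : NondegOn B W) : NondegOn B (hperp B W) := by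
  intro u hu hall
  have h1 : u ∈ W := by
    rw [← hf.hperp_hperp W]
    intro w hw
    exact hf.zero_symm (hall w hw)
  apply hW u h1
  intro w hw
  exact hf.zero_symm (hu w hw)

end perp

section std

variable {F : Type*} [Field F] [Fintype F] {q : ℕ} (hF : Fintype.card F = q ^ 2) (n k : ℕ)

include hF in
/-- Splitting along a nondegenerate subspace. -/
theorem guStab_split (hk : k ≤ n) (W : Submodule F (Fin n → F)) (hWk : finrank F W = k)
    (hW : ∀ u ∈ W, (∀ v ∈ W, hermForm n F q u v = 0) → u = 0) :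
    Nonempty (↥(guStab (q := q) n W) ≃* ↥(fIsom (F := F) (hermForm k F q)) × ↥(fIsom (F := F) (hermForm (n - k) F q))) := by
  classical
  have h := stdH_hform n hF
  have hf := h.toF
  have hdimV : finrank F (Fin n → F) = n := by simp
  have hWN : NondegOn (stdH n hF) W := by
    intro u hu hall
    apply hW u hu
    intro v hv
    exact hf.zero_symm (hall v hv)
  have hW'N := hWN.hperp_nondeg hf
  have hr := hf.finrank_hperp W
  obtain ⟨φ₁, hφ₁i, hφ₁r, hφ₁⟩ := exists_std_iso hF h.symm W hWN k hWk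
  obtain ⟨φ₂, hφ₂i, hφ₂r, hφ₂⟩ := exists_std_iso hF h.symm (hperp (stdH n hF) W) hW'N (n - k) (by omega)
  have hφ₁m : ∀ c, φ₁ c ∈ W := fun c => by
    rw [← hφ₁r]
    exact ⟨c, rfl⟩
  have hφ₂m : ∀ c, φ₂ c ∈ hperp (stdH n hF) W := fun c => by
    rw [← hφ₂r]
    exact ⟨c, rfl⟩
  have hinf : ∀ x, x ∈ W → x ∈ hperp (stdH n hF) W → x = 0 := by
    intro x h1 h2
    apply hWN x h1
    intro w hw
    exact hf.zero_symm (h2 w hw)
  -- the decomposition
  let Φ₀ : ((Fin k → F) × (Fin (n - k) → F)) →ₗ[F] (Fin n → F) := LinearMap.coprod φ₁ φ₂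
  have hΦ₀ : ∀ u, Φ₀ u = φ₁ u.1 + φ₂ u.2 := fun u => by
    simp [Φ₀, LinearMap.coprod_apply]
  have hinj : Function.Injective Φ₀ := by
    rw [← LinearMap.ker_eq_bot, LinearMap.ker_eq_bot']
    intro u hu
    rw [hΦ₀] at hu
    have h1 : φ₁ u.1 = - φ₂ u.2 := eq_neg_of_add_eq_zero_left hu
    have h2 : φ₁ u.1 = 0 := hinf _ (hφ₁m _) (by rw [h1]; exact (hperp (stdH n hF) W).neg_mem (hφ₂m _))
    have h3 : φ₂ u.2 = 0 := by
      rw [h2, zero_add] at hu
      exact hu
    have h4 : u.1 = 0 := hφ₁i (by rw [h2, map_zero])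
    have h5 : u.2 = 0 := hφ₂i (by rw [h3, map_zero])
    exact Prod.ext h4 h5
  have hdim : finrank F ((Fin k → F) × (Fin (n - k) → F)) = finrank F (Fin n → F) := by
    rw [finrank_prod]
    simp
    omega
  let Φ : ((Fin k → F) × (Fin (n - k) → F)) ≃ₗ[F] (Fin n → F) := LinearEquiv.ofBijective Φ₀ ((LinearMap.injective_iff_surjective_of_finrank_eq_finrank hdim).mp hinj |> fun hs => ⟨hinj, hs⟩)
  have hΦ : ∀ u, Φ u = φ₁ u.1 + φ₂ u.2 := hΦ₀
  have hcross : ∀ c d, stdH n hF (φ₁ c) (φ₂ d) = 0 := fun c d => hφ₂m d _ (hφ₁m c)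
  have hcross' : ∀ c d, stdH n hF (φ₂ d) (φ₁ c) = 0 := fun c d => hf.zero_symm (hcross c d)
  have hform : ∀ u v, hermForm n F q (Φ u) (Φ v) = hermForm k F q u.1 v.1 + hermForm (n - k) F q u.2 v.2 := by
    intro u v
    rw [hΦ, hΦ, ← stdH_apply n hF (φ₁ v.1 + φ₂ v.2)]
    simp only [map_add, LinearMap.add_apply, hcross, hcross', hφ₁, hφ₂, add_zero, zero_add, stdH_apply]
  have hΦW : ∀ u, Φ u ∈ W ↔ u.2 = 0 := by
    intro u
    rw [hΦ]
    constructor
    · intro hmem
      have h1 : φ₂ u.2 ∈ W := by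
        have : φ₂ u.2 = (φ₁ u.1 + φ₂ u.2) - φ₁ u.1 := by abel
        rw [this]
        exact W.sub_mem hmem (hφ₁m _)
      exact hφ₂i (by rw [hinf _ h1 (hφ₂m _), map_zero])
    · intro h0
      rw [h0, map_zero, add_zero]
      exact hφ₁m _
  have hΦW' : ∀ u, Φ u ∈ hperp (stdH n hF) W ↔ u.1 = 0 := by
    intro u
    rw [hΦ]
    constructor
    · intro hmem
      have h1 : φ₁ u.1 ∈ hperp (stdH n hF) W := by
        have : φ₁ u.1 = (φ₁ u.1 + φ₂ u.2) - φ₂ u.2 := by abel
        rw [this]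
        exact (hperp (stdH n hF) W).sub_mem hmem (hφ₂m _)
      exact hφ₁i (by rw [hinf _ (hφ₁m _) h1, map_zero])
    · intro h0
      rw [h0, map_zero, zero_add]
      exact hφ₂m _
  -- the homomorphism
  have hmemI : ∀ p : ↥(fIsom (F := F) (hermForm k F q)) × ↥(fIsom (F := F) (hermForm (n - k) F q)),
      Φ.symm.trans (((p.1 : (Fin k → F) ≃ₗ[F] (Fin k → F)).prodCongr (p.2 : (Fin (n - k) → F) ≃ₗ[F] (Fin (n - k) → F))).trans Φ) ∈ fIsom (F := F) (hermForm n F q) := by
    intro p a b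
    obtain ⟨u, rfl⟩ := Φ.surjective a
    obtain ⟨v, rfl⟩ := Φ.surjective b
    simp only [LinearEquiv.trans_apply, LinearEquiv.symm_apply_apply, LinearEquiv.prodCongr_apply, hform]
    rw [p.1.2, p.2.2]
  have hmemS : ∀ p : ↥(fIsom (F := F) (hermForm k F q)) × ↥(fIsom (F := F) (hermForm (n - k) F q)),
      (⟨_, hmemI p⟩ : fIsom (F := F) (hermForm n F q)) ∈ guStab (q := q) n W := by
    intro p x
    obtain ⟨u, rfl⟩ := Φ.surjective x
    change _ ↔ (Φ.symm.trans (((p.1 : (Fin k → F) ≃ₗ[F] (Fin k → F)).prodCongr (p.2 : (Fin (n - k) → F) ≃ₗ[F] (Fin (n - k) → F))).trans Φ)) (Φ u) ∈ W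
    simp only [LinearEquiv.trans_apply, LinearEquiv.symm_apply_apply, LinearEquiv.prodCongr_apply, hΦW]
    exact ⟨fun h0 => by rw [h0, map_zero], fun h0 => by simpa using h0⟩
  have hG₀ : ∀ (p : ↥(fIsom (F := F) (hermForm k F q)) × ↥(fIsom (F := F) (hermForm (n - k) F q))) u,
      (Φ.symm.trans (((p.1 : (Fin k → F) ≃ₗ[F] (Fin k → F)).prodCongr (p.2 : (Fin (n - k) → F) ≃ₗ[F] (Fin (n - k) → F))).trans Φ)) (Φ u) =
        Φ ((p.1 : (Fin k → F) ≃ₗ[F] (Fin k → F)) u.1, (p.2 : (Fin (n - k) → F) ≃ₗ[F] (Fin (n - k) → F)) u.2) := by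
    intro p u
    simp only [LinearEquiv.trans_apply, LinearEquiv.symm_apply_apply, LinearEquiv.prodCongr_apply]
  let Ψ : ↥(fIsom (F := F) (hermForm k F q)) × ↥(fIsom (F := F) (hermForm (n - k) F q)) →* ↥(guStab (q := q) n W) :=
    { toFun := fun p => ⟨⟨_, hmemI p⟩, hmemS p⟩
      map_one' := by
        apply Subtype.ext
        apply Subtype.ext
        refine LinearEquiv.ext fun x => ?_
        obtain ⟨u, rfl⟩ := Φ.surjective x
        exact hG₀ 1 u
      map_mul' := by
        intro p p'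
        apply Subtype.ext
        apply Subtype.ext
        refine LinearEquiv.ext fun x => ?_
        obtain ⟨u, rfl⟩ := Φ.surjective x
        refine (hG₀ (p * p') u).trans ?_
        symm
        change (Φ.symm.trans (((p.1 : (Fin k → F) ≃ₗ[F] (Fin k → F)).prodCongr (p.2 : (Fin (n - k) → F) ≃ₗ[F] (Fin (n - k) → F))).trans Φ))
          ((Φ.symm.trans (((p'.1 : (Fin k → F) ≃ₗ[F] (Fin k → F)).prodCongr (p'.2 : (Fin (n - k) → F) ≃ₗ[F] (Fin (n - k) → F))).trans Φ)) (Φ u)) = _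
        rw [hG₀ p' u, hG₀ p]
        rfl }
  have hΨ : ∀ (p : ↥(fIsom (F := F) (hermForm k F q)) × ↥(fIsom (F := F) (hermForm (n - k) F q))) (u : (Fin k → F) × (Fin (n - k) → F)), (((Ψ p : ↥(guStab (q := q) n W)) : fIsom (F := F) (hermForm n F q)) : (Fin n → F) ≃ₗ[F] (Fin n → F)) (Φ u) =
      Φ ((p.1 : (Fin k → F) ≃ₗ[F] (Fin k → F)) u.1, (p.2 : (Fin (n - k) → F) ≃ₗ[F] (Fin (n - k) → F)) u.2) := hG₀
  have hΨinj : Function.Injective Ψ := by
    intro p p' hpp
    have h1 : ∀ u : (Fin k → F) × (Fin (n - k) → F), Φ ((p.1 : (Fin k → F) ≃ₗ[F] (Fin k → F)) u.1, (p.2 : (Fin (n - k) → F) ≃ₗ[F] (Fin (n - k) → F)) u.2) =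
        Φ ((p'.1 : (Fin k → F) ≃ₗ[F] (Fin k → F)) u.1, (p'.2 : (Fin (n - k) → F) ≃ₗ[F] (Fin (n - k) → F)) u.2) := by
      intro u
      rw [← hΨ, ← hΨ, hpp]
    apply Prod.ext
    · apply Subtype.ext
      ext1 c
      have := Φ.injective (h1 (c, 0))
      exact congrArg Prod.fst this
    · apply Subtype.ext
      ext1 c
      have := Φ.injective (h1 (0, c))
      exact congrArg Prod.snd this
  have hΨsurj : Function.Surjective Ψ := by
    rintro ⟨⟨g, hgI⟩, hgS⟩
    have hgW : ∀ x, x ∈ W ↔ g x ∈ W := hgS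
    have hgW' : ∀ x ∈ hperp (stdH n hF) W, g x ∈ hperp (stdH n hF) W := by
      intro x hx w hw
      have h1 : g.symm w ∈ W := (hgW _).mpr (by rw [LinearEquiv.apply_symm_apply]; exact hw)
      have h2 := hgI x (g.symm w)
      rw [LinearEquiv.apply_symm_apply] at h2
      have h3 : hermForm n F q x (g.symm w) = 0 := hx _ h1
      rw [h3] at h2
      exact h2
    have hz0 : ∀ (m : ℕ), hermForm m F q 0 0 = 0 := by
      intro m
      simp [hermForm]
    let a₀ : (Fin k → F) →ₗ[F] (Fin k → F) := (LinearMap.fst F (Fin k → F) (Fin (n - k) → F)) ∘ₗ (Φ.symm : (Fin n → F) →ₗ[F] ((Fin k → F) × (Fin (n - k) → F))) ∘ₗ (g : (Fin n → F) →ₗ[F] (Fin n → F)) ∘ₗ (Φ : ((Fin k → F) × (Fin (n - k) → F)) →ₗ[F] (Fin n → F)) ∘ₗ (LinearMap.inl F (Fin k → F) (Fin (n - k) → F))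
    let b₀ : (Fin (n - k) → F) →ₗ[F] (Fin (n - k) → F) := (LinearMap.snd F (Fin k → F) (Fin (n - k) → F)) ∘ₗ (Φ.symm : (Fin n → F) →ₗ[F] ((Fin k → F) × (Fin (n - k) → F))) ∘ₗ (g : (Fin n → F) →ₗ[F] (Fin n → F)) ∘ₗ (Φ : ((Fin k → F) × (Fin (n - k) → F)) →ₗ[F] (Fin n → F)) ∘ₗ (LinearMap.inr F (Fin k → F) (Fin (n - k) → F))
    have ha : ∀ c, g (Φ (c, 0)) = Φ (a₀ c, 0) := by
      intro c
      have h1 : g (Φ (c, 0)) ∈ W := (hgW _).mp ((hΦW _).mpr rfl)
      obtain ⟨u, hu⟩ := Φ.surjective (g (Φ (c, 0)))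
      rw [← hu] at h1
      have h2 : u.2 = 0 := (hΦW _).mp h1
      have h3 : a₀ c = u.1 := by
        change (Φ.symm (g (Φ (c, 0)))).1 = _
        rw [← hu, LinearEquiv.symm_apply_apply]
      rw [← hu, h3]
      congr 1
      exact Prod.ext rfl h2
    have hb : ∀ d, g (Φ (0, d)) = Φ (0, b₀ d) := by
      intro d
      have h1 : g (Φ (0, d)) ∈ hperp (stdH n hF) W := hgW' _ ((hΦW' _).mpr rfl)
      obtain ⟨u, hu⟩ := Φ.surjective (g (Φ (0, d)))
      rw [← hu] at h1
      have h2 : u.1 = 0 := (hΦW' _).mp h1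
      have h3 : b₀ d = u.2 := by
        change (Φ.symm (g (Φ (0, d)))).2 = _
        rw [← hu, LinearEquiv.symm_apply_apply]
      rw [← hu, h3]
      congr 1
      exact Prod.ext h2 rfl
    have hformL : ∀ c c', hermForm k F q (a₀ c) (a₀ c') = hermForm k F q c c' := by
      intro c c'
      have h1 := hgI (Φ (c, 0)) (Φ (c', 0))
      rw [ha, ha, hform, hform, hz0] at h1
      simpa using h1
    have hformR : ∀ c c', hermForm (n - k) F q (b₀ c) (b₀ c') = hermForm (n - k) F q c c' := by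
      intro c c'
      have h1 := hgI (Φ (0, c)) (Φ (0, c'))
      rw [hb, hb, hform, hform, hz0] at h1
      simpa using h1
    have hainj : Function.Injective a₀ := by
      rw [← LinearMap.ker_eq_bot, LinearMap.ker_eq_bot']
      intro c hc
      apply (stdH_hform k hF).sep
      intro d
      change hermForm k F q d c = 0
      rw [← hformL, hc]
      have hq0 : q ≠ 0 := by
        have := qfrob_two_le hF
        omega
      simp [hermForm, zero_pow hq0]
    have hbinj : Function.Injective b₀ := by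
      rw [← LinearMap.ker_eq_bot, LinearMap.ker_eq_bot']
      intro c hc
      apply (stdH_hform (n - k) hF).sep
      intro d
      change hermForm (n - k) F q d c = 0
      rw [← hformR, hc]
      have hq0 : q ≠ 0 := by
        have := qfrob_two_le hF
        omega
      simp [hermForm, zero_pow hq0]
    refine ⟨(⟨LinearEquiv.ofInjectiveEndo a₀ hainj, hformL⟩, ⟨LinearEquiv.ofInjectiveEndo b₀ hbinj, hformR⟩), ?_⟩
    apply Subtype.ext
    apply Subtype.ext
    ext1 x
    obtain ⟨u, rfl⟩ := Φ.surjective x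
    refine (hΨ _ u).trans ?_
    have e1 : u = (u.1, 0) + (0, u.2) := by simp
    conv_rhs => rw [e1, map_add, map_add, ha, hb, ← map_add]
    congr 1
    simp
  exact ⟨(MulEquiv.ofBijective Ψ ⟨hΨinj, hΨsurj⟩).symm⟩

/-- The stabiliser in the matrix group versus in the group of linear automorphisms. -/
noncomputable def guStabEquiv (W : Submodule F (Fin n → F)) :
    ↥((stabilizing (glToMat (Fin n) F) (W : Set (Fin n → F))).subgroupOf (GU n F q)) ≃* ↥(guStab (q := q) n W) :=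
  MulEquiv.ofBijective
    (show ↥((stabilizing (glToMat (Fin n) F) (W : Set (Fin n → F))).subgroupOf (GU n F q)) →* ↥(guStab (q := q) n W) from
    { toFun := fun x => ⟨preservingEquiv (hermForm n F q) x.1, fun v => x.2 v⟩
      map_one' := by
        apply Subtype.ext
        exact map_one (preservingEquiv (hermForm n F q))
      map_mul' := by
        intro x y
        apply Subtype.ext
        exact map_mul (preservingEquiv (hermForm n F q)) x.1 y.1 }) (by
    constructor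
    · intro x y hxy
      apply Subtype.ext
      apply (preservingEquiv (hermForm n F q)).injective
      exact congrArg Subtype.val hxy
    · rintro ⟨g, hg⟩
      obtain ⟨x, rfl⟩ := (preservingEquiv (hermForm n F q)).surjective g
      exact ⟨⟨x, fun v => hg v⟩, rfl⟩)

end std

end CfsgLib.ClassGeo
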