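import Mathlib
import Cfsg.Agent.Lib.ClassGeo.SUOver
import Cfsg.Agent.Lib.ClassGeo.USplit

set_option autoImplicit false
set_option linter.unusedSimpArgs false
set_option linter.unusedVariables false
set_option linter.unusedSectionVars false

namespace CfsgLib.ClassGeo

open Module

section abstract

variable {F V : Type*} [Field F] [AddCommGroup V] [Module F V] {σ : F →+* F} {B : V →ₛₗ[σ] V →ₗ[F] F}
variable [FiniteDimensional F V] [Finite F]

/-- Determinants of isometries have norm one. -/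
theorem det_norm_abs (hf : FForm σ B) (p : V →ₗ[F] V) (hp : ∀ x y, B (p x) (p y) = B x y) :
    σ (LinearMap.det p) * LinearMap.det p = 1 := by
  classical
  let b := finBasis F V
  let A : Matrix (Fin (finrank F V)) (Fin (finrank F V)) F := LinearMap.toMatrix b b p
  let G : Matrix (Fin (finrank F V)) (Fin (finrank F V)) F := Matrix.of fun i j => B (b i) (b j)
  have hpb : ∀ j, p (b j) = ∑ l, A l j • b l := by
    intro j
    have := (b.sum_repr (p (b j))).symm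
    simpa [A, LinearMap.toMatrix_apply] using this
  have hG : G = (A.map σ).transpose * G * A := by
    ext i j
    simp only [Matrix.mul_apply, Matrix.transpose_apply, Matrix.map_apply]
    have h1 := hp (b i) (b j)
    rw [hpb i, hpb j] at h1
    simp only [map_sum, LinearMap.sum_apply, LinearMap.map_smulₛₗ₂, map_smul, smul_eq_mul, LinearMap.smul_apply] at h1
    change _ = G i j at h1
    rw [← h1]
    simp only [Finset.sum_mul, Finset.mul_sum]
    refine Finset.sum_congr rfl fun l _ => Finset.sum_congr rfl fun k _ => ?_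
    change A l j * (σ (A k i) * G k l) = σ (A k i) * G k l * A l j
    ring
  have hdet : G.det ≠ 0 := by
    intro h0
    obtain ⟨c, hc0, hc⟩ := Matrix.exists_mulVec_eq_zero_iff.mpr h0
    apply hc0
    obtain ⟨u, hu'⟩ : ∃ u, u = ∑ j, c j • b j := ⟨_, rfl⟩
    have hbu : ∀ i, B (b i) u = 0 := by
      intro i
      have := congrFun hc i
      simp only [Matrix.mulVec, dotProduct, Pi.zero_apply] at this
      rw [hu', map_sum, ← this]
      refine Finset.sum_congr rfl fun j _ => ?_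
      rw [map_smul, smul_eq_mul, mul_comm]
      rfl
    have hu : u = 0 := by
      apply hf.sep
      intro x
      apply hf.zero_symm
      have hx := b.sum_repr x
      rw [← hx]
      simp only [map_sum, LinearMap.sum_apply, LinearMap.map_smulₛₗ₂, smul_eq_mul, LinearMap.smul_apply, hbu, mul_zero, Finset.sum_const_zero]
    rw [hu'] at hu
    have := (Fintype.linearIndependent_iff.mp b.linearIndependent) c hu
    ext i
    exact this i
  have h2 := congrArg Matrix.det hG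
  rw [Matrix.det_mul, Matrix.det_mul, Matrix.det_transpose] at h2
  have h3 : (A.map σ).det = σ A.det := by
    rw [← RingHom.mapMatrix_apply, ← RingHom.map_det]
  rw [h3] at h2
  have h4 : A.det = LinearMap.det p := LinearMap.det_toMatrix b p
  rw [h4] at h2
  have h5 : G.det * (σ (LinearMap.det p) * LinearMap.det p) = G.det * 1 := by
    linear_combination - h2
  exact mul_left_cancel₀ hdet h5

/-- Witt: an isometry fixing the perp of a nondegenerate subspace and moving a vector to another of the same norm. -/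
theorem exists_isom_move (h : HForm σ B) {W : Submodule F V} (hW : NondegOn B W) (v x : V) (hvW : v ∈ W) (hxW : x ∈ W) (hv0 : v ≠ 0)
    (hx0 : x ≠ 0) (hN : B x x = B v v) : ∃ g : V ≃ₗ[F] V, (∀ a b, B (g a) (g b) = B a b) ∧ FixP B W g ∧ g v = x := by
  have hf := h.toF
  obtain ⟨y, hy, hyv, -⟩ := hW.exists_sep hf ⊥ bot_le v hvW (by simpa using hv0)
  let X : Submodule F V := hperp B W ⊔ Submodule.span F {v}
  have hmem : ∀ t : X, ∃ (p : V) (c : F), p ∈ hperp B W ∧ (t : V) = p + c • v := by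
    intro t
    obtain ⟨p, hp, w, hw, e⟩ := Submodule.mem_sup.mp t.2
    obtain ⟨c, hc⟩ := Submodule.mem_span_singleton.mp hw
    exact ⟨p, c, hp, by rw [← e, hc]⟩
  let φ : X →ₗ[F] V := (LinearMap.id + (B y).smulRight (x - v)) ∘ₗ X.subtype
  have hφ : ∀ (t : X) (p : V) (c : F), p ∈ hperp B W → (t : V) = p + c • v → φ t = p + c • x := by
    intro t p c hp e
    change (t : V) + B y (t : V) • (x - v) = _
    have h1 : B y (t : V) = c := by
      rw [e, map_add, map_smul, hp y hy, hyv]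
      simp
    rw [h1, e]
    module
  have hperpW : ∀ (p : V), p ∈ hperp B W → ∀ w ∈ W, B p w = 0 := fun p hp w hw => hf.zero_symm (hp w hw)
  have hinj : Function.Injective φ := by
    rw [← LinearMap.ker_eq_bot, LinearMap.ker_eq_bot']
    intro t ht
    obtain ⟨p, c, hp, e⟩ := hmem t
    rw [hφ t p c hp e] at ht
    have h1 : p = - (c • x) := eq_neg_of_add_eq_zero_left ht
    have h2 : p ∈ W := by
      rw [h1]
      exact W.neg_mem (W.smul_mem _ hxW)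
    have h3 : p = 0 := hW p h2 (hperpW p hp)
    rw [h3, zero_add] at ht
    have h4 : c = 0 := (smul_eq_zero.mp ht).resolve_right hx0
    apply Subtype.ext
    rw [e, h3, h4]
    simp
  have hiso : ∀ s t : X, B (φ s) (φ t) = B s t := by
    intro s t
    obtain ⟨p, c, hp, e⟩ := hmem s
    obtain ⟨p', c', hp', e'⟩ := hmem t
    rw [hφ s p c hp e, hφ t p' c' hp' e', e, e']
    simp only [map_add, map_smul, LinearMap.add_apply, LinearMap.map_smulₛₗ₂, smul_eq_mul, LinearMap.smul_apply,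
      hperpW p hp x hxW, hperpW p hp v hvW, hp' x hxW, hp' v hvW, hN, hp]
  obtain ⟨g, hg, hgφ⟩ := (HForm.toEps h).witt X φ hinj hiso
  refine ⟨g, hg, ?_, ?_⟩
  · intro z hz
    have hzX : z ∈ X := Submodule.mem_sup_left hz
    have := hgφ ⟨z, hzX⟩
    rw [hφ ⟨z, hzX⟩ z 0 hz (by simp)] at this
    simpa using this
  · have hvX : v ∈ X := Submodule.mem_sup_right (Submodule.mem_span_singleton_self v)
    have := hgφ ⟨v, hvX⟩
    rw [hφ ⟨v, hvX⟩ 0 1 (hperp B W).zero_mem (by simp)] at this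
    simpa using this

/-- A quasi-reflection. -/
theorem exists_qr (h : HForm σ B) (z : V) (hzz : B z z ≠ 0) (c : F) (hc : c * σ c = 1) :
    ∃ r : V ≃ₗ[F] V, (∀ a b, B (r a) (r b) = B a b) ∧ (∀ x, B z x = 0 → r x = x) ∧ LinearMap.det (r : V →ₗ[F] V) = c := by
  have hf := h.toF
  have hσN : σ (B z z) = B z z := hf.self_fixed z
  have hc0 : c ≠ 0 := by
    rintro rfl
    simp at hc
  obtain ⟨φ, hφ⟩ : ∃ φ : Dual F V, φ = ((c - 1) / B z z) • B z := ⟨_, rfl⟩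
  have hφz : φ z = c - 1 := by
    rw [hφ]
    simp only [LinearMap.smul_apply, smul_eq_mul]
    field_simp
  have hdet : LinearMap.det (LinearMap.transvection φ z) = c := by
    rw [LinearMap.transvection.det, hφz]
    ring
  refine ⟨LinearMap.equivOfDetNeZero (LinearMap.transvection φ z) (by rw [hdet]; exact hc0), ?_, ?_, ?_⟩
  · intro a b
    change B (LinearMap.transvection φ z a) (LinearMap.transvection φ z b) = _
    rw [LinearMap.transvection.apply, LinearMap.transvection.apply, hφ]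
    simp only [map_add, map_smul, LinearMap.add_apply, LinearMap.map_smulₛₗ₂, smul_eq_mul, LinearMap.smul_apply, map_mul, map_div₀, map_sub, map_one, hσN]
    have e1 : B a z = σ (B z a) := (hf.symm z a).symm
    rw [e1]
    have hN : B z z ≠ 0 := hzz
    field_simp
    linear_combination ((σ (B z a)) * (B z b)) * hc
  · intro x hx
    change LinearMap.transvection φ z x = x
    rw [LinearMap.transvection.apply, hφ]
    simp [hx]
  · exact (by
      have : ((LinearMap.equivOfDetNeZero (LinearMap.transvection φ z) (by rw [hdet]; exact hc0) : V ≃ₗ[F] V) : V →ₗ[F] V) = LinearMap.transvection φ z := by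
        ext x
        rfl
      rw [this, hdet])

/-- Nonisotropic vectors orthogonal to a given vector. -/
theorem NondegOn.exists_noniso_perp (h : HForm σ B) {W : Submodule F V} (hW : NondegOn B W) (hk : 3 ≤ finrank F W) (x : V) (hx : x ∈ W) :
    ∃ z ∈ W, B z x = 0 ∧ B z z ≠ 0 := by
  have hf := h.toF
  have hperp' : ∀ x y, B x y = 0 → B y x = 0 := fun x y hxy => h.zero_symm hxy
  have hne : ∀ X : Submodule F V, 1 ≤ finrank F X → X ≠ ⊥ := by
    rintro X hX rfl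
    simp at hX
  by_cases hx0 : x = 0
  · obtain ⟨z, hz, hzz⟩ := hW.exists_noniso_herm h.ne h.σσ h.symm (hne W (by omega))
    exact ⟨z, hz, by simp [hx0], hzz⟩
  by_cases hxx : B x x = 0
  · obtain ⟨p, hp, hpp, hxp⟩ := hW.exists_iso_partner hf x hx hx0 hxx
    obtain ⟨hN, hr⟩ := hW.perp_pair hf x p hx hp hxx (by rw [hxp]; exact one_ne_zero)
    obtain ⟨z, hz, hzz⟩ := hN.exists_noniso_herm h.ne h.σσ h.symm (hne _ (by omega))
    exact ⟨z, hz.1.1, hf.zero_symm hz.1.2, hzz⟩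
  · have hr₁ := finrank_inf_ker_add_one W (B x) x hx hxx
    have hN₁ := hW.perp hperp' x hx hxx
    obtain ⟨z, hz, hzz⟩ := hN₁.exists_noniso_herm h.ne h.σσ h.symm (hne _ (by omega))
    exact ⟨z, hz.1, hf.zero_symm hz.2, hzz⟩

/-- An isotropic vector of a nondegenerate subspace not orthogonal to a given nonisotropic vector. -/
theorem NondegOn.exists_iso_ne (hf : FForm σ B) {W : Submodule F V} (hW : NondegOn B W) (e : V) (he : e ∈ W) (he0 : e ≠ 0) (hee : B e e = 0)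
    (x : V) (hx : x ∈ W) (hxx : B x x ≠ 0) : ∃ v ∈ W, B v v = 0 ∧ B v x ≠ 0 := by
  obtain ⟨f, hfW, hff, hef⟩ := hW.exists_iso_partner hf e he he0 hee
  by_cases h1 : B e x = 0
  · by_cases h2 : B f x = 0
    · obtain ⟨d, hd⟩ := hf.exists_iso_dec x e f (hf.zero_symm h1) (hf.zero_symm h2) hee hff hef
      refine ⟨x + e + d • f, W.add_mem (W.add_mem hx he) (W.smul_mem _ hfW), hd, ?_⟩
      simp only [map_add, LinearMap.add_apply, LinearMap.map_smulₛₗ₂, smul_eq_mul, h1, h2, mul_zero, add_zero]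
      exact hxx
    · exact ⟨f, hfW, hff, h2⟩
  · exact ⟨e, he, hee, h1⟩

/-- A nondegenerate subspace of dimension at least two is spanned by its isotropic vectors. -/
theorem NondegOn.iso_span (h : HForm σ B) {W : Submodule F V} (hW : NondegOn B W) (hk : 2 ≤ finrank F W) (Y : Submodule F V)
    (hY : ∀ u ∈ W, B u u = 0 → u ∈ Y) : W ≤ Y := by
  have hf := h.toF
  obtain ⟨e, he, he0, hee⟩ := hW.exists_iso_herm h hk
  obtain ⟨f, hfW, hff, hef⟩ := hW.exists_iso_partner hf e he he0 hee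
  have heY := hY e he hee
  have key : ∀ x ∈ W, B e x ≠ 0 → x ∈ Y := by
    intro x hx hex
    obtain ⟨c, hc⟩ := hf.iso_add x e hee hex
    have h1 := hY _ (W.add_mem hx (W.smul_mem _ he)) hc
    have h2 := Y.sub_mem h1 (Y.smul_mem c heY)
    rwa [add_sub_cancel_right] at h2
  intro x hx
  by_cases hex : B e x = 0
  · have h1 : B e (x + f) ≠ 0 := by
      rw [map_add, hex, hef, zero_add]
      exact one_ne_zero
    have h2 := key _ (W.add_mem hx hfW) h1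
    have h3 := Y.sub_mem h2 (hY f hfW hff)
    rwa [add_sub_cancel_right] at h3
  · exact key x hx hex

/-- Transitivity on mixed vectors with prescribed norms of the components. -/
theorem exists_mixed_move (h : HForm σ B) {W : Submodule F V} (hW : NondegOn B W) (hk : 3 ≤ finrank F (hperp B W)) (v₁ v₂ x₁ x₂ : V)
    (hv₁ : v₁ ∈ W) (hx₁ : x₁ ∈ W) (hv₂ : v₂ ∈ hperp B W) (hx₂ : x₂ ∈ hperp B W) (hv₁0 : v₁ ≠ 0) (hx₁0 : x₁ ≠ 0) (hv₂0 : v₂ ≠ 0) (hx₂0 : x₂ ≠ 0)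
    (hN₁ : B x₁ x₁ = B v₁ v₁) (hN₂ : B x₂ x₂ = B v₂ v₂) :
    ∃ p ∈ linStab W ⊓ suG B, p (v₁ + v₂) = x₁ + x₂ := by
  have hf := h.toF
  have hW' := hW.hperp_nondeg hf
  have hpp : hperp B (hperp B W) = W := hf.hperp_hperp W
  obtain ⟨g₁, hg₁, hfix₁, e₁⟩ := exists_isom_move h hW v₁ x₁ hv₁ hx₁ hv₁0 hx₁0 hN₁
  obtain ⟨g₂, hg₂, hfix₂, e₂⟩ := exists_isom_move h hW' v₂ x₂ hv₂ hx₂ hv₂0 hx₂0 hN₂
  have hfix₂' : ∀ w ∈ W, g₂ w = w := by
    intro w hw
    apply hfix₂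
    rw [hpp]
    exact hw
  obtain ⟨p₀, hp₀⟩ : ∃ p₀ : V ≃ₗ[F] V, p₀ = g₁ * g₂ := ⟨_, rfl⟩
  have hp₀I : ∀ a b, B (p₀ a) (p₀ b) = B a b := by
    intro a b
    rw [hp₀]
    change B (g₁ (g₂ a)) (g₁ (g₂ b)) = _
    rw [hg₁, hg₂]
  obtain ⟨z, hz, hzx, hzz⟩ := hW'.exists_noniso_perp h hk x₂ hx₂
  have hδ := det_norm_abs hf (p₀ : V →ₗ[F] V) hp₀I
  obtain ⟨δ, hδd⟩ : ∃ δ, δ = LinearMap.det (p₀ : V →ₗ[F] V) := ⟨_, rfl⟩
  rw [← hδd] at hδ
  have hδ0 : δ ≠ 0 := by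
    rintro rfl
    simp at hδ
  have hc : δ⁻¹ * σ δ⁻¹ = 1 := by
    rw [map_inv₀]
    have : σ δ ≠ 0 := (map_ne_zero σ).mpr hδ0
    field_simp
    linear_combination - hδ
  obtain ⟨r, hrI, hrfix, hrdet⟩ := exists_qr h z hzz δ⁻¹ hc
  have hzW : ∀ w ∈ W, B z w = 0 := fun w hw => hf.zero_symm (hz w hw)
  refine ⟨r * p₀, ⟨?_, ?_, ?_⟩, ?_⟩
  · apply mem_linStab_of_le
    intro w hw
    change r (p₀ w) ∈ W
    have h1 : p₀ w ∈ W := by
      rw [hp₀]
      change g₁ (g₂ w) ∈ W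
      rw [hfix₂' w hw]
      exact fix_preserves hf hg₁ hfix₁ w hw
    rw [hrfix _ (hzW _ h1)]
    exact h1
  · intro a b
    change B (r (p₀ a)) (r (p₀ b)) = _
    rw [hrI, hp₀I]
  · have : ((r * p₀ : V ≃ₗ[F] V) : V →ₗ[F] V) = (r : V →ₗ[F] V) ∘ₗ (p₀ : V →ₗ[F] V) := rfl
    rw [this, LinearMap.det_comp, hrdet, ← hδd, inv_mul_cancel₀ hδ0]
  · change r (p₀ (v₁ + v₂)) = _
    have h1 : p₀ (v₁ + v₂) = x₁ + x₂ := by
      rw [hp₀]
      change g₁ (g₂ (v₁ + v₂)) = _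
      rw [map_add, hfix₂' v₁ hv₁, e₂, map_add, e₁, hfix₁ x₂ hx₂]
    rw [h1, hrfix]
    rw [map_add, hzW x₁ hx₁, hzx, add_zero]

/-- Overgroups of the stabiliser of a nondegenerate subspace of `SU`. -/
theorem su_nd (h : HForm σ B) (hdim : 7 ≤ finrank F V) (W : Submodule F V) (hW : NondegOn B W) (hW0 : W ≠ ⊥) (hW2 : 2 * finrank F W < finrank F V)
    (M : Subgroup (V ≃ₗ[F] V)) (hle : M ≤ suG B) (hst : linStab W ⊓ suG B ≤ M) (hnot : ¬ M ≤ linStab W) : suG B ≤ M := by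
  have hf := h.toF
  have hW' := hW.hperp_nondeg hf
  have hpp : hperp B (hperp B W) = W := hf.hperp_hperp W
  have hr := hf.finrank_hperp W
  have hk : 4 ≤ finrank F (hperp B W) := by omega
  refine (suG_le_UT h (by omega) (by omega)).trans (UT_le_of_TS hf ?_)
  have hWp : ∀ x ∈ W, ∀ y ∈ hperp B W, B x y = 0 := fun x hx y hy => hy x hx
  have hpW : ∀ x ∈ hperp B W, ∀ y ∈ W, B x y = 0 := fun x hx y hy => hf.zero_symm (hx y hy)
  -- pure vectors
  have hpure1 : ∀ v ∈ W, B v v = 0 → v ∈ TS M B := by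
    intro v hv hvv
    refine ⟨hvv, fun a ha => hst ⟨?_, uT_mem_suG hf v a hvv ha⟩⟩
    apply mem_linStab_of_le
    intro x hx
    rw [uT_apply hf]
    exact W.add_mem hx (W.smul_mem _ hv)
  have hpure2 : ∀ v ∈ hperp B W, B v v = 0 → v ∈ TS M B := by
    intro v hv hvv
    refine ⟨hvv, fun a ha => hst ⟨?_, uT_mem_suG hf v a hvv ha⟩⟩
    apply mem_linStab_of_le
    intro x hx
    rw [uT_apply hf, hpW v hv x hx]
    simpa using hx
  obtain ⟨g, hgM, hg⟩ := SetLike.not_le_iff_exists.mp hnot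
  have hgI := (hle hgM).1
  -- a mixed vector
  obtain ⟨u₀, hu₀, hu₀u₀, hgu₀1, hgu₀2⟩ : ∃ u ∈ hperp B W, B u u = 0 ∧ g u ∉ W ∧ g u ∉ hperp B W := by
    by_contra hcon
    push Not at hcon
    by_cases hA : ∀ u ∈ hperp B W, B u u = 0 → g u ∈ hperp B W
    · have h1 : hperp B W ≤ (hperp B W).comap (g : V →ₗ[F] V) := hW'.iso_span h (by omega) _ hA
      have h2 : g ∈ linStab (hperp B W) := mem_linStab_of_le _ g (fun x hx => h1 hx)
      apply hg
      apply mem_linStab_of_le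
      intro x hx
      rw [← hpp]
      intro y hy
      have h3 : g.symm y ∈ hperp B W := by
        rw [h2 (g.symm y), LinearEquiv.apply_symm_apply]
        exact hy
      have h4 := hgI (g.symm y) x
      rw [LinearEquiv.apply_symm_apply] at h4
      rw [h4]
      exact hpW _ h3 x hx
    by_cases hA' : ∀ u ∈ hperp B W, B u u = 0 → g u ∈ W
    · have h1 : hperp B W ≤ W.comap (g : V →ₗ[F] V) := hW'.iso_span h (by omega) _ hA'
      have h2 : (hperp B W).map (g : V →ₗ[F] V) ≤ W := Submodule.map_le_iff_le_comap.mpr h1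
      have h3 := Submodule.finrank_mono h2
      have h4 : finrank F ((hperp B W).map (g : V →ₗ[F] V)) = finrank F (hperp B W) := LinearEquiv.finrank_map_eq g _
      omega
    push Not at hA hA'
    obtain ⟨u, hu, huu, hgu⟩ := hA
    obtain ⟨u', hu', hu'u', hgu'⟩ := hA'
    have hguW : g u ∈ W := by
      by_contra hc
      exact hgu (hcon u hu huu hc)
    have hgu'W : g u' ∈ hperp B W := hcon u' hu' hu'u' hgu'
    have hu0 : u ≠ 0 := by
      rintro rfl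
      apply hgu
      rw [map_zero]
      exact (hperp B W).zero_mem
    have hu'0 : u' ≠ 0 := by
      rintro rfl
      apply hgu'
      rw [map_zero]
      exact W.zero_mem
    have huu' : B u' u = 0 := by
      rw [← hgI]
      exact hpW _ hgu'W _ hguW
    obtain ⟨f, hfW, hff, huf⟩ := hW'.exists_iso_partner hf u hu hu0 huu
    obtain ⟨f', hf'W, hf'f', hu'f'⟩ := hW'.exists_iso_partner hf u' hu' hu'0 hu'u'
    obtain ⟨w₀, hw₀, h1, h2⟩ := exists_both_ne (hperp B W) (B u) (B u') ⟨f, hfW, by rw [huf]; exact one_ne_zero⟩ ⟨f', hf'W, by rw [hu'f']; exact one_ne_zero⟩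
    obtain ⟨c, hc⟩ := hf.iso_add w₀ u huu h1
    have hw : w₀ + c • u ∈ hperp B W := (hperp B W).add_mem hw₀ ((hperp B W).smul_mem _ hu)
    have e1 : B u (w₀ + c • u) ≠ 0 := by
      rw [map_add, map_smul, huu, smul_zero, add_zero]
      exact h1
    have e2 : B u' (w₀ + c • u) ≠ 0 := by
      rw [map_add, map_smul, huu', smul_zero, add_zero]
      exact h2
    by_cases hgw : g (w₀ + c • u) ∈ W
    · apply e2
      rw [← hgI]
      exact hpW _ hgu'W _ hgw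
    · have h3 := hcon _ hw hc hgw
      apply e1
      rw [← hgI]
      exact hWp _ hguW _ h3
  have hv₀S : g u₀ ∈ TS M B := TS.conj hf hgM hgI (hpure2 u₀ hu₀ hu₀u₀)
  obtain ⟨v₁, hv₁, v₂, hv₂, hv₀⟩ := hW.dec hf (g u₀)
  have hv₁0 : v₁ ≠ 0 := by
    rintro rfl
    apply hgu₀2
    rw [hv₀, zero_add]
    exact hv₂
  have hv₂0 : v₂ ≠ 0 := by
    rintro rfl
    apply hgu₀1
    rw [hv₀, add_zero]
    exact hv₁
  have hv₀N : B (g u₀) (g u₀) = 0 := hv₀S.1
  have normsum : ∀ x₁ ∈ W, ∀ x₂ ∈ hperp B W, B (x₁ + x₂) (x₁ + x₂) = B x₁ x₁ + B x₂ x₂ := by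
    intro x₁ hx₁ x₂ hx₂
    simp only [map_add, LinearMap.add_apply, hWp x₁ hx₁ x₂ hx₂, hpW x₂ hx₂ x₁ hx₁]
    ring
  have hvN : B v₁ v₁ + B v₂ v₂ = 0 := by
    rw [← normsum v₁ hv₁ v₂ hv₂, ← hv₀]
    exact hv₀N
  -- the two closure steps
  obtain ⟨a, ha0, ha⟩ := h.exists_anti
  have hσa : σ a = - a := by linear_combination ha
  have conv : ∀ (v x : V) (hv : B v v = 0), v ∈ TS M B → uT v a hv x ∈ TS M B → x ∈ TS M B := by
    intro v x hv hvS hxS
    have hT : uT v a hv ∈ M := hvS.2 a ha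
    have hI : ∀ x y, B ((uT v a hv)⁻¹ x) ((uT v a hv)⁻¹ y) = B x y := ((suG B).inv_mem (hle hT)).1
    have h1 := TS.conj hf (M.inv_mem hT) hI hxS
    have h2 : (uT v a hv)⁻¹ (uT v a hv x) = x := (uT v a hv).symm_apply_apply x
    rwa [h2] at h1
  -- step (c): type II gives type I
  have stepC : (∀ x₁ ∈ W, ∀ x₂ ∈ hperp B W, B x₁ x₁ ≠ 0 → B x₁ x₁ + B x₂ x₂ = 0 → x₁ + x₂ ∈ TS M B) →
      ∀ x₁ ∈ W, ∀ x₂ ∈ hperp B W, x₁ ≠ 0 → x₂ ≠ 0 → B x₁ x₁ = 0 → B x₂ x₂ = 0 → x₁ + x₂ ∈ TS M B := by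
    intro hII x₁ hx₁ x₂ hx₂ hx₁0 hx₂0 hx₁N hx₂N
    obtain ⟨f, hfW, hff, hx₁f⟩ := hW.exists_iso_partner hf x₁ hx₁ hx₁0 hx₁N
    have hfx₁ : B f x₁ = 1 := by rw [← hf.symm, hx₁f, map_one]
    obtain ⟨c, hc⟩ := hf.trace_surj 1 (map_one σ)
    obtain ⟨v₁, hv₁d⟩ : ∃ v₁, v₁ = f + c • x₁ := ⟨_, rfl⟩
    have hv₁W : v₁ ∈ W := by
      rw [hv₁d]
      exact W.add_mem hfW (W.smul_mem _ hx₁)
    have hv₁N : B v₁ v₁ = 1 := by
      rw [hv₁d]
      simp only [map_add, LinearMap.add_apply, LinearMap.map_smulₛₗ₂, map_smul, smul_eq_mul, hff, hx₁f, hfx₁, hx₁N]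
      linear_combination hc
    have hv₁x₁ : B v₁ x₁ = 1 := by
      rw [hv₁d]
      simp only [map_add, LinearMap.add_apply, LinearMap.map_smulₛₗ₂, smul_eq_mul, hfx₁, hx₁N]
      ring
    have hx₁v₁ : B x₁ v₁ = 1 := by rw [← hf.symm, hv₁x₁, map_one]
    obtain ⟨z, hz, hzx, hzz⟩ := hW'.exists_noniso_perp h (by omega) x₂ hx₂
    obtain ⟨d, hd⟩ := herm_norm_surj σ h.ne h.σσ (-(B z z)⁻¹) (neg_ne_zero.mpr (inv_ne_zero hzz)) (by rw [map_neg, map_inv₀, hf.self_fixed])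
    obtain ⟨v₂, hv₂d⟩ : ∃ v₂, v₂ = d • z := ⟨_, rfl⟩
    have hv₂W : v₂ ∈ hperp B W := by
      rw [hv₂d]
      exact (hperp B W).smul_mem _ hz
    have hv₂N : B v₂ v₂ = -1 := by
      rw [hv₂d]
      simp only [LinearMap.map_smulₛₗ₂, map_smul, smul_eq_mul, LinearMap.smul_apply]
      have : (B z z)⁻¹ * B z z = 1 := inv_mul_cancel₀ hzz
      linear_combination (B z z) * hd - this
    have hv₂x₂ : B v₂ x₂ = 0 := by
      rw [hv₂d, LinearMap.map_smulₛₗ₂, hzx, smul_zero]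
    have hx₂v₂ : B x₂ v₂ = 0 := hf.zero_symm hv₂x₂
    have hvS : v₁ + v₂ ∈ TS M B := hII v₁ hv₁W v₂ hv₂W (by rw [hv₁N]; exact one_ne_zero) (by rw [hv₁N, hv₂N]; ring)
    have hvv : B (v₁ + v₂) (v₁ + v₂) = 0 := hvS.1
    have hp : B (v₁ + v₂) (x₁ + x₂) = 1 := by
      simp only [map_add, LinearMap.add_apply, hv₁x₁, hv₂x₂, hWp v₁ hv₁W x₂ hx₂, hpW v₂ hv₂W x₁ hx₁]
      ring
    apply conv (v₁ + v₂) (x₁ + x₂) hvv hvS
    rw [uT_apply hf, hp, mul_one]
    have e : x₁ + x₂ + a • (v₁ + v₂) = (x₁ + a • v₁) + (x₂ + a • v₂) := by module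
    rw [e]
    have hW1 : x₁ + a • v₁ ∈ W := W.add_mem hx₁ (W.smul_mem _ hv₁W)
    have hW2' : x₂ + a • v₂ ∈ hperp B W := (hperp B W).add_mem hx₂ ((hperp B W).smul_mem _ hv₂W)
    have n1 : B (x₁ + a • v₁) (x₁ + a • v₁) = - (a * a) := by
      simp only [map_add, LinearMap.add_apply, LinearMap.map_smulₛₗ₂, map_smul, smul_eq_mul, hx₁N, hv₁N, hx₁v₁, hv₁x₁, hσa]
      ring
    have n2 : B (x₂ + a • v₂) (x₂ + a • v₂) = a * a := by
      simp only [map_add, LinearMap.add_apply, LinearMap.map_smulₛₗ₂, map_smul, smul_eq_mul, hx₂N, hv₂N, hx₂v₂, hv₂x₂, hσa]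
      ring
    refine hII _ hW1 _ hW2' ?_ ?_
    · rw [n1]
      exact neg_ne_zero.mpr (mul_ne_zero ha0 ha0)
    · rw [n1, n2]
      ring
  -- step (b): type I gives type II
  have stepB : (∀ x₁ ∈ W, ∀ x₂ ∈ hperp B W, x₁ ≠ 0 → x₂ ≠ 0 → B x₁ x₁ = 0 → B x₂ x₂ = 0 → x₁ + x₂ ∈ TS M B) →
      ∀ e₁ ∈ W, e₁ ≠ 0 → B e₁ e₁ = 0 → ∀ e₂ ∈ hperp B W, e₂ ≠ 0 → B e₂ e₂ = 0 →
      ∀ x₁ ∈ W, ∀ x₂ ∈ hperp B W, B x₁ x₁ ≠ 0 → B x₁ x₁ + B x₂ x₂ = 0 → x₁ + x₂ ∈ TS M B := by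
    intro hI e₁ he₁ he₁0 he₁N e₂ he₂ he₂0 he₂N x₁ hx₁ x₂ hx₂ hNx₁ hsum
    have hNx₂ : B x₂ x₂ ≠ 0 := by
      intro h0
      rw [h0, add_zero] at hsum
      exact hNx₁ hsum
    obtain ⟨v₁, hv₁W, hv₁v₁, hβ⟩ := hW.exists_iso_ne hf e₁ he₁ he₁0 he₁N x₁ hx₁ hNx₁
    obtain ⟨v₂, hv₂W, hv₂v₂, hγ⟩ := hW'.exists_iso_ne hf e₂ he₂ he₂0 he₂N x₂ hx₂ hNx₂
    obtain ⟨β, hβd⟩ : ∃ β, β = B v₁ x₁ := ⟨_, rfl⟩
    obtain ⟨γ, hγd⟩ : ∃ γ, γ = B v₂ x₂ := ⟨_, rfl⟩
    rw [← hβd] at hβ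
    rw [← hγd] at hγ
    have hσβ : B x₁ v₁ = σ β := by rw [hβd, hf.symm]
    have hσγ : B x₂ v₂ = σ γ := by rw [hγd, hf.symm]
    obtain ⟨ξ, hξ⟩ := hf.trace_surj (- B x₁ x₁) (by rw [map_neg, hf.self_fixed])
    have hξ0 : ξ ≠ 0 := by
      rintro rfl
      simp only [map_zero, add_zero] at hξ
      exact hNx₁ (neg_eq_zero.mp hξ.symm)
    have hσβ0 : σ β ≠ 0 := (map_ne_zero σ).mpr hβ
    obtain ⟨c, hcd⟩ : ∃ c, c = σ (ξ / (a * γ * σ β)) := ⟨_, rfl⟩
    have hσc : σ c = ξ / (a * γ * σ β) := by rw [hcd, hf.σσ]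
    have hprod0 : a * γ * σ β ≠ 0 := mul_ne_zero (mul_ne_zero ha0 hγ) hσβ0
    have e : a * σ c * γ * σ β = ξ := by
      rw [hσc]
      field_simp
    have hc0 : c ≠ 0 := by
      rw [hcd]
      exact (map_ne_zero σ).mpr (div_ne_zero hξ0 hprod0)
    have eσ : - a * c * σ γ * β = σ ξ := by
      have := congrArg σ e
      simp only [map_mul, hσa, hf.σσ] at this
      exact this
    have hv₁0 : v₁ ≠ 0 := by
      rintro rfl
      rw [hβd] at hβ
      simp at hβ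
    have hv₂0 : v₂ ≠ 0 := by
      rintro rfl
      rw [hγd] at hγ
      simp at hγ
    obtain ⟨v₂', hv₂'d⟩ : ∃ v₂', v₂' = c • v₂ := ⟨_, rfl⟩
    have hv₂'W : v₂' ∈ hperp B W := by
      rw [hv₂'d]
      exact (hperp B W).smul_mem _ hv₂W
    have hv₂'N : B v₂' v₂' = 0 := by
      rw [hv₂'d]
      simp only [LinearMap.map_smulₛₗ₂, map_smul, smul_eq_mul, LinearMap.smul_apply, hv₂v₂]
      ring
    have hv₂'0 : v₂' ≠ 0 := by
      rw [hv₂'d]
      exact smul_ne_zero hc0 hv₂0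
    have hvS : v₁ + v₂' ∈ TS M B := hI v₁ hv₁W v₂' hv₂'W hv₁0 hv₂'0 hv₁v₁ hv₂'N
    have hvv : B (v₁ + v₂') (v₁ + v₂') = 0 := hvS.1
    obtain ⟨τ, hτ⟩ : ∃ τ, τ = a * B (v₁ + v₂') (x₁ + x₂) := ⟨_, rfl⟩
    have hτ' : τ = a * (β + σ c * γ) := by
      rw [hτ, hβd, hγd, hv₂'d]
      simp only [map_add, LinearMap.add_apply, LinearMap.map_smulₛₗ₂, smul_eq_mul, LinearMap.smul_apply, hWp v₁ hv₁W x₂ hx₂, hpW v₂ hv₂W x₁ hx₁]
      ring
    have hστ : σ τ = - a * (σ β + c * σ γ) := by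
      rw [hτ']
      simp only [map_mul, map_add, hσa, hf.σσ]
    apply conv (v₁ + v₂') (x₁ + x₂) hvv hvS
    rw [uT_apply hf, ← hτ]
    have e5 : x₁ + x₂ + τ • (v₁ + v₂') = (x₁ + τ • v₁) + (x₂ + τ • v₂') := by module
    rw [e5]
    have hW1 : x₁ + τ • v₁ ∈ W := W.add_mem hx₁ (W.smul_mem _ hv₁W)
    have hW2' : x₂ + τ • v₂' ∈ hperp B W := (hperp B W).add_mem hx₂ ((hperp B W).smul_mem _ hv₂'W)
    have n1 : B (x₁ + τ • v₁) (x₁ + τ • v₁) = 0 := by
      simp only [map_add, LinearMap.add_apply, LinearMap.map_smulₛₗ₂, map_smul, smul_eq_mul, hv₁v₁, hσβ, ← hβd, hστ]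
      rw [hτ']
      linear_combination e + eσ + hξ
    have n2 : B (x₂ + τ • v₂') (x₂ + τ • v₂') = 0 := by
      have e6 : B x₂ v₂' = c * σ γ := by
        rw [hv₂'d, map_smul, hσγ, smul_eq_mul]
      have e7 : B v₂' x₂ = σ c * γ := by
        rw [hv₂'d, LinearMap.map_smulₛₗ₂, ← hγd, smul_eq_mul]
      simp only [map_add, LinearMap.add_apply, LinearMap.map_smulₛₗ₂, map_smul, smul_eq_mul, hv₂'N, e6, e7, hστ]
      rw [hτ']
      linear_combination hsum - e - eσ - hξ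
    refine hI _ hW1 _ hW2' ?_ ?_ n1 n2
    · intro h0
      have h1 : x₁ = - (τ • v₁) := eq_neg_of_add_eq_zero_left h0
      apply hNx₁
      rw [h1]
      simp only [map_neg, LinearMap.neg_apply, LinearMap.map_smulₛₗ₂, map_smul, smul_eq_mul, LinearMap.smul_apply, hv₁v₁]
      ring
    · intro h0
      have h1 : x₂ = - (τ • v₂') := eq_neg_of_add_eq_zero_left h0
      apply hNx₂
      rw [h1]
      simp only [map_neg, LinearMap.neg_apply, LinearMap.map_smulₛₗ₂, map_smul, smul_eq_mul, LinearMap.smul_apply, hv₂'N]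
      ring
  -- orbits
  have typeII_all : ∀ v₁ ∈ W, ∀ v₂ ∈ hperp B W, v₁ + v₂ ∈ TS M B → B v₁ v₁ ≠ 0 → B v₁ v₁ + B v₂ v₂ = 0 →
      ∀ x₁ ∈ W, ∀ x₂ ∈ hperp B W, B x₁ x₁ ≠ 0 → B x₁ x₁ + B x₂ x₂ = 0 → x₁ + x₂ ∈ TS M B := by
    intro v₁ hv₁W v₂ hv₂W hvS hNv hsumv x₁ hx₁ x₂ hx₂ hNx hsum
    have hNv₂ : B v₂ v₂ ≠ 0 := by
      intro h0
      rw [h0, add_zero] at hsumv
      exact hNv hsumv
    have hNx₂ : B x₂ x₂ ≠ 0 := by
      intro h0
      rw [h0, add_zero] at hsum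
      exact hNx hsum
    obtain ⟨c, hc⟩ := herm_norm_surj σ h.ne h.σσ (B v₁ v₁ / B x₁ x₁) (div_ne_zero hNv hNx) (by rw [map_div₀, hf.self_fixed, hf.self_fixed])
    have hc0 : c ≠ 0 := by
      rintro rfl
      rw [zero_mul] at hc
      exact div_ne_zero hNv hNx hc.symm
    have e1 : B (c • x₁) (c • x₁) = B v₁ v₁ := by
      simp only [LinearMap.map_smulₛₗ₂, map_smul, smul_eq_mul, LinearMap.smul_apply]
      have : B v₁ v₁ / B x₁ x₁ * B x₁ x₁ = B v₁ v₁ := div_mul_cancel₀ _ hNx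
      linear_combination (B x₁ x₁) * hc + this
    have e2 : B (c • x₂) (c • x₂) = B v₂ v₂ := by
      simp only [LinearMap.map_smulₛₗ₂, map_smul, smul_eq_mul, LinearMap.smul_apply]
      have : B v₁ v₁ / B x₁ x₁ * B x₁ x₁ = B v₁ v₁ := div_mul_cancel₀ _ hNx
      linear_combination (B x₂ x₂) * hc + (B v₁ v₁ / B x₁ x₁) * hsum - this - hsumv
    have hv₁0 : v₁ ≠ 0 := by
      rintro rfl
      simp at hNv
    have hv₂0 : v₂ ≠ 0 := by
      rintro rfl
      simp at hNv₂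
    have hx₁0 : x₁ ≠ 0 := by
      rintro rfl
      simp at hNx
    have hx₂0 : x₂ ≠ 0 := by
      rintro rfl
      simp at hNx₂
    obtain ⟨p, hp, hpe⟩ := exists_mixed_move h hW (by omega) v₁ v₂ (c • x₁) (c • x₂) hv₁W (W.smul_mem _ hx₁) hv₂W ((hperp B W).smul_mem _ hx₂)
      hv₁0 (smul_ne_zero hc0 hx₁0) hv₂0 (smul_ne_zero hc0 hx₂0) e1 e2
    have h1 := TS.conj hf (hst hp) hp.2.1 hvS
    rw [hpe, ← smul_add] at h1
    exact TS.of_smul hf hc0 h1
  have typeI_all : ∀ v₁ ∈ W, ∀ v₂ ∈ hperp B W, v₁ + v₂ ∈ TS M B → v₁ ≠ 0 → v₂ ≠ 0 → B v₁ v₁ = 0 → B v₂ v₂ = 0 →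
      ∀ x₁ ∈ W, ∀ x₂ ∈ hperp B W, x₁ ≠ 0 → x₂ ≠ 0 → B x₁ x₁ = 0 → B x₂ x₂ = 0 → x₁ + x₂ ∈ TS M B := by
    intro v₁ hv₁W v₂ hv₂W hvS hv₁0 hv₂0 hNv₁ hNv₂ x₁ hx₁ x₂ hx₂ hx₁0 hx₂0 hNx₁ hNx₂
    obtain ⟨p, hp, hpe⟩ := exists_mixed_move h hW (by omega) v₁ v₂ x₁ x₂ hv₁W hx₁ hv₂W hx₂ hv₁0 hx₁0 hv₂0 hx₂0 (by rw [hNx₁, hNv₁]) (by rw [hNx₂, hNv₂])
    have h1 := TS.conj hf (hst hp) hp.2.1 hvS
    rwa [hpe] at h1
  have hboth : (∀ x₁ ∈ W, ∀ x₂ ∈ hperp B W, B x₁ x₁ ≠ 0 → B x₁ x₁ + B x₂ x₂ = 0 → x₁ + x₂ ∈ TS M B) ∧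
      (∀ x₁ ∈ W, ∀ x₂ ∈ hperp B W, x₁ ≠ 0 → x₂ ≠ 0 → B x₁ x₁ = 0 → B x₂ x₂ = 0 → x₁ + x₂ ∈ TS M B) := by
    have hvS' : v₁ + v₂ ∈ TS M B := by
      rw [← hv₀]
      exact hv₀S
    by_cases hNv : B v₁ v₁ = 0
    · have hNv₂ : B v₂ v₂ = 0 := by
        rw [hNv, zero_add] at hvN
        exact hvN
      have hI := typeI_all v₁ hv₁ v₂ hv₂ hvS' hv₁0 hv₂0 hNv hNv₂
      exact ⟨stepB hI v₁ hv₁ hv₁0 hNv v₂ hv₂ hv₂0 hNv₂, hI⟩
    · have hII := typeII_all v₁ hv₁ v₂ hv₂ hvS' hNv hvN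
      exact ⟨hII, stepC hII⟩
  intro x hx
  obtain ⟨x₁, hx₁, x₂, hx₂, e⟩ := hW.dec hf x
  have hN : B x₁ x₁ + B x₂ x₂ = 0 := by
    rw [← normsum x₁ hx₁ x₂ hx₂, ← e]
    exact hx
  by_cases hx₁0 : x₁ = 0
  · rw [e, hx₁0, zero_add]
    apply hpure2 x₂ hx₂
    rw [hx₁0] at hN
    simpa using hN
  by_cases hx₂0 : x₂ = 0
  · rw [e, hx₂0, add_zero]
    apply hpure1 x₁ hx₁
    rw [hx₂0] at hN
    simpa using hN
  rw [e]
  by_cases hNx : B x₁ x₁ = 0
  · refine hboth.2 x₁ hx₁ x₂ hx₂ hx₁0 hx₂0 hNx ?_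
    rw [hNx, zero_add] at hN
    exact hN
  · exact hboth.1 x₁ hx₁ x₂ hx₂ hNx hN

/-- A transvection moving a nondegenerate subspace. -/
theorem exists_uT_not_stab_nd (h : HForm σ B) (W : Submodule F V) (hW : NondegOn B W) (hW0 : W ≠ ⊥) (hk : 2 ≤ finrank F (hperp B W)) :
    ∃ p ∈ suG B, p ∉ linStab W := by
  have hf := h.toF
  have hW' := hW.hperp_nondeg hf
  obtain ⟨w, hw, hw0⟩ := Submodule.exists_mem_ne_zero_of_ne_bot hW0
  obtain ⟨y, hy, hyw, -⟩ := hW.exists_sep hf ⊥ bot_le w hw (by simpa using hw0)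
  obtain ⟨u, hu, u', hu', huu, hu'u', huu'⟩ := hW'.exists_hyp_herm h hk
  have hyu : B y u = 0 := hu y hy
  have hyu' : B y u' = 0 := hu' y hy
  obtain ⟨d, hd⟩ := hf.exists_iso_dec y u u' hyu hyu' huu hu'u' huu'
  obtain ⟨a, ha0, ha⟩ := h.exists_anti
  refine ⟨uT _ a hd, uT_mem_suG hf _ a hd ha, ?_⟩
  intro hmem
  have h1 := (hmem w).mp hw
  rw [uT_apply hf] at h1
  have h2 := W.sub_mem h1 hw
  rw [add_sub_cancel_left] at h2
  have e : B (y + u + d • u') w = 1 := by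
    simp only [map_add, LinearMap.add_apply, LinearMap.map_smulₛₗ₂, LinearMap.smul_apply, hyw, hf.zero_symm (hu w hw), hf.zero_symm (hu' w hw), smul_zero, add_zero]
  rw [e, mul_one] at h2
  have h3 := W.smul_mem a⁻¹ h2
  rw [smul_smul, inv_mul_cancel₀ ha0, one_smul] at h3
  have h4 : u + d • u' ∈ W := by
    have := W.sub_mem h3 hy
    have e2 : y + u + d • u' - y = u + d • u' := by abel
    rwa [e2] at this
  have h5 : u + d • u' = 0 := by
    apply hW _ h4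
    intro w' hw'
    have h6 : B (u + d • u') w' = B u w' + σ d * B u' w' := by
      simp only [map_add, LinearMap.add_apply, LinearMap.map_smulₛₗ₂, LinearMap.smul_apply, smul_eq_mul]
    rw [h6, hf.zero_symm (hu w' hw'), hf.zero_symm (hu' w' hw')]
    simp
  have h6 := congrArg (B u) h5
  simp only [map_add, map_smul, huu, huu', smul_eq_mul, map_zero, zero_add, mul_one] at h6
  rw [h6, zero_smul, add_zero] at h5
  rw [h5] at huu'
  simp at huu'

theorem su_nd_isMaximalIn (h : HForm σ B) (hdim : 7 ≤ finrank F V) (W : Submodule F V) (hW : NondegOn B W) (hW0 : W ≠ ⊥) (hW2 : 2 * finrank F W < finrank F V) :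
    Cfsg.Geo.IsMaximalIn (suG B) (linStab W ⊓ suG B) := by
  have hr := h.toF.finrank_hperp W
  constructor
  · refine lt_of_le_of_ne inf_le_right ?_
    intro heq
    obtain ⟨p, hp, hpW⟩ := exists_uT_not_stab_nd h W hW hW0 (by omega)
    rw [← heq] at hp
    exact hpW hp.1
  · intro M h1 h2
    by_cases hM : M ≤ linStab W
    · left
      exact le_antisymm (le_inf hM h2) h1
    · right
      exact le_antisymm h2 (su_nd h hdim W hW hW0 hW2 M h2 h1 hM)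

end abstract

section std

variable {F : Type*} [Field F] [Fintype F] {q : ℕ} (hF : Fintype.card F = q ^ 2) (n : ℕ)

open Cfsg Matrix

include hF in
/-- The stabiliser of a nondegenerate subspace is maximal in `SU`. -/
theorem SU_nd_isMaximalIn (hn : 7 ≤ n) (W : Submodule F (Fin n → F)) (hW0 : W ≠ ⊥) (hW : Cfsg.Geo.IsNondegenerateOn (hermForm n F q) W) (hdim : 2 * finrank F W < n) :
    Cfsg.Geo.IsMaximalIn (GU n F q ⊓ Cfsg.Geo.specialLinear (Fin n) F) (Cfsg.Geo.subspaceStabilizer W ⊓ (GU n F q ⊓ Cfsg.Geo.specialLinear (Fin n) F)) := by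
  apply isMaximalIn_of_map (glLin (ι := Fin n) (F := F))
  rw [Subgroup.map_inf (Cfsg.Geo.subspaceStabilizer W) _ _ (glLin (ι := Fin n) (F := F)).injective, map_SU hF, map_subspaceStabilizer]
  refine su_nd_isMaximalIn (stdH_hform n hF) (by simpa using hn) W ?_ hW0 (by simpa using hdim)
  intro u hu hall
  by_contra hu0
  obtain ⟨x, hx, hxu⟩ := (hW u hu hu0).1
  exact hxu (hall x hx)

end std

end CfsgLib.ClassGeo
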