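import Mathlib

/-! Singer groups: multiplications by units of an extension field. -/

set_option autoImplicit false

namespace CfsgLib.ClassGeo.Singer

variable {F K : Type*} [Field F] [Field K] [Algebra F K]

/-- the multiplication map as a monoid hom -/
abbrev lm : K →* Module.End F K := ((Algebra.lmul F K : K →ₐ[F] Module.End F K) : K →* Module.End F K)

theorem lm_apply (a x : K) : (lm (F := F) a) x = a * x := rfl

theorem unit_inv_apply (g : (Module.End F K)ˣ) (x : K) :
    ((g⁻¹ : (Module.End F K)ˣ) : Module.End F K) ((g : Module.End F K) x) = x := by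
  have := congrArg (fun f : Module.End F K => f x) (Units.inv_mul g)
  exact this

theorem unit_apply_inv (g : (Module.End F K)ˣ) (x : K) :
    (g : Module.End F K) (((g⁻¹ : (Module.End F K)ˣ) : Module.End F K) x) = x := by
  have := congrArg (fun f : Module.End F K => f x) (Units.mul_inv g)
  exact this

theorem unit_one_ne (g : (Module.End F K)ˣ) : (g : Module.End F K) 1 ≠ 0 := by
  intro h
  have h1 := unit_inv_apply g (1 : K)
  rw [h, map_zero] at h1
  exact zero_ne_one h1

/-- membership in the Singer group -/
theorem mem_range_iff (h : (Module.End F K)ˣ) :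
    h ∈ (Units.map (lm (F := F) (K := K))).range ↔ ∃ a : Kˣ, ∀ x, (h : Module.End F K) x = (a : K) * x := by
  constructor
  · rintro ⟨a, rfl⟩
    exact ⟨a, fun x => rfl⟩
  · rintro ⟨a, ha⟩
    refine ⟨a, ?_⟩
    apply Units.ext
    apply LinearMap.ext
    intro x
    exact (ha x).symm

theorem centralizer_eq :
    Subgroup.centralizer (((Units.map (lm (F := F) (K := K))).range : Subgroup (Module.End F K)ˣ) : Set (Module.End F K)ˣ)
      = (Units.map (lm (F := F) (K := K))).range := by
  ext g
  constructor
  · intro hg
    rw [Subgroup.mem_centralizer_iff] at hg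
    rw [mem_range_iff]
    refine ⟨Units.mk0 _ (unit_one_ne g), ?_⟩
    intro x
    rw [Units.val_mk0]
    by_cases hx : x = 0
    · subst hx
      simp
    have h2 := hg (Units.map (lm (F := F) (K := K)) (Units.mk0 x hx)) ⟨_, rfl⟩
    have h3 := congrArg (fun f : (Module.End F K)ˣ => (f : Module.End F K) 1) h2
    have h4 : x * (g : Module.End F K) 1 = (g : Module.End F K) (x * 1) := h3
    rw [mul_one] at h4
    rw [← h4, mul_comm]
  · rintro ⟨a, rfl⟩
    rw [Subgroup.mem_centralizer_iff]
    rintro _ ⟨b, rfl⟩
    rw [← map_mul, ← map_mul, mul_comm]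

/-- Every element of the normaliser of the Singer group fixing `1` is an algebra automorphism. -/
theorem exists_algEquiv_of_normalizer (g : (Module.End F K)ˣ)
    (hg : g ∈ Subgroup.normalizer (((Units.map (lm (F := F) (K := K))).range : Subgroup (Module.End F K)ˣ) : Set (Module.End F K)ˣ))
    (h1 : (g : Module.End F K) 1 = 1) :
    ∃ σ : K ≃ₐ[F] K, ∀ x, (g : Module.End F K) x = σ x := by
  rw [Subgroup.mem_normalizer_iff] at hg
  have hg1 : ((g⁻¹ : (Module.End F K)ˣ) : Module.End F K) 1 = 1 := by
    have := unit_inv_apply g (1 : K)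
    rwa [h1] at this
  have hmul : ∀ a x : K, (g : Module.End F K) (a * x) = (g : Module.End F K) a * (g : Module.End F K) x := by
    intro a x
    by_cases ha : a = 0
    · subst ha; simp
    have h2 := (hg (Units.map (lm (F := F) (K := K)) (Units.mk0 a ha))).1 ⟨_, rfl⟩
    obtain ⟨b, hb⟩ := (mem_range_iff _).1 h2
    have hb' : ∀ y, (g : Module.End F K) (a * ((g⁻¹ : (Module.End F K)ˣ) : Module.End F K) y) = (b : K) * y := hb
    have hb1 := hb' 1
    rw [hg1, mul_one, mul_one] at hb1
    have hb2 := hb' ((g : Module.End F K) x)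
    rw [unit_inv_apply] at hb2
    rw [hb2, hb1]
  let e : K ≃ₗ[F] K := LinearEquiv.ofLinearMap (g : Module.End F K) ((g⁻¹ : (Module.End F K)ˣ) : Module.End F K)
    (by ext x; exact unit_apply_inv g x) (by ext x; exact unit_inv_apply g x)
  refine ⟨AlgEquiv.ofLinearEquiv e h1 (fun a b => hmul a b), fun x => rfl⟩

/-- An algebra automorphism as a unit of the endomorphism ring. -/
def algUnit (σ : K ≃ₐ[F] K) : (Module.End F K)ˣ where
  val := σ.toLinearMap
  inv := σ.symm.toLinearMap
  val_inv := by ext x; simp
  inv_val := by ext x; simp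

theorem algUnit_apply (σ : K ≃ₐ[F] K) (x : K) : (algUnit σ : Module.End F K) x = σ x := rfl

theorem algUnit_inv_apply (σ : K ≃ₐ[F] K) (x : K) :
    (((algUnit σ)⁻¹ : (Module.End F K)ˣ) : Module.End F K) x = σ.symm x := rfl

theorem algUnit_mem_normalizer (σ : K ≃ₐ[F] K) :
    algUnit σ ∈ Subgroup.normalizer (((Units.map (lm (F := F) (K := K))).range : Subgroup (Module.End F K)ˣ) : Set (Module.End F K)ˣ) := by
  rw [Subgroup.mem_normalizer_iff]
  intro h
  constructor
  · intro hh
    obtain ⟨a, ha⟩ := (mem_range_iff _).1 hh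
    rw [mem_range_iff]
    refine ⟨Units.map σ.toRingEquiv.toMonoidHom a, ?_⟩
    intro x
    change σ ((h : Module.End F K) (σ.symm x)) = _
    rw [ha, map_mul, AlgEquiv.apply_symm_apply]
    rfl
  · intro hh
    obtain ⟨a, ha⟩ := (mem_range_iff _).1 hh
    rw [mem_range_iff]
    refine ⟨Units.map σ.symm.toRingEquiv.toMonoidHom a, ?_⟩
    intro x
    have h1 : σ ((h : Module.End F K) (σ.symm (σ x))) = (a : K) * σ x := ha (σ x)
    rw [AlgEquiv.symm_apply_apply] at h1
    have h2 := congrArg σ.symm h1
    rw [AlgEquiv.symm_apply_apply, map_mul, AlgEquiv.symm_apply_apply] at h2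
    exact h2

/-- the Singer normaliser is the set of products `L_c ∘ σ` -/
theorem card_normalizer [Finite K] [FiniteDimensional F K] [IsGalois F K] :
    Nat.card (Subgroup.normalizer (((Units.map (lm (F := F) (K := K))).range : Subgroup (Module.End F K)ˣ) : Set (Module.End F K)ˣ))
      = Module.finrank F K * (Nat.card K - 1) := by
  set N := Subgroup.normalizer (((Units.map (lm (F := F) (K := K))).range : Subgroup (Module.End F K)ˣ) : Set (Module.End F K)ˣ) with hN
  have hMN : ∀ c : Kˣ, Units.map (lm (F := F) (K := K)) c ∈ N := by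
    intro c
    apply Subgroup.le_normalizer
    exact ⟨c, rfl⟩
  let Ψ : (Kˣ × (K ≃ₐ[F] K)) → N := fun p => ⟨Units.map (lm (F := F) (K := K)) p.1 * algUnit p.2, N.mul_mem (hMN _) (algUnit_mem_normalizer _)⟩
  have hΨ : Function.Bijective Ψ := by
    constructor
    · rintro ⟨c, σ⟩ ⟨c', σ'⟩ h
      have h1 : ∀ x : K, (c : K) * σ x = (c' : K) * σ' x := by
        intro x
        have := congrArg (fun z : N => ((z : (Module.End F K)ˣ) : Module.End F K) x) h
        exact this
      have hcc : c = c' := by
        have := h1 1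
        rw [map_one, map_one, mul_one, mul_one] at this
        exact Units.ext this
      subst hcc
      have hσ : σ = σ' := by
        ext x
        exact mul_left_cancel₀ c.ne_zero (h1 x)
      rw [hσ]
    · rintro ⟨g, hg⟩
      -- divide by g 1
      let c : Kˣ := Units.mk0 _ (unit_one_ne g)
      let g' : (Module.End F K)ˣ := (Units.map (lm (F := F) (K := K)) c)⁻¹ * g
      have hg' : g' ∈ N := N.mul_mem (N.inv_mem (hMN c)) hg
      have hcinv : ∀ y : K, (((Units.map (lm (F := F) (K := K)) c)⁻¹ : (Module.End F K)ˣ) : Module.End F K) y = ((c⁻¹ : Kˣ) : K) * y := by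
        intro y
        rw [← map_inv]
        rfl
      have hg'1 : (g' : Module.End F K) 1 = 1 := by
        change (((Units.map (lm (F := F) (K := K)) c)⁻¹ : (Module.End F K)ˣ) : Module.End F K) ((g : Module.End F K) 1) = 1
        rw [hcinv]
        change ((c⁻¹ : Kˣ) : K) * (c : K) = 1
        simp
      obtain ⟨σ, hσ⟩ := exists_algEquiv_of_normalizer g' hg' hg'1
      refine ⟨(c, σ), ?_⟩
      apply Subtype.ext
      apply Units.ext
      apply LinearMap.ext
      intro x
      change (c : K) * σ x = (g : Module.End F K) x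
      rw [← hσ]
      change (c : K) * ((((Units.map (lm (F := F) (K := K)) c)⁻¹ : (Module.End F K)ˣ) : Module.End F K) ((g : Module.End F K) x)) = _
      rw [hcinv, ← mul_assoc]
      simp
  have h1 := Nat.card_eq_of_bijective Ψ hΨ
  rw [← h1, Nat.card_prod, Nat.card_units, IsGalois.card_aut_eq_finrank, mul_comm]

end CfsgLib.ClassGeo.Singer

namespace CfsgLib.ClassGeo.Singer

variable {F K : Type*} [Field F] [Field K] [Algebra F K]

/-- The subalgebra of all `a` whose multiplication is a `g`-conjugate of a multiplication. -/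
def comSub (g : (Module.End F K)ˣ) : Subalgebra F K where
  carrier := {a | ∃ b : K, ∀ x, a * (g : Module.End F K) x = (g : Module.End F K) (b * x)}
  mul_mem' := by
    rintro a a' ⟨b, hb⟩ ⟨b', hb'⟩
    refine ⟨b * b', fun x => ?_⟩
    rw [mul_assoc, hb', hb, mul_assoc]
  add_mem' := by
    rintro a a' ⟨b, hb⟩ ⟨b', hb'⟩
    refine ⟨b + b', fun x => ?_⟩
    rw [add_mul, add_mul, hb, hb', map_add]
  algebraMap_mem' := by
    intro c
    refine ⟨algebraMap F K c, fun x => ?_⟩
    rw [← Algebra.smul_def, ← Algebra.smul_def, map_smul]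

theorem card_inter_dvd [Finite K] [Finite F] [FiniteDimensional F K] (g : (Module.End F K)ˣ)
    (hg : ((Units.map (lm (F := F) (K := K))).range).map (MulAut.conj g).toMonoidHom ≠ (Units.map (lm (F := F) (K := K))).range) :
    ∃ r : ℕ, 1 ≤ r ∧ r ∣ Module.finrank F K ∧ r < Module.finrank F K ∧
      Nat.card ↥(((Units.map (lm (F := F) (K := K))).range).map (MulAut.conj g).toMonoidHom ⊓ (Units.map (lm (F := F) (K := K))).range) ∣ Nat.card F ^ r - 1 := by
  classical
  have hfin : Module.Finite F K := inferInstance
  haveI hfinE : Finite (Module.End F K) := Finite.of_injective (fun f : Module.End F K => (f : K → K)) DFunLike.coe_injective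
  have hfield : IsField (comSub g) := Subalgebra.isField_of_algebraic (comSub g)
  let L : IntermediateField F K := (comSub g).toIntermediateField' hfield
  have hL : ∀ a : K, a ∈ L ↔ ∃ b : K, ∀ x, a * (g : Module.End F K) x = (g : Module.End F K) (b * x) := by
    intro a; exact Iff.rfl
  have hfK : Finite L := inferInstance
  refine ⟨Module.finrank F L, Module.finrank_pos, ⟨Module.finrank L K, (Module.finrank_mul_finrank F L K).symm⟩, ?_, ?_⟩
  · -- proper
    refine lt_of_le_of_ne ?_ ?_
    · exact Nat.le_of_dvd Module.finrank_pos ⟨Module.finrank L K, (Module.finrank_mul_finrank F L K).symm⟩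
    intro hr
    have htop : L = ⊤ := IntermediateField.eq_of_le_of_finrank_eq le_top (by rw [hr, IntermediateField.finrank_top'])
    apply hg
    symm
    apply Subgroup.eq_of_le_of_card_ge
    · rintro h ⟨a, rfl⟩
      have ha : (a : K) ∈ L := by rw [htop]; trivial
      obtain ⟨b, hb⟩ := (hL _).1 ha
      have hb0 : b ≠ 0 := by
        rintro rfl
        have := hb 1
        rw [zero_mul, map_zero, mul_eq_zero] at this
        rcases this with h0 | h0
        · exact a.ne_zero h0
        · have h1 := unit_one_ne g
          exact h1 h0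
      refine ⟨Units.map (lm (F := F) (K := K)) (Units.mk0 b hb0), ⟨Units.mk0 b hb0, rfl⟩, ?_⟩
      apply Units.ext
      apply LinearMap.ext
      intro x
      change (g : Module.End F K) (b * ((g⁻¹ : (Module.End F K)ˣ) : Module.End F K) x) = (a : K) * x
      rw [← hb, unit_apply_inv]
    · have h1 : Nat.card ↥(((Units.map (lm (F := F) (K := K))).range).map (MulAut.conj g).toMonoidHom) = Nat.card ↥((Units.map (lm (F := F) (K := K))).range) :=
        Subgroup.card_map_of_injective (MulAut.conj g).injective
      rw [h1]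
  · -- divisibility
    have hcardL : Nat.card L = Nat.card F ^ Module.finrank F L := by
      exact Module.natCard_eq_pow_finrank (K := F) (V := L)
    let A := ((Units.map (lm (F := F) (K := K))).range).map (MulAut.conj g).toMonoidHom ⊓ (Units.map (lm (F := F) (K := K))).range
    have hAmem : ∀ h : A, (((h : (Module.End F K)ˣ) : Module.End F K) 1) ∈ L := by
      rintro ⟨h, ⟨c, ⟨b, rfl⟩, rfl⟩, ha⟩
      obtain ⟨a, ha⟩ := (mem_range_iff _).1 ha
      rw [hL]
      refine ⟨b, ?_⟩
      intro x
      have h1 : ∀ y, (g : Module.End F K) ((b : K) * ((g⁻¹ : (Module.End F K)ˣ) : Module.End F K) y) = (a : K) * y := ha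
      have h2 := h1 1
      rw [mul_one] at h2
      change (g : Module.End F K) ((b : K) * ((g⁻¹ : (Module.End F K)ˣ) : Module.End F K) 1) * _ = _
      rw [h2]
      have h3 := h1 ((g : Module.End F K) x)
      rw [unit_inv_apply] at h3
      exact h3.symm
    have hAne : ∀ h : A, (⟨((h : (Module.End F K)ˣ) : Module.End F K) 1, hAmem h⟩ : L) ≠ 0 := by
      intro h h0
      exact unit_one_ne (F := F) (K := K) (h : (Module.End F K)ˣ) (congrArg Subtype.val h0)
    have hprod : ∀ h h' : A, ((((h * h' : A) : (Module.End F K)ˣ)) : Module.End F K) 1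
        = ((h : (Module.End F K)ˣ) : Module.End F K) 1 * ((h' : (Module.End F K)ˣ) : Module.End F K) 1 := by
      rintro ⟨h, hh1, hh2⟩ ⟨h', hh1', hh2'⟩
      obtain ⟨a, ha⟩ := (mem_range_iff _).1 hh2
      obtain ⟨a', ha'⟩ := (mem_range_iff _).1 hh2'
      change (h : Module.End F K) ((h' : Module.End F K) 1) = (h : Module.End F K) 1 * (h' : Module.End F K) 1
      rw [ha, ha, mul_one]
    let f : A →* Lˣ :=
      { toFun := fun h => Units.mk0 ⟨((h : (Module.End F K)ˣ) : Module.End F K) 1, hAmem h⟩ (hAne h)
        map_one' := by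
          apply Units.ext
          apply Subtype.ext
          rfl
        map_mul' := by
          intro h h'
          apply Units.ext
          apply Subtype.ext
          exact hprod h h' }
    have hf : Function.Injective f := by
      rintro ⟨h, hh1, hh2⟩ ⟨h', hh1', hh2'⟩ he
      have he' : (h : Module.End F K) 1 = (h' : Module.End F K) 1 :=
        congrArg (fun z : Lˣ => ((z : L) : K)) he
      obtain ⟨a, ha⟩ := (mem_range_iff _).1 hh2
      obtain ⟨a', ha'⟩ := (mem_range_iff _).1 hh2'
      rw [ha, ha', mul_one, mul_one] at he'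
      apply Subtype.ext
      apply Units.ext
      apply LinearMap.ext
      intro x
      rw [ha, ha', he']
    have h := Subgroup.card_dvd_of_injective f hf
    rw [Nat.card_units, hcardL] at h
    exact h

end CfsgLib.ClassGeo.Singer
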