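import Cfsg.Agent.Lib.ClassGeo.UCenter
import Cfsg.Agent.Lib.ClassGeo.Quat
import Cfsg.Agent.S0282

/-! `PSU₃(2)` explicitly: the normal subgroup of order `9` and the quaternion quotient. -/

set_option autoImplicit false
set_option linter.unusedSimpArgs false
set_option linter.unusedVariables false
set_option linter.unusedSectionVars false
set_option linter.style.haveILetI false

namespace CfsgLib.ClassGeo.U32

open Matrix Cfsg

variable {F : Type*} [Field F]

theorem mat_eq {a b c d e f g h i a' b' c' d' e' f' g' h' i' : F} (h1 : a = a') (h2 : b = b') (h3 : c = c') (h4 : d = d') (h5 : e = e')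
    (h6 : f = f') (h7 : g = g') (h8 : h = h') (h9 : i = i') :
    (!![a, b, c; d, e, f; g, h, i] : Matrix (Fin 3) (Fin 3) F) = !![a', b', c'; d', e', f'; g', h', i'] := by
  subst h1 h2 h3 h4 h5 h6 h7 h8 h9
  rfl

def mA (ω : F) : Matrix (Fin 3) (Fin 3) F := !![1, 1, (ω + 1); 1, ω, ω; ω, 1, ω]

def mX (ω : F) : Matrix (Fin 3) (Fin 3) F := !![1, ω, 1; (ω + 1), ω, ω; 1, 1, ω]

def mD (ω : F) : Matrix (Fin 3) (Fin 3) F := !![1, 0, 0; 0, ω, 0; 0, 0, (ω + 1)]

def mC (ω : F) : Matrix (Fin 3) (Fin 3) F := !![0, 0, 1; 1, 0, 0; 0, 1, 0]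

def mA2 (ω : F) : Matrix (Fin 3) (Fin 3) F := !![1, 0, 0; 0, 0, (ω + 1); 0, ω, 0]

def mA3 (ω : F) : Matrix (Fin 3) (Fin 3) F := !![1, 1, (ω + 1); 1, (ω + 1), 1; ω, (ω + 1), (ω + 1)]

def mAX (ω : F) : Matrix (Fin 3) (Fin 3) F := !![1, (ω + 1), ω; ω, (ω + 1), 1; (ω + 1), (ω + 1), (ω + 1)]

def mA2X (ω : F) : Matrix (Fin 3) (Fin 3) F := !![1, ω, 1; (ω + 1), (ω + 1), 1; 1, (ω + 1), (ω + 1)]

def mA3X (ω : F) : Matrix (Fin 3) (Fin 3) F := !![1, (ω + 1), ω; ω, ω, ω; (ω + 1), 1, ω]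

def mD2 (ω : F) : Matrix (Fin 3) (Fin 3) F := !![1, 0, 0; 0, (ω + 1), 0; 0, 0, ω]

def mC2 (ω : F) : Matrix (Fin 3) (Fin 3) F := !![0, 1, 0; 0, 0, 1; 1, 0, 0]

def mS (ω : F) : Matrix (Fin 3) (Fin 3) F := !![ω, 0, 0; 0, ω, 0; 0, 0, ω]

def mS2 (ω : F) : Matrix (Fin 3) (Fin 3) F := !![(ω + 1), 0, 0; 0, (ω + 1), 0; 0, 0, (ω + 1)]


variable (ω : F) (h2 : (2 : F) = 0) (hω : ω ^ 2 = ω + 1)

include h2 hω

theorem mA_mul_mA : mA ω * mA ω = mA2 ω := by
  simp only [mA, mA, mA2, Matrix.mul_fin_three]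
  apply mat_eq <;> grind

theorem mA2_mul_mA : mA2 ω * mA ω = mA3 ω := by
  simp only [mA2, mA, mA3, Matrix.mul_fin_three]
  apply mat_eq <;> grind

theorem mA_mul_mX : mA ω * mX ω = mAX ω := by
  simp only [mA, mX, mAX, Matrix.mul_fin_three]
  apply mat_eq <;> grind

theorem mA2_mul_mX : mA2 ω * mX ω = mA2X ω := by
  simp only [mA2, mX, mA2X, Matrix.mul_fin_three]
  apply mat_eq <;> grind

theorem mA3_mul_mX : mA3 ω * mX ω = mA3X ω := by
  simp only [mA3, mX, mA3X, Matrix.mul_fin_three]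
  apply mat_eq <;> grind

theorem mD_mul_mD : mD ω * mD ω = mD2 ω := by
  simp only [mD, mD, mD2, Matrix.mul_fin_three]
  apply mat_eq <;> grind

theorem mC_mul_mC : mC ω * mC ω = mC2 ω := by
  simp only [mC, mC, mC2, Matrix.mul_fin_three]
  apply mat_eq <;> grind

omit hω in
theorem herm_pres (M : Matrix (Fin 3) (Fin 3) F) (h : ∀ j k, ∑ i, M i j * (M i k) ^ 2 = if j = k then 1 else 0) (u v : Fin 3 → F) :
    hermForm 3 F 2 (M *ᵥ u) (M *ᵥ v) = hermForm 3 F 2 u v := by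
  have h00 := h 0 0
  have h01 := h 0 1
  have h02 := h 0 2
  have h10 := h 1 0
  have h11 := h 1 1
  have h12 := h 1 2
  have h20 := h 2 0
  have h21 := h 2 1
  have h22 := h 2 2
  simp only [Fin.sum_univ_three] at h00 h01 h02 h10 h11 h12 h20 h21 h22
  simp at h00 h01 h02 h10 h11 h12 h20 h21 h22
  simp only [hermForm, Fin.sum_univ_three, Matrix.mulVec, dotProduct]
  linear_combination (u 0 * v 0 ^ 2) * h00 + (u 0 * v 1 ^ 2) * h01 + (u 0 * v 2 ^ 2) * h02 + (u 1 * v 0 ^ 2) * h10 + (u 1 * v 1 ^ 2) * h11 + (u 1 * v 2 ^ 2) * h12 + (u 2 * v 0 ^ 2) * h20 + (u 2 * v 1 ^ 2) * h21 + (u 2 * v 2 ^ 2) * h22 + ((M 0 0 * u 0 + M 0 1 * u 1 + M 0 2 * u 2) * (M 0 0 * v 0 * (M 0 1 * v 1) + M 0 0 * v 0 * (M 0 2 * v 2) + M 0 1 * v 1 * (M 0 2 * v 2)) + (M 1 0 * u 0 + M 1 1 * u 1 + M 1 2 * u 2) * (M 1 0 * v 0 * (M 1 1 * v 1) + M 1 0 * v 0 * (M 1 2 * v 2) + M 1 1 * v 1 * (M 1 2 * v 2)) + (M 2 0 * u 0 + M 2 1 * u 1 + M 2 2 * u 2) * (M 2 0 * v 0 * (M 2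 1 * v 1) + M 2 0 * v 0 * (M 2 2 * v 2) + M 2 1 * v 1 * (M 2 2 * v 2))) * h2

omit h2 hω in
/-- Constructor of elements. -/
def mkSU (M : Matrix (Fin 3) (Fin 3) F) (hd : M.det = 1) (hh : ∀ u v, hermForm 3 F 2 (M *ᵥ u) (M *ᵥ v) = hermForm 3 F 2 u v) : ↥(SU 3 F 2) :=
  ⟨⟨M, hd⟩, fun u v => hh u v⟩

theorem mA_det : (mA ω).det = 1 := by
  rw [Matrix.det_fin_three]
  simp [mA] <;> grind

theorem mA_col : ∀ j k, ∑ i, mA ω i j * (mA ω i k) ^ 2 = if j = k then 1 else 0 := by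
  intro j k
  fin_cases j <;> fin_cases k <;> simp [mA, Fin.sum_univ_three] <;> grind

theorem mX_det : (mX ω).det = 1 := by
  rw [Matrix.det_fin_three]
  simp [mX] <;> grind

theorem mX_col : ∀ j k, ∑ i, mX ω i j * (mX ω i k) ^ 2 = if j = k then 1 else 0 := by
  intro j k
  fin_cases j <;> fin_cases k <;> simp [mX, Fin.sum_univ_three] <;> grind

theorem mD_det : (mD ω).det = 1 := by
  rw [Matrix.det_fin_three]
  simp [mD] <;> grind

theorem mD_col : ∀ j k, ∑ i, mD ω i j * (mD ω i k) ^ 2 = if j = k then 1 else 0 := by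
  intro j k
  fin_cases j <;> fin_cases k <;> simp [mD, Fin.sum_univ_three] <;> grind

theorem mC_det : (mC ω).det = 1 := by
  rw [Matrix.det_fin_three]
  simp [mC] <;> grind

theorem mC_col : ∀ j k, ∑ i, mC ω i j * (mC ω i k) ^ 2 = if j = k then 1 else 0 := by
  intro j k
  fin_cases j <;> fin_cases k <;> simp [mC, Fin.sum_univ_three] <;> grind

omit h2 hω in
variable (F) in
abbrev SUF := ↥(SU 3 F 2)

def eA : ↥(SU 3 F 2) := mkSU (mA ω) (mA_det ω h2 hω) (herm_pres h2 (mA ω) (mA_col ω h2 hω))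

def eX : ↥(SU 3 F 2) := mkSU (mX ω) (mX_det ω h2 hω) (herm_pres h2 (mX ω) (mX_col ω h2 hω))

def eD : ↥(SU 3 F 2) := mkSU (mD ω) (mD_det ω h2 hω) (herm_pres h2 (mD ω) (mD_col ω h2 hω))

def eC : ↥(SU 3 F 2) := mkSU (mC ω) (mC_det ω h2 hω) (herm_pres h2 (mC ω) (mC_col ω h2 hω))

omit h2 hω in
@[simp] theorem mkSU_coe (M : Matrix (Fin 3) (Fin 3) F) (hd : M.det = 1) (hh : ∀ u v, hermForm 3 F 2 (M *ᵥ u) (M *ᵥ v) = hermForm 3 F 2 u v) :
    (((mkSU M hd hh : ↥(SU 3 F 2)) : Matrix.SpecialLinearGroup (Fin 3) F) : Matrix (Fin 3) (Fin 3) F) = M := rfl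

omit h2 hω in
theorem su_ext {g h : ↥(SU 3 F 2)} (e : ((g : Matrix.SpecialLinearGroup (Fin 3) F) : Matrix (Fin 3) (Fin 3) F) = ((h : Matrix.SpecialLinearGroup (Fin 3) F) : Matrix (Fin 3) (Fin 3) F)) : g = h :=
  Subtype.ext (Subtype.ext e)


/-! ### The monomial predicate -/

omit h2 hω in
/-- Matrices with cyclic monomial shape. -/
def IsCyc (M : Matrix (Fin 3) (Fin 3) F) : Prop := ∃ k : Fin 3, ∀ i j, M i j ≠ 0 ↔ j = i + k

omit h2 hω in
theorem IsCyc.mul {M N : Matrix (Fin 3) (Fin 3) F} (hM : IsCyc M) (hN : IsCyc N) : IsCyc (M * N) := by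
  obtain ⟨k, hk⟩ := hM
  obtain ⟨m, hm⟩ := hN
  refine ⟨k + m, fun i j => ?_⟩
  have h1 : (M * N) i j = M i (i + k) * N (i + k) j := by
    rw [Matrix.mul_apply]
    apply Finset.sum_eq_single (i + k)
    · intro l _ hl
      have : M i l = 0 := by
        by_contra h
        exact hl ((hk i l).1 h)
      rw [this, zero_mul]
    · intro h
      exact absurd (Finset.mem_univ _) h
  rw [h1, mul_ne_zero_iff, hm]
  constructor
  · rintro ⟨-, h⟩
    rw [h, add_assoc]
  · intro h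
    refine ⟨(hk _ _).2 rfl, ?_⟩
    rw [h, add_assoc]

omit h2 hω in
theorem IsCyc.one : IsCyc (1 : Matrix (Fin 3) (Fin 3) F) := by
  refine ⟨0, fun i j => ?_⟩
  rw [add_zero]
  by_cases h : j = i
  · subst h
    simp
  · have h' : i ≠ j := fun e => h e.symm
    simp [Matrix.one_apply_ne h', h]

omit h2 hω in
/-- The subgroup of cyclic monomial elements. -/
def cycS [Finite F] : Subgroup ↥(SU 3 F 2) where
  carrier := {y | IsCyc ((y : Matrix.SpecialLinearGroup (Fin 3) F) : Matrix (Fin 3) (Fin 3) F)}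
  mul_mem' := fun ha hb => IsCyc.mul ha hb
  one_mem' := IsCyc.one
  inv_mem' := by
    intro y hy
    have hpow : ∀ n : ℕ, IsCyc (((y ^ n : ↥(SU 3 F 2)) : Matrix.SpecialLinearGroup (Fin 3) F) : Matrix (Fin 3) (Fin 3) F) := by
      intro n
      induction n with
      | zero => exact IsCyc.one
      | succ n ih =>
        rw [pow_succ]
        exact IsCyc.mul ih hy
    have hfin : 0 < orderOf y := orderOf_pos y
    have h1 : y⁻¹ = y ^ (orderOf y - 1) := by
      apply inv_eq_of_mul_eq_one_left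
      rw [← pow_succ, Nat.sub_add_cancel hfin, pow_orderOf_eq_one]
    show IsCyc _
    rw [h1]
    exact hpow _


theorem mA3_mul_mA : mA3 ω * mA ω = 1 := by
  simp only [mA3, mA, Matrix.mul_fin_three, Matrix.one_fin_three]
  apply mat_eq <;> grind

theorem mX_mul_mX : mX ω * mX ω = mA2 ω := by
  simp only [mX, mA2, Matrix.mul_fin_three]
  apply mat_eq <;> grind

theorem mA_X_A : mAX ω * mA ω = mX ω := by
  simp only [mAX, mA, mX, Matrix.mul_fin_three]
  apply mat_eq <;> grind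

theorem mD2_mul_mD : mD2 ω * mD ω = 1 := by
  simp only [mD2, mD, Matrix.mul_fin_three, Matrix.one_fin_three]
  apply mat_eq <;> grind

theorem mC2_mul_mC : mC2 ω * mC ω = 1 := by
  simp only [mC2, mC, Matrix.mul_fin_three, Matrix.one_fin_three]
  apply mat_eq <;> grind

theorem mC_D : mC ω * mD ω = mS2 ω * (mD ω * mC ω) := by
  simp only [mC, mD, mS2, Matrix.mul_fin_three]
  apply mat_eq <;> grind

theorem mA_D : mA ω * mD ω = mD2 ω * mC2 ω * mA ω := by
  simp only [mA, mD, mD2, mC2, Matrix.mul_fin_three]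
  apply mat_eq <;> grind

theorem mA_C : mA ω * mC ω = mS2 ω * mD2 ω * mC ω * mA ω := by
  simp only [mA, mC, mD2, mS2, Matrix.mul_fin_three]
  apply mat_eq <;> grind

theorem mX_D : mX ω * mD ω = mS ω * mD ω * mC2 ω * mX ω := by
  simp only [mX, mD, mS, mC2, Matrix.mul_fin_three]
  apply mat_eq <;> grind

theorem mX_C : mX ω * mC ω = mS2 ω * mD2 ω * mC2 ω * mX ω := by
  simp only [mX, mC, mS2, mD2, mC2, Matrix.mul_fin_three]
  apply mat_eq <;> grind

theorem mS_mul_mS : mS ω * mS ω = mS2 ω := by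
  simp only [mS, mS2, Matrix.mul_fin_three]
  apply mat_eq <;> grind

theorem mS_det : (mS ω).det = 1 := by
  rw [Matrix.det_fin_three]
  simp [mS] <;> grind

theorem mS_eq : mS ω = ω • (1 : Matrix (Fin 3) (Fin 3) F) := by
  ext i j
  fin_cases i <;> fin_cases j <;> simp [mS]

theorem mS_col : ∀ j k, ∑ i, mS ω i j * (mS ω i k) ^ 2 = if j = k then 1 else 0 := by
  intro j k
  fin_cases j <;> fin_cases k <;> simp [mS, Fin.sum_univ_three] <;> grind

def eS : ↥(SU 3 F 2) := mkSU (mS ω) (mS_det ω h2 hω) (herm_pres h2 (mS ω) (mS_col ω h2 hω))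

theorem eS_central : eS ω h2 hω ∈ Subgroup.center ↥(SU 3 F 2) := by
  rw [Subgroup.mem_center_iff]
  intro g
  apply su_ext
  show ((g : Matrix.SpecialLinearGroup (Fin 3) F) : Matrix (Fin 3) (Fin 3) F) * mS ω = mS ω * ((g : Matrix.SpecialLinearGroup (Fin 3) F) : Matrix (Fin 3) (Fin 3) F)
  rw [mS_eq ω h2 hω]
  simp

theorem ω_ne : ω ≠ 0 := by
  rintro rfl
  simp at hω

theorem ω1_ne : ω + 1 ≠ 0 := by
  intro h
  rw [← hω] at h
  exact ω_ne ω h2 hω (pow_eq_zero_iff (two_ne_zero)|>.1 h)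

theorem eD_cyc : IsCyc (mD ω) := by
  have h1 := ω_ne ω h2 hω
  have h3 := ω1_ne ω h2 hω
  refine ⟨0, fun i j => ?_⟩
  fin_cases i <;> fin_cases j <;> simp [mD, h1, h3]

theorem eC_cyc : IsCyc (mC ω) := by
  refine ⟨2, fun i j => ?_⟩
  fin_cases i <;> fin_cases j <;> simp [mC] <;> decide

theorem not_cyc_row (M : Matrix (Fin 3) (Fin 3) F) (h0 : M 0 0 ≠ 0) (h1 : M 0 1 ≠ 0) : ¬ IsCyc M := by
  rintro ⟨k, hk⟩
  have e0 := (hk 0 0).1 h0
  have e1 := (hk 0 1).1 h1
  exact absurd (e0.trans e1.symm) (by decide)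

theorem not_cyc_A2 : ¬ IsCyc (mA2 ω) := by
  have h3 := ω1_ne ω h2 hω
  rintro ⟨k, hk⟩
  have e0 := (hk 0 0).1 (by simp [mA2])
  have e1 := (hk 1 2).1 (by simpa [mA2] using h3)
  have hk0 : k = 0 := by simpa using e0.symm
  rw [hk0] at e1
  revert e1
  decide

theorem not_cyc_X : ¬ IsCyc (mX ω) := not_cyc_row ω h2 hω _ (by simp [mX]) (by simpa [mX] using ω_ne ω h2 hω)
theorem not_cyc_AX : ¬ IsCyc (mAX ω) := not_cyc_row ω h2 hω _ (by simp [mAX]) (by simpa [mAX] using ω1_ne ω h2 hω)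
theorem not_cyc_A2X : ¬ IsCyc (mA2X ω) := not_cyc_row ω h2 hω _ (by simp [mA2X]) (by simpa [mA2X] using ω_ne ω h2 hω)
theorem not_cyc_A3X : ¬ IsCyc (mA3X ω) := not_cyc_row ω h2 hω _ (by simp [mA3X]) (by simpa [mA3X] using ω1_ne ω h2 hω)


/-! ### The group -/

omit h2 hω

section main

variable [Fintype F]

abbrev prG : ↥(SU 3 F 2) →* PSU 3 F 2 := QuotientGroup.mk' _

theorem prG_of_central (z : ↥(SU 3 F 2)) (hz : z ∈ Subgroup.center ↥(SU 3 F 2)) : prG z = 1 :=
  (QuotientGroup.eq_one_iff z).2 hz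

theorem exists_omega (hF : Fintype.card F = 4) : ∃ ω : F, (2 : F) = 0 ∧ ω ^ 2 = ω + 1 := by
  classical
  have h4 : (4 : F) = 0 := by
    have := Nat.cast_card_eq_zero F
    rw [hF] at this
    exact_mod_cast this
  have h2 : (2 : F) = 0 := by
    have h : (2 : F) * 2 = 0 := by linear_combination h4
    rcases mul_eq_zero.1 h with h | h <;> exact h
  obtain ⟨x, -, hx⟩ := Finset.exists_mem_notMem_of_card_lt_card
    (s := ({0, 1} : Finset F)) (t := Finset.univ) (by
      rw [Finset.card_univ, hF]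
      exact lt_of_le_of_lt (Finset.card_le_two) (by norm_num))
  simp only [Finset.mem_insert, Finset.mem_singleton, not_or] at hx
  refine ⟨x, h2, ?_⟩
  have h5 : x ^ 4 = x := by
    have := FiniteField.pow_card x
    rwa [hF] at this
  have h6 : x * ((x - 1) * (x ^ 2 + x + 1)) = 0 := by linear_combination h5
  have h7 : x - 1 ≠ 0 := sub_ne_zero.2 hx.2
  have h8 := (mul_eq_zero.1 ((mul_eq_zero.1 h6).resolve_left hx.1)).resolve_left h7
  linear_combination h8 - (x + 1) * h2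

theorem not_mem_zpowers_of {X : Type*} [Group X] (a x : X) (h4 : a ^ 4 = 1) (h : ∀ i : ℕ, i < 4 → a ^ i * x ≠ 1) :
    x ∉ Subgroup.zpowers a := by
  intro hx
  have hfin : IsOfFinOrder a := isOfFinOrder_iff_pow_eq_one.2 ⟨4, by norm_num, h4⟩
  have hx2 : x ∈ Submonoid.powers a := by
    obtain ⟨m, hm⟩ := hx
    have hm' : a ^ m = x := hm
    rw [← hm']
    have hpos : (0 : ℤ) < 4 := by norm_num
    have e : a ^ m = a ^ (m % 4).toNat := by
      conv_lhs => rw [← Int.emod_add_mul_ediv m 4, _root_.zpow_add, _root_.zpow_mul]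
      have : (a ^ (4 : ℤ)) = 1 := by exact_mod_cast h4
      rw [this, _root_.one_zpow, mul_one]
      have h0 : 0 ≤ m % 4 := Int.emod_nonneg _ (by norm_num)
      conv_lhs => rw [← Int.toNat_of_nonneg h0]
      rw [zpow_natCast]
    rw [e]
    exact ⟨_, rfl⟩
  obtain ⟨m, rfl⟩ := hx2
  have hm4 : (4 - m % 4) % 4 < 4 := Nat.mod_lt _ (by norm_num)
  apply h _ hm4
  have e1 : a ^ m = a ^ (m % 4) := by
    conv_lhs => rw [← Nat.mod_add_div m 4, pow_add, pow_mul, h4, one_pow, mul_one]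
  rw [show (fun x => a ^ x) m = a ^ m from rfl, e1, ← pow_add]
  have h5 : m % 4 < 4 := Nat.mod_lt _ (by norm_num)
  have h6 : (4 - m % 4) % 4 + m % 4 = 0 ∨ (4 - m % 4) % 4 + m % 4 = 4 := by omega
  rcases h6 with h6 | h6 <;> rw [h6]
  · simp
  · exact h4

theorem psu_structure (hF : Fintype.card F = 4) : ∃ (N : Subgroup (PSU 3 F 2)) (_ : N.Normal), Nat.card N = 9 ∧ (∀ x ∈ N, x ^ 3 = 1) ∧ Nonempty (PSU 3 F 2 ⧸ N ≃* QuaternionGroup 2) := by
  classical
  obtain ⟨ω, h2, hω⟩ := exists_omega hF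
  have hF' : Fintype.card F = 2 ^ 2 := by rw [hF]; norm_num
  have hcard : Nat.card (PSU 3 F 2) = 72 := (Cfsg.Agent.S0282.result hF).1
  let eA' := eA ω h2 hω
  let eX' := eX ω h2 hω
  let eD' := eD ω h2 hω
  let eC' := eC ω h2 hω
  let eS' := eS ω h2 hω
  have hScen : prG eS' = 1 := prG_of_central _ (eS_central ω h2 hω)
  set α := prG eA' with hα
  set ξ := prG eX' with hξ
  set d := prG eD' with hd
  set c := prG eC' with hc
  -- relations
  have hA3 : eA' * eA' * eA' * eA' = 1 := by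
    apply su_ext
    show mA ω * mA ω * mA ω * mA ω = 1
    rw [mA_mul_mA ω h2 hω, mA2_mul_mA ω h2 hω, mA3_mul_mA ω h2 hω]
  have hα4 : α ^ 4 = 1 := by
    rw [hα, ← map_pow, show eA' ^ 4 = eA' * eA' * eA' * eA' by simp [pow_succ], hA3, map_one]
  have hX2 : ξ ^ 2 = α ^ 2 := by
    rw [hξ, hα, ← map_pow, ← map_pow]
    congr 1
    rw [pow_two, pow_two]
    apply su_ext
    show mX ω * mX ω = mA ω * mA ω
    rw [mX_mul_mX ω h2 hω, mA_mul_mA ω h2 hω]
  have hAXA : α * ξ * α = ξ := by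
    rw [hξ, hα, ← map_mul, ← map_mul]
    congr 1
    apply su_ext
    show mA ω * mX ω * mA ω = mX ω
    rw [mA_mul_mX ω h2 hω, mA_X_A ω h2 hω]
  have hξα : ξ⁻¹ * α * ξ = α⁻¹ := by
    rw [eq_inv_iff_mul_eq_one]
    calc ξ⁻¹ * α * ξ * α = ξ⁻¹ * (α * ξ * α) := by group
      _ = 1 := by rw [hAXA]; group
  have hd3 : d ^ 3 = 1 := by
    rw [hd, ← map_pow, show eD' ^ 3 = eD' * eD' * eD' by simp [pow_succ]]
    have : eD' * eD' * eD' = 1 := by
      apply su_ext
      show mD ω * mD ω * mD ω = 1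
      rw [mD_mul_mD ω h2 hω, mD2_mul_mD ω h2 hω]
    rw [this, map_one]
  have hc3 : c ^ 3 = 1 := by
    rw [hc, ← map_pow, show eC' ^ 3 = eC' * eC' * eC' by simp [pow_succ]]
    have : eC' * eC' * eC' = 1 := by
      apply su_ext
      show mC ω * mC ω * mC ω = 1
      rw [mC_mul_mC ω h2 hω, mC2_mul_mC ω h2 hω]
    rw [this, map_one]
  have hcd : c * d = d * c := by
    have : eC' * eD' = eS' * eS' * (eD' * eC') := by
      apply su_ext
      show mC ω * mD ω = mS ω * mS ω * (mD ω * mC ω)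
      rw [mS_mul_mS ω h2 hω, mC_D ω h2 hω]
    have h1 := congrArg prG this
    rw [map_mul, map_mul, map_mul, map_mul, hScen, one_mul, one_mul] at h1
    exact h1
  have hαd : α * d = d ^ 2 * c ^ 2 * α := by
    have : eA' * eD' = eD' * eD' * (eC' * eC') * eA' := by
      apply su_ext
      show mA ω * mD ω = mD ω * mD ω * (mC ω * mC ω) * mA ω
      rw [mD_mul_mD ω h2 hω, mC_mul_mC ω h2 hω, mA_D ω h2 hω]
    have h1 := congrArg prG this
    simp only [map_mul] at h1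
    rw [pow_two, pow_two]
    exact h1
  have hαc : α * c = d ^ 2 * c * α := by
    have : eA' * eC' = eS' * eS' * (eD' * eD') * eC' * eA' := by
      apply su_ext
      show mA ω * mC ω = mS ω * mS ω * (mD ω * mD ω) * mC ω * mA ω
      rw [mS_mul_mS ω h2 hω, mD_mul_mD ω h2 hω, mA_C ω h2 hω]
    have h1 := congrArg prG this
    simp only [map_mul, hScen, one_mul] at h1
    rw [pow_two]
    exact h1
  have hξd : ξ * d = d * c ^ 2 * ξ := by
    have : eX' * eD' = eS' * eD' * (eC' * eC') * eX' := by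
      apply su_ext
      show mX ω * mD ω = mS ω * mD ω * (mC ω * mC ω) * mX ω
      rw [mC_mul_mC ω h2 hω, mX_D ω h2 hω]
    have h1 := congrArg prG this
    simp only [map_mul, hScen, one_mul] at h1
    rw [pow_two]
    exact h1
  have hξc : ξ * c = d ^ 2 * c ^ 2 * ξ := by
    have : eX' * eC' = eS' * eS' * (eD' * eD') * (eC' * eC') * eX' := by
      apply su_ext
      show mX ω * mC ω = mS ω * mS ω * (mD ω * mD ω) * (mC ω * mC ω) * mX ω
      rw [mS_mul_mS ω h2 hω, mD_mul_mD ω h2 hω, mC_mul_mC ω h2 hω, mX_C ω h2 hω]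
    have h1 := congrArg prG this
    simp only [map_mul, hScen, one_mul] at h1
    rw [pow_two, pow_two]
    exact h1
  -- the subgroup
  set N : Subgroup (PSU 3 F 2) := Subgroup.closure {d, c} with hN
  have hdN : d ∈ N := Subgroup.subset_closure (by simp)
  have hcN : c ∈ N := Subgroup.subset_closure (by simp)
  have hcomm : Commute d c := hcd.symm
  have hform : ∀ x ∈ N, ∃ i j : ℕ, x = d ^ i * c ^ j := by
    intro x hx
    induction hx using Subgroup.closure_induction with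
    | mem x hx =>
      rcases hx with rfl | rfl
      · exact ⟨1, 0, by simp⟩
      · exact ⟨0, 1, by simp⟩
    | one => exact ⟨0, 0, by simp⟩
    | mul x y _ _ hx hy =>
      obtain ⟨i, j, rfl⟩ := hx
      obtain ⟨k, l, rfl⟩ := hy
      refine ⟨i + k, j + l, ?_⟩
      rw [pow_add, pow_add]
      have := (hcomm.pow_pow k j).eq
      calc d ^ i * c ^ j * (d ^ k * c ^ l) = d ^ i * (c ^ j * d ^ k) * c ^ l := by group
        _ = d ^ i * (d ^ k * c ^ j) * c ^ l := by rw [this]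
        _ = d ^ i * d ^ k * (c ^ j * c ^ l) := by group
    | inv x _ hx =>
      obtain ⟨i, j, rfl⟩ := hx
      refine ⟨2 * i, 2 * j, ?_⟩
      rw [_root_.mul_inv_rev, pow_mul, pow_mul]
      have e1 : (d ^ 2) ^ i = (d ^ i)⁻¹ := by
        rw [eq_inv_iff_mul_eq_one, ← pow_mul, ← pow_add, show 2 * i + i = 3 * i by ring, pow_mul, hd3, one_pow]
      have e2 : (c ^ 2) ^ j = (c ^ j)⁻¹ := by
        rw [eq_inv_iff_mul_eq_one, ← pow_mul, ← pow_add, show 2 * j + j = 3 * j by ring, pow_mul, hc3, one_pow]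
      rw [e1, e2]
      exact ((hcomm.pow_pow i j).inv_inv).eq.symm
  have hN3 : ∀ x ∈ N, x ^ 3 = 1 := by
    intro x hx
    obtain ⟨i, j, rfl⟩ := hform x hx
    rw [(hcomm.pow_pow i j).mul_pow, ← pow_mul, ← pow_mul, mul_comm i, mul_comm j, pow_mul, pow_mul, hd3, hc3, one_pow, one_pow, mul_one]
  have hNcyc : N ≤ (cycS (F := F)).map prG := by
    rw [hN, Subgroup.closure_le]
    rintro x (rfl | rfl)
    · exact ⟨eD', eD_cyc ω h2 hω, rfl⟩
    · exact ⟨eC', eC_cyc ω h2 hω, rfl⟩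
  have hcycle : ∀ y : ↥(SU 3 F 2), prG y ∈ N → IsCyc ((y : Matrix.SpecialLinearGroup (Fin 3) F) : Matrix (Fin 3) (Fin 3) F) := by
    intro y hy
    obtain ⟨s, hs, hsy⟩ := hNcyc hy
    have h1 : s⁻¹ * y ∈ Subgroup.center ↥(SU 3 F 2) := QuotientGroup.eq.1 hsy
    obtain ⟨r, h3, h4, h5⟩ := CfsgLib.ClassGeo.center_SU_scalar hF' 3 (by norm_num) _ h1
    have h6 : y = s * (s⁻¹ * y) := by group
    rw [h6, h5]
    apply IsCyc.mul hs
    show IsCyc (((CfsgLib.ClassGeo.suScalar 3 r h3 h4 : ↥(SU 3 F 2)) : Matrix.SpecialLinearGroup (Fin 3) F) : Matrix (Fin 3) (Fin 3) F)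
    rw [CfsgLib.ClassGeo.suScalar_coe]
    refine ⟨0, fun i j => ?_⟩
    rw [add_zero]
    by_cases hij : j = i
    · subst hij
      simp
    · have h' : i ≠ j := fun e => hij e.symm
      simp [Matrix.one_apply_ne h', hij]
  have hA2N : α ^ 2 ∉ N := by
    intro h
    have h1 : α ^ 2 = prG (eA' * eA') := by rw [pow_two, map_mul]
    rw [h1] at h
    have h3 := hcycle _ h
    have h4 : ((eA' * eA' : ↥(SU 3 F 2)) : Matrix.SpecialLinearGroup (Fin 3) F).1 = mA2 ω := mA_mul_mA ω h2 hω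
    exact not_cyc_A2 ω h2 hω (h4 ▸ h3)
  have hL : ∀ i : ℕ, i < 4 → α ^ i * ξ ∉ N := by
    intro i hi h
    interval_cases i
    · rw [pow_zero, one_mul] at h
      exact not_cyc_X ω h2 hω (hcycle _ h)
    · rw [pow_one] at h
      have h3 := hcycle (eA' * eX') h
      have h4 : ((eA' * eX' : ↥(SU 3 F 2)) : Matrix.SpecialLinearGroup (Fin 3) F).1 = mAX ω := mA_mul_mX ω h2 hω
      exact not_cyc_AX ω h2 hω (h4 ▸ h3)
    · have h1 : α ^ 2 * ξ = prG (eA' * eA' * eX') := by rw [pow_two, map_mul, map_mul]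
      rw [h1] at h
      have h3 := hcycle _ h
      have h4 : ((eA' * eA' * eX' : ↥(SU 3 F 2)) : Matrix.SpecialLinearGroup (Fin 3) F).1 = mA2X ω := by
        show mA ω * mA ω * mX ω = mA2X ω
        rw [mA_mul_mA ω h2 hω, mA2_mul_mX ω h2 hω]
      exact not_cyc_A2X ω h2 hω (h4 ▸ h3)
    · have h1 : α ^ 3 * ξ = prG (eA' * eA' * eA' * eX') := by rw [pow_succ, pow_two, map_mul, map_mul, map_mul]
      rw [h1] at h
      have h3 := hcycle _ h
      have h4 : ((eA' * eA' * eA' * eX' : ↥(SU 3 F 2)) : Matrix.SpecialLinearGroup (Fin 3) F).1 = mA3X ω := by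
        show mA ω * mA ω * mA ω * mX ω = mA3X ω
        rw [mA_mul_mA ω h2 hω, mA2_mul_mA ω h2 hω, mA3_mul_mX ω h2 hω]
      exact not_cyc_A3X ω h2 hω (h4 ▸ h3)
  -- the order of `N`
  have hcd0 : ∀ i : ℕ, i < 3 → c ≠ d ^ i := by
    intro i hi e
    have h1 : prG eC' = prG (eD' ^ i) := by rw [map_pow]; exact e
    have h3 : eC'⁻¹ * (eD' ^ i) ∈ Subgroup.center ↥(SU 3 F 2) := QuotientGroup.eq.1 h1
    obtain ⟨r, h4, h5, h6⟩ := CfsgLib.ClassGeo.center_SU_scalar hF' 3 (by norm_num) _ h3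
    have h7 : eD' ^ i = eC' * CfsgLib.ClassGeo.suScalar 3 r h4 h5 := by
      rw [← h6]
      group
    have h8 := congrArg (fun g : ↥(SU 3 F 2) => ((g : Matrix.SpecialLinearGroup (Fin 3) F) : Matrix (Fin 3) (Fin 3) F) 1 0) h7
    have h9 : ((eC' * CfsgLib.ClassGeo.suScalar 3 r h4 h5 : ↥(SU 3 F 2)) : Matrix.SpecialLinearGroup (Fin 3) F).1 = mC ω * ((r : F) • (1 : Matrix (Fin 3) (Fin 3) F)) := rfl
    simp only [h9] at h8
    have h10 : (mC ω * ((r : F) • (1 : Matrix (Fin 3) (Fin 3) F))) 1 0 = r := by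
      simp [mC, Matrix.mul_apply, Fin.sum_univ_three]
    rw [h10] at h8
    have h11 : ((eD' ^ i : ↥(SU 3 F 2)) : Matrix.SpecialLinearGroup (Fin 3) F).1 1 0 = 0 := by
      interval_cases i
      · simp
      · rw [pow_one]
        show mD ω 1 0 = 0
        simp [mD]
      · rw [pow_two]
        show (mD ω * mD ω) 1 0 = 0
        rw [mD_mul_mD ω h2 hω]
        simp [mD2]
    rw [h11] at h8
    exact r.ne_zero h8.symm
  have hd1 : d ≠ 1 := by
    intro h
    have h1 := hcd0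
    have h3 : prG eD' = 1 := h
    have h4 : eD' ∈ Subgroup.center ↥(SU 3 F 2) := (QuotientGroup.eq_one_iff eD').1 h3
    obtain ⟨r, h5, h6, h7⟩ := CfsgLib.ClassGeo.center_SU_scalar hF' 3 (by norm_num) _ h4
    have h8 := congrArg (fun g : ↥(SU 3 F 2) => ((g : Matrix.SpecialLinearGroup (Fin 3) F) : Matrix (Fin 3) (Fin 3) F)) h7
    simp only [CfsgLib.ClassGeo.suScalar_coe] at h8
    have h9 := congrFun (congrFun h8 0) 0
    have h10 := congrFun (congrFun h8 1) 1
    have h11 : mD ω 0 0 = 1 := by simp [mD]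
    have h12 : mD ω 1 1 = ω := by simp [mD]
    have h13 : (((r : F) • (1 : Matrix (Fin 3) (Fin 3) F))) 0 0 = r := by simp
    have h14 : (((r : F) • (1 : Matrix (Fin 3) (Fin 3) F))) 1 1 = r := by simp
    have h15 : ((eD' : ↥(SU 3 F 2)) : Matrix.SpecialLinearGroup (Fin 3) F).1 = mD ω := rfl
    rw [h15, h11, h13] at h9
    rw [h15, h12, h14] at h10
    have h16 : ω = 1 := by rw [h10, ← h9]
    rw [h16] at hω
    apply (one_ne_zero : (1 : F) ≠ 0)
    linear_combination -hω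
  have hNcard : Nat.card N = 9 := by
    have hp : IsPGroup 3 N := by
      intro x
      refine ⟨1, ?_⟩
      apply Subtype.ext
      simpa using hN3 x.1 x.2
    obtain ⟨k, hk⟩ := IsPGroup.iff_card.1 hp
    have hdvd : Nat.card N ∣ 72 := by
      rw [← hcard]
      exact Subgroup.card_subgroup_dvd_card N
    rw [hk] at hdvd
    have hk2 : k ≤ 2 := by
      by_contra h
      have h3 : 3 ≤ k := by omega
      have h4 : 3 ^ 3 ∣ 3 ^ k := pow_dvd_pow 3 h3
      have h5 := h4.trans hdvd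
      revert h5
      decide
    have hk3 : 2 ≤ k := by
      by_contra h
      have h3 : Nat.card N ≤ 3 := by
        rw [hk]
        have : k = 0 ∨ k = 1 := by omega
        rcases this with rfl | rfl <;> norm_num
      -- the three elements
      have hod : orderOf d = 3 := orderOf_eq_prime hd3 hd1
      have hzp : Subgroup.zpowers d ≤ N := by
        rw [Subgroup.zpowers_le]
        exact hdN
      have hcz : Nat.card (Subgroup.zpowers d) = 3 := by
        rw [Nat.card_zpowers, hod]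
      have heq : Subgroup.zpowers d = N := Subgroup.eq_of_le_of_card_ge hzp (by rw [hcz]; exact h3)
      have hcm : c ∈ Subgroup.zpowers d := by
        rw [heq]
        exact hcN
      have hcm2 := mem_powers_iff_mem_zpowers.2 hcm
      obtain ⟨m, hm⟩ := hcm2
      have hm2 : d ^ (m % 3) = c := by
        rw [← hm, show (fun x => d ^ x) m = d ^ m from rfl]
        conv_rhs => rw [← Nat.mod_add_div m 3, pow_add, pow_mul, hd3, one_pow, mul_one]
      exact hcd0 _ (Nat.mod_lt _ (by norm_num)) hm2.symm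
    have : k = 2 := by omega
    rw [hk, this]
    norm_num
  -- normality
  set K : Subgroup (PSU 3 F 2) := Subgroup.normalizer (N : Set (PSU 3 F 2)) with hK
  have hnorm : ∀ g, g * d * g⁻¹ ∈ N → g * c * g⁻¹ ∈ N → g ∈ K := by
    intro g h1 h3
    have hle : N.map (MulAut.conj g).toMonoidHom ≤ N := by
      rw [Subgroup.map_le_iff_le_comap, hN, Subgroup.closure_le]
      rintro x (rfl | rfl)
      · exact h1
      · exact h3
    have hinj : Function.Injective (MulAut.conj g).toMonoidHom := (MulAut.conj g).injective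
    have heq : N.map (MulAut.conj g).toMonoidHom = N := by
      apply Subgroup.eq_of_le_of_card_ge hle
      rw [Nat.card_congr (N.equivMapOfInjective _ hinj).toEquiv.symm]
    rw [Subgroup.mem_normalizer_iff]
    intro h
    constructor
    · intro hh
      exact hle ⟨h, hh, rfl⟩
    · intro hh
      rw [← heq] at hh
      obtain ⟨h', hh', e⟩ := hh
      have e' : g * h' * g⁻¹ = g * h * g⁻¹ := e
      have : h' = h := by
        have := mul_right_cancel e'
        exact mul_left_cancel this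
      rwa [← this]
  have hαn : α ∈ K := by
    apply hnorm
    · have : α * d * α⁻¹ = d ^ 2 * c ^ 2 := by rw [hαd]; group
      rw [this]
      exact N.mul_mem (N.pow_mem hdN 2) (N.pow_mem hcN 2)
    · have : α * c * α⁻¹ = d ^ 2 * c := by rw [hαc]; group
      rw [this]
      exact N.mul_mem (N.pow_mem hdN 2) hcN
  have hξn : ξ ∈ K := by
    apply hnorm
    · have : ξ * d * ξ⁻¹ = d * c ^ 2 := by rw [hξd]; group
      rw [this]
      exact N.mul_mem hdN (N.pow_mem hcN 2)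
    · have : ξ * c * ξ⁻¹ = d ^ 2 * c ^ 2 := by rw [hξc]; group
      rw [this]
      exact N.mul_mem (N.pow_mem hdN 2) (N.pow_mem hcN 2)
  have hα1 : ∀ i : ℕ, i < 4 → α ^ i * ξ ≠ 1 := by
    intro i hi e
    apply hL i hi
    rw [e]
    exact N.one_mem
  have hoα : orderOf α = 2 ^ 2 := by
    apply orderOf_eq_prime_pow
    · intro e
      apply hA2N
      have : α ^ 2 = 1 := by simpa using e
      rw [this]
      exact N.one_mem
    · simpa using hα4
  have hoα' : orderOf α = 2 * 2 := by rw [hoα]; norm_num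
  have hξz : ξ ∉ Subgroup.zpowers α := not_mem_zpowers_of α ξ hα4 hα1
  have ha4 : α ^ (2 * 2) = 1 := hα4
  let φ := CfsgLib.ClassGeo.quatHom 2 α ξ ha4 hX2 hξα
  have hinj := CfsgLib.ClassGeo.quatHom_injective 2 α ξ ha4 hX2 hξα hoα' hξz
  have hrange : φ.range ≤ K := by
    rintro _ ⟨u, rfl⟩
    rcases u with j | j
    · rw [CfsgLib.ClassGeo.quatHom_a]
      exact Subgroup.pow_mem _ hαn _
    · rw [CfsgLib.ClassGeo.quatHom_xa]
      exact Subgroup.mul_mem _ hξn (Subgroup.pow_mem _ hαn _)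
  have hcr : Nat.card φ.range = 8 := by
    rw [← Nat.card_congr (MonoidHom.ofInjective hinj).toEquiv, Nat.card_eq_fintype_card, QuaternionGroup.card]
  have h8 : 8 ∣ Nat.card K := by
    rw [← hcr]
    exact Subgroup.card_dvd_of_le hrange
  have h9 : 9 ∣ Nat.card K := by
    rw [← hNcard]
    exact Subgroup.card_dvd_of_le Subgroup.le_normalizer
  have h72 : 72 ∣ Nat.card K := by
    have : Nat.Coprime 8 9 := by norm_num
    exact this.mul_dvd_of_dvd_of_dvd h8 h9
  have htop : K = ⊤ := by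
    apply Subgroup.eq_top_of_le_card
    rw [hcard]
    exact Nat.le_of_dvd Nat.card_pos h72
  haveI hNn : N.Normal := Subgroup.normalizer_eq_top_iff.1 htop
  refine ⟨N, hNn, hNcard, hN3, ?_⟩
  -- the quotient
  have hΓ : Nat.card (PSU 3 F 2 ⧸ N) = 8 := by
    have := Subgroup.card_eq_card_quotient_mul_card_subgroup N
    rw [hcard, hNcard] at this
    omega
  let pΓ : PSU 3 F 2 →* PSU 3 F 2 ⧸ N := QuotientGroup.mk' N
  have hne : ∀ x, x ∉ N → pΓ x ≠ 1 := by
    intro x hx e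
    exact hx ((QuotientGroup.eq_one_iff x).1 e)
  have h_a : (pΓ ξ) ^ 2 = (pΓ α) ^ 2 := by
    have := congrArg pΓ hX2
    simp only [map_pow] at this
    exact this
  have h_b : (pΓ ξ)⁻¹ * pΓ α * pΓ ξ = (pΓ α)⁻¹ := by
    have := congrArg pΓ hξα
    simp only [map_mul, map_inv] at this
    exact this
  have h_c : orderOf (pΓ α) = 2 * 2 := by
    have : orderOf (pΓ α) = 2 ^ 2 := by
      apply orderOf_eq_prime_pow
      · intro e
        apply hne _ hA2N
        rw [map_pow pΓ α 2]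
        simpa using e
      · have h5 := congrArg pΓ hα4
        simp only [map_pow, map_one] at h5
        simpa using h5
    rw [this]
    norm_num
  have h_d : pΓ ξ ∉ Subgroup.zpowers (pΓ α) := by
    apply not_mem_zpowers_of _ _ (by rw [← map_pow pΓ α 4, hα4, map_one])
    intro i hi
    rw [← map_pow pΓ α i, ← map_mul pΓ]
    exact hne _ (hL i hi)
  obtain ⟨Q, -, -, hQ, ⟨eQ⟩⟩ := CfsgLib.ClassGeo.exists_quat_subgroup 2 (pΓ α) (pΓ ξ) h_a h_b h_c h_d
  have hQtop : Q = ⊤ := by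
    apply Subgroup.eq_top_of_le_card
    rw [hΓ, hQ]
  exact ⟨(Subgroup.topEquiv.symm.trans (MulEquiv.subgroupCongr hQtop.symm)).trans eQ⟩

end main

end CfsgLib.ClassGeo.U32
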