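import Mathlib
import Cfsg.Agent.Lib.ClassGeo.SUOver2
import Cfsg.Agent.Lib.ClassGeo.UParab
import Cfsg.Agent.Lib.ClassGeo.UBridge
import Cfsg.Agent.Lib.ClassGeo.Trans

set_option autoImplicit false
set_option linter.unusedSimpArgs false
set_option linter.unusedVariables false
set_option linter.unusedSectionVars false

namespace CfsgLib.ClassGeo.UInv

open Module CfsgLib.ClassGeo

section abstr

variable {F V : Type*} [Field F] [AddCommGroup V] [Module F V] {σ : F →+* F} {B : V →ₛₗ[σ] V →ₗ[F] F}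

/-- A hyperbolic system adapted to a self-adjoint square-zero map. -/
def Sys (B : V →ₛₗ[σ] V →ₗ[F] F) (N : V →ₗ[F] V) {k : ℕ} (x : Fin k → V) : Prop :=
  (∀ i j, B (x i) (x j) = 0) ∧ (∀ i j, B (N (x i)) (x j) = if i = j then 1 else 0)

section sys

variable (h : HForm σ B) (N : V →ₗ[F] V) (hN2 : ∀ y, N (N y) = 0) (hadj : ∀ y z, B (N y) z = B y (N z))
variable {k : ℕ} {x : Fin k → V}

include h in
theorem sys_xu (hx : Sys B N x) (i j : Fin k) : B (x j) (N (x i)) = if i = j then 1 else 0 := by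
  rw [← h.symm (N (x i)) (x j), hx.2 i j]
  split_ifs <;> simp

include hN2 hadj in
theorem sys_uu (hx : Sys B N x) (i j : Fin k) : B (N (x i)) (N (x j)) = 0 := by
  rw [hadj, hN2, map_zero]

/-- Gram data give linear independence. -/
theorem sys_li (hx : Sys B N x) (hxu : ∀ i j, B (x j) (N (x i)) = if i = j then 1 else 0)
    (huu : ∀ i j, B (N (x i)) (N (x j)) = 0) :
    LinearIndependent F (Sum.elim x (fun i => N (x i))) := by
  rw [Fintype.linearIndependent_iff]
  intro g hg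
  rw [Fintype.sum_sum_type] at hg
  simp only [Sum.elim_inl, Sum.elim_inr] at hg
  have h1 : ∀ j, g (Sum.inr j) = 0 := by
    intro j
    have := congrArg (B (x j)) hg
    simp only [map_add, map_sum, map_smul, smul_eq_mul, map_zero, hx.1, hxu, mul_zero, Finset.sum_const_zero, zero_add] at this
    simpa using this
  have h2 : ∀ j, g (Sum.inl j) = 0 := by
    intro j
    have := congrArg (B (N (x j))) hg
    simp only [map_add, map_sum, map_smul, smul_eq_mul, map_zero, huu, hx.2, mul_zero, Finset.sum_const_zero, add_zero] at this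
    simpa [eq_comm] using this
  rintro (i | i)
  · exact h2 i
  · exact h1 i

include h hN2 hadj in
/-- A vector of the perp with nonzero value of the form, if the formula fails. -/
theorem exists_perp_noniso (hx : Sys B N x) (y₀ : V) (hy₀ : N y₀ ≠ ∑ i, B (N (x i)) y₀ • N (x i)) :
    ∃ y, (∀ j, B (x j) y = 0 ∧ B (N (x j)) y = 0) ∧ B (N y) y ≠ 0 := by
  classical
  have hxu := sys_xu h N hx
  have huu := sys_uu N hN2 hadj hx
  -- the projection
  obtain ⟨π, hπ⟩ : ∃ π : V → V, ∀ y, π y = y - (∑ i, B (N (x i)) y • x i) - ∑ i, B (x i) y • N (x i) := ⟨_, fun _ => rfl⟩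
  have p1 : ∀ y j, B (x j) (π y) = 0 := by
    intro y j
    rw [hπ]
    simp only [map_sub, map_sum, map_smul, smul_eq_mul, hx.1, hxu, mul_zero, Finset.sum_const_zero, sub_zero]
    simp
  have p2 : ∀ y j, B (N (x j)) (π y) = 0 := by
    intro y j
    rw [hπ]
    simp only [map_sub, map_sum, map_smul, smul_eq_mul, hx.2, huu, mul_zero, Finset.sum_const_zero, sub_zero]
    simp [eq_comm]
  have p3 : ∀ y, N (π y) = N y - ∑ i, B (N (x i)) y • N (x i) := by
    intro y
    rw [hπ]
    simp only [map_sub, map_sum, map_smul, hN2, smul_zero, Finset.sum_const_zero, sub_zero]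
  obtain ⟨a, ha⟩ : ∃ a, a = π y₀ := ⟨_, rfl⟩
  have ha1 : ∀ j, B (x j) a = 0 ∧ B (N (x j)) a = 0 := fun j => by rw [ha]; exact ⟨p1 _ j, p2 _ j⟩
  have hNa : N a ≠ 0 := by
    rw [ha, p3]
    exact sub_ne_zero.mpr hy₀
  obtain ⟨z, hz⟩ : ∃ z, B (N a) z ≠ 0 := by
    by_contra hc
    push Not at hc
    exact hNa (h.sep _ hc)
  obtain ⟨b, hb⟩ : ∃ b, b = π z := ⟨_, rfl⟩
  have hb1 : ∀ j, B (x j) b = 0 ∧ B (N (x j)) b = 0 := fun j => by rw [hb]; exact ⟨p1 _ j, p2 _ j⟩
  have hab : B (N a) b ≠ 0 := by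
    have e1 : ∀ i, B (N a) (x i) = 0 := by
      intro i
      rw [hadj, ← h.symm, (ha1 i).2, map_zero]
    have e2 : ∀ i, B (N a) (N (x i)) = 0 := by
      intro i
      rw [hadj, hN2, map_zero]
    rw [hb, hπ]
    simp only [map_sub, map_sum, map_smul, smul_eq_mul, e1, e2, mul_zero, Finset.sum_const_zero, sub_zero]
    exact hz
  by_cases h1 : B (N a) a = 0
  swap
  · exact ⟨a, ha1, h1⟩
  by_cases h2 : B (N b) b = 0
  swap
  · exact ⟨b, hb1, h2⟩
  obtain ⟨e, he⟩ := h.trace_surj 1 (map_one σ)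
  obtain ⟨t, ht⟩ : ∃ t, t = B (N a) b := ⟨_, rfl⟩
  rw [← ht] at hab
  have hba : B (N b) a = σ t := by
    rw [ht, h.symm, hadj]
  refine ⟨σ (e / t) • a + b, ?_, ?_⟩
  · intro j
    simp [(ha1 j).1, (ha1 j).2, (hb1 j).1, (hb1 j).2]
  · simp only [map_add, map_smul, LinearMap.add_apply, LinearMap.map_smulₛₗ₂, smul_eq_mul, h.σσ, h1, h2, hba, ← ht, mul_zero, zero_add, add_zero]
    have e3 : e / t * t + σ (e / t) * σ t = 1 := by
      rw [← map_mul, div_mul_cancel₀ _ hab]
      exact he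
    intro h0
    apply one_ne_zero (α := F)
    rw [← e3]
    linear_combination h0

include h hN2 hadj in
/-- A normalized extension vector. -/
theorem exists_extend_vec [Finite F] (hx : Sys B N x) (y₀ : V) (hy₀ : N y₀ ≠ ∑ i, B (N (x i)) y₀ • N (x i)) :
    ∃ y, (∀ j, B (x j) y = 0 ∧ B (N (x j)) y = 0) ∧ B y y = 0 ∧ B (N y) y = 1 := by
  obtain ⟨y, hy, hr⟩ := exists_perp_noniso h N hN2 hadj hx y₀ hy₀
  obtain ⟨r, hrdef⟩ : ∃ r, r = B (N y) y := ⟨_, rfl⟩
  rw [← hrdef] at hr
  have hrσ : σ r = r := by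
    rw [hrdef, h.symm, hadj]
  obtain ⟨c, hc⟩ := herm_norm_surj σ h.ne h.σσ r⁻¹ (inv_ne_zero hr) (by rw [map_inv₀, hrσ])
  obtain ⟨y₁, hy₁⟩ : ∃ y₁, y₁ = c • y := ⟨_, rfl⟩
  have h1 : B (N y₁) y₁ = 1 := by
    rw [hy₁]
    simp only [map_smul, LinearMap.map_smulₛₗ₂, smul_eq_mul, LinearMap.smul_apply, ← hrdef]
    have : c * σ c * r = 1 := by
      rw [hc]
      field_simp
    linear_combination this
  have h1' : B y₁ (N y₁) = 1 := by
    rw [← hadj, h1]
  obtain ⟨e, he⟩ := h.trace_surj (B y₁ y₁) (h.self_fixed y₁)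
  have hy₁p : ∀ j, B (x j) y₁ = 0 ∧ B (N (x j)) y₁ = 0 := by
    intro j
    rw [hy₁]
    simp [(hy j).1, (hy j).2]
  refine ⟨y₁ + (-e) • N y₁, ?_, ?_, ?_⟩
  · intro j
    have e1 : B (x j) (N y₁) = 0 := by
      rw [← hadj, (hy₁p j).2]
    have e2 : B (N (x j)) (N y₁) = 0 := by
      rw [hadj, hN2, map_zero]
    simp [(hy₁p j).1, (hy₁p j).2, e1, e2]
  · have e2 : B (N y₁) (N y₁) = 0 := by
      rw [hadj, hN2, map_zero]
    simp only [map_add, map_smul, LinearMap.add_apply, LinearMap.map_smulₛₗ₂, smul_eq_mul, h1, h1', e2, map_neg, mul_zero, add_zero, mul_one]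
    rw [← he]
    ring
  · have e2 : B (N y₁) (N y₁) = 0 := by
      rw [hadj, hN2, map_zero]
    simp only [map_add, map_smul, hN2, smul_zero, add_zero, smul_eq_mul, e2, mul_zero, h1]

include h hN2 hadj in
theorem sys_extend [Finite F] (hx : Sys B N x) (y₀ : V) (hy₀ : N y₀ ≠ ∑ i, B (N (x i)) y₀ • N (x i)) :
    ∃ x' : Fin (k + 1) → V, Sys B N x' := by
  obtain ⟨y, hy, hyy, hNy⟩ := exists_extend_vec h N hN2 hadj hx y₀ hy₀
  refine ⟨Fin.cons y x, ?_, ?_⟩
  · intro i j
    refine Fin.cases ?_ (fun i => ?_) i <;> refine Fin.cases ?_ (fun j => ?_) j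
    · simpa using hyy
    · simpa using h.zero_symm (hy j).1
    · simpa using (hy i).1
    · simpa using hx.1 i j
  · intro i j
    refine Fin.cases ?_ (fun i => ?_) i <;> refine Fin.cases ?_ (fun j => ?_) j
    · simpa using hNy
    · simp only [Fin.cons_zero, Fin.cons_succ]
      rw [hadj, if_neg (Fin.succ_ne_zero j).symm]
      exact h.zero_symm (hy j).2
    · simp only [Fin.cons_zero, Fin.cons_succ]
      rw [if_neg (Fin.succ_ne_zero i)]
      exact (hy i).2
    · simp only [Fin.cons_succ, Fin.succ_inj]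
      exact hx.2 i j

include h hN2 hadj in
/-- Existence of a complete system. -/
theorem exists_complete [Finite F] [FiniteDimensional F V] :
    ∃ (k : ℕ) (x : Fin k → V), Sys B N x ∧ ∀ y, N y = ∑ i, B (N (x i)) y • N (x i) := by
  by_contra hc
  push Not at hc
  have hall : ∀ k, ∃ x : Fin k → V, Sys B N x := by
    intro k
    induction k with
    | zero => exact ⟨Fin.elim0, fun i => i.elim0, fun i => i.elim0⟩
    | succ k ih =>
      obtain ⟨x, hx⟩ := ih
      obtain ⟨y₀, hy₀⟩ := hc k x hx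
      exact sys_extend h N hN2 hadj hx y₀ hy₀
  obtain ⟨x, hx⟩ := hall (finrank F V + 1)
  have hli := sys_li N hx (sys_xu h N hx) (sys_uu N hN2 hadj hx)
  have := hli.fintype_card_le_finrank
  simp only [Fintype.card_sum, Fintype.card_fin] at this
  omega

/-- The rank of `N` is the size of the system. -/
theorem rank_eq (hx : Sys B N x) (hli : LinearIndependent F (Sum.elim x (fun i => N (x i))))
    (hform : ∀ y, N y = ∑ i, B (N (x i)) y • N (x i)) :
    finrank F (LinearMap.range N) = k := by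
  have hu : LinearIndependent F (fun i => N (x i)) := by
    have := hli.comp (Sum.inr : Fin k → Fin k ⊕ Fin k) Sum.inr_injective
    exact this
  have e : LinearMap.range N = Submodule.span F (Set.range (fun i => N (x i))) := by
    apply le_antisymm
    · rintro _ ⟨y, rfl⟩
      rw [hform]
      exact Submodule.sum_mem _ (fun i _ => Submodule.smul_mem _ _ (Submodule.subset_span ⟨i, rfl⟩))
    · rw [Submodule.span_le]
      rintro _ ⟨i, rfl⟩
      exact ⟨x i, rfl⟩
  rw [e, finrank_span_eq_card hu, Fintype.card_fin]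

end sys

/-- Witt extension for a linearly independent family. -/
theorem witt_family [FiniteDimensional F V] [Finite F] (h : HForm σ B) {ι : Type*} [Fintype ι] (v v' : ι → V)
    (hv : LinearIndependent F v) (hv' : LinearIndependent F v') (hG : ∀ i j, B (v' i) (v' j) = B (v i) (v j)) :
    ∃ g : V ≃ₗ[F] V, (∀ x y, B (g x) (g y) = B x y) ∧ ∀ i, g (v i) = v' i := by
  classical
  obtain ⟨X, hX⟩ : ∃ X : Submodule F V, X = Submodule.span F (Set.range v) := ⟨_, rfl⟩
  subst hX
  obtain ⟨b, hb⟩ : ∃ b : Basis ι F (Submodule.span F (Set.range v)), b = Basis.span hv := ⟨_, rfl⟩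
  have hbv : ∀ i, ((b i : Submodule.span F (Set.range v)) : V) = v i := by
    intro i
    rw [hb, Basis.span_apply]
  obtain ⟨φ, hφ⟩ : ∃ φ : Submodule.span F (Set.range v) →ₗ[F] V, φ = b.constr F v' := ⟨_, rfl⟩
  have hφb : ∀ i, φ (b i) = v' i := by
    intro i
    rw [hφ, Basis.constr_basis]
  have hinj : ∀ u, φ u = 0 → u = 0 := by
    intro u hu
    rw [hφ, Basis.constr_apply_fintype] at hu
    have h1 := Fintype.linearIndependent_iff.mp hv' _ hu
    apply b.equivFun.injective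
    ext i
    simpa using h1 i
  have k1 : ∀ (i) (t : Submodule.span F (Set.range v)), B (v' i) (φ t) = B (v i) t := by
    intro i t
    have : (B (v' i)) ∘ₗ φ = (B (v i)) ∘ₗ (Submodule.span F (Set.range v)).subtype := by
      apply b.ext
      intro j
      simp only [LinearMap.comp_apply, hφb, Submodule.subtype_apply, hbv, hG]
    exact LinearMap.congr_fun this t
  have k2 : ∀ s t : Submodule.span F (Set.range v), B (φ s) (φ t) = B s t := by
    intro s t
    have : (B (φ s)) ∘ₗ φ = (B (s : V)) ∘ₗ (Submodule.span F (Set.range v)).subtype := by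
      apply b.ext
      intro j
      simp only [LinearMap.comp_apply, hφb, Submodule.subtype_apply, hbv]
      rw [← h.symm (v' j), k1, h.symm]
    exact LinearMap.congr_fun this t
  obtain ⟨g, hg, hgφ⟩ := (HForm.toEps h).witt _ φ (by
    intro u u' e
    have : φ (u - u') = 0 := by rw [map_sub, e, sub_self]
    exact sub_eq_zero.mp (hinj _ this)) k2
  refine ⟨g, hg, ?_⟩
  intro i
  have := hgφ (b i)
  rw [hφb, hbv] at this
  exact this

/-- A quasi-reflection with its value on the centre. -/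
theorem exists_qr' [FiniteDimensional F V] (h : HForm σ B) (z : V) (hzz : B z z ≠ 0) (c : F) (hc : c * σ c = 1) :
    ∃ r : V ≃ₗ[F] V, (∀ a b, B (r a) (r b) = B a b) ∧ (∀ x, B z x = 0 → r x = x) ∧ r z = c • z ∧
      LinearMap.det (r : V →ₗ[F] V) = c := by
  have hf := h.toF
  have hσN : σ (B z z) = B z z := hf.self_fixed z
  have hc0 : c ≠ 0 := by
    rintro rfl
    simp at hc
  obtain ⟨φ, hφ⟩ : ∃ φ : Dual F V, φ = ((c - 1) / B z z) • B z := ⟨_, rfl⟩
  have hφz : φ z = c - 1 := by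
    rw [hφ]
    simp only [LinearMap.smul_apply, smul_eq_mul]
    field_simp
  have hdet : LinearMap.det (LinearMap.transvection φ z) = c := by
    rw [LinearMap.transvection.det, hφz]
    ring
  refine ⟨LinearMap.equivOfDetNeZero (LinearMap.transvection φ z) (by rw [hdet]; exact hc0), ?_, ?_, ?_, ?_⟩
  · intro a b
    change B (LinearMap.transvection φ z a) (LinearMap.transvection φ z b) = _
    rw [LinearMap.transvection.apply, LinearMap.transvection.apply, hφ]
    simp only [map_add, map_smul, LinearMap.add_apply, LinearMap.map_smulₛₗ₂, smul_eq_mul, LinearMap.smul_apply, map_mul, map_div₀, map_sub, map_one, hσN]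
    have e1 : B a z = σ (B z a) := (hf.symm z a).symm
    rw [e1]
    have hN : B z z ≠ 0 := hzz
    field_simp
    linear_combination ((σ (B z a)) * (B z b)) * hc
  · intro x hx
    change LinearMap.transvection φ z x = x
    rw [LinearMap.transvection.apply, hφ]
    simp [hx]
  · change LinearMap.transvection φ z z = c • z
    rw [LinearMap.transvection.apply, hφz]
    module
  · exact (by
      have : ((LinearMap.equivOfDetNeZero (LinearMap.transvection φ z) (by rw [hdet]; exact hc0) : V ≃ₗ[F] V) : V →ₗ[F] V) = LinearMap.transvection φ z := by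
        ext x
        rfl
      rw [this, hdet])

/-- Isometries conjugating two self-adjoint square-zero maps of the same rank, with determinant one. -/
theorem exists_conj_det_one [FiniteDimensional F V] [Finite F] [CharP F 2] (h : HForm σ B) (N N' : V →ₗ[F] V)
    (hN2 : ∀ y, N (N y) = 0) (hadj : ∀ y z, B (N y) z = B y (N z))
    (hN2' : ∀ y, N' (N' y) = 0) (hadj' : ∀ y z, B (N' y) z = B y (N' z))
    (hr : finrank F (LinearMap.range N) = finrank F (LinearMap.range N')) (hN0 : N ≠ 0) :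
    ∃ g : V ≃ₗ[F] V, (∀ x y, B (g x) (g y) = B x y) ∧ LinearMap.det (g : V →ₗ[F] V) = 1 ∧
      ∀ y, g (N y) = N' (g y) := by
  classical
  have hf := h.toF
  obtain ⟨k, x, hx, hform⟩ := exists_complete h N hN2 hadj
  obtain ⟨k', x', hx', hform'⟩ := exists_complete h N' hN2' hadj'
  have hxu := sys_xu h N hx
  have huu := sys_uu N hN2 hadj hx
  have hxu' := sys_xu h N' hx'
  have huu' := sys_uu N' hN2' hadj' hx'
  have hli := sys_li N hx hxu huu
  have hli' := sys_li N' hx' hxu' huu'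
  have hk := rank_eq N hx hli hform
  have hk' := rank_eq N' hx' hli' hform'
  obtain rfl : k = k' := by omega
  -- the isometry
  obtain ⟨g, hg, hgv⟩ := witt_family h _ _ hli hli' (by
    rintro (i | i) (j | j)
    · simp only [Sum.elim_inl]
      rw [hx.1, hx'.1]
    · simp only [Sum.elim_inl, Sum.elim_inr]
      rw [hxu, hxu']
    · simp only [Sum.elim_inl, Sum.elim_inr]
      rw [hx.2, hx'.2]
    · simp only [Sum.elim_inr]
      rw [huu, huu'])
  have hgx : ∀ i, g (x i) = x' i := fun i => hgv (Sum.inl i)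
  have hgu : ∀ i, g (N (x i)) = N' (x' i) := fun i => hgv (Sum.inr i)
  have hgN : ∀ y, g (N y) = N' (g y) := by
    intro y
    rw [hform y, hform' (g y), map_sum]
    refine Finset.sum_congr rfl (fun i _ => ?_)
    rw [map_smul, hgu, ← hgu, hg]
  -- determinant correction
  obtain ⟨D, hD⟩ : ∃ D, D = LinearMap.det (g : V →ₗ[F] V) := ⟨_, rfl⟩
  have hDn : σ D * D = 1 := by
    rw [hD]
    exact det_norm_abs hf _ hg
  have hD0 : D ≠ 0 := by
    rintro rfl
    rw [mul_zero] at hDn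
    exact zero_ne_one hDn
  have hk0 : k ≠ 0 := by
    rintro rfl
    apply hN0
    ext y
    rw [hform y]
    simp
  -- a square root of the inverse of the determinant
  haveI : ExpChar F 2 := ExpChar.prime Nat.prime_two
  obtain ⟨l, hl⟩ : ∃ l : F, l ^ 2 = D⁻¹ :=
    (Finite.surjective_of_injective (frobenius F 2).injective) D⁻¹ |>.imp (fun l hl => by
      rw [← hl, frobenius_def])
  have hl0 : l ≠ 0 := by
    rintro rfl
    rw [zero_pow (by omega)] at hl
    exact inv_ne_zero hD0 hl.symm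
  have hln : l * σ l = 1 := by
    have h1 : (l * σ l) ^ 2 = 1 := by
      rw [mul_pow, ← map_pow, hl, map_inv₀]
      have hσ0 : σ D ≠ 0 := (map_ne_zero σ).mpr hD0
      field_simp
      linear_combination (-1 : F) * hDn
    obtain ⟨t, ht⟩ : ∃ t, t = l * σ l := ⟨_, rfl⟩
    rw [← ht] at h1 ⊢
    have h2 : (t + 1) * (t + 1) = 0 := by
      have e1 : (t + 1) * (t + 1) = t ^ 2 + (t + t) + 1 := by ring
      rw [e1, h1, CharTwo.add_self_eq_zero t, add_zero, CharTwo.add_self_eq_zero (1 : F)]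
    have h3 : t + 1 = 0 := by
      rcases mul_eq_zero.mp h2 with h4 | h4 <;> exact h4
    have h4 : t = -1 := eq_neg_of_add_eq_zero_left h3
    rw [h4, CharTwo.neg_eq]
  -- the plane
  obtain ⟨i₀⟩ : Nonempty (Fin k) := Fin.pos_iff_nonempty.mp (Nat.pos_of_ne_zero hk0)
  obtain ⟨e, he⟩ := h.trace_surj 1 (map_one σ)
  obtain ⟨a₀, ha₀⟩ : ∃ a₀, a₀ = x i₀ := ⟨_, rfl⟩
  obtain ⟨u₀, hu₀⟩ : ∃ u₀, u₀ = N (x i₀) := ⟨_, rfl⟩
  have haa : B a₀ a₀ = 0 := by rw [ha₀]; exact hx.1 _ _
  have hua : B u₀ a₀ = 1 := by rw [ha₀, hu₀, hx.2, if_pos rfl]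
  have hau : B a₀ u₀ = 1 := by rw [ha₀, hu₀, hxu, if_pos rfl]
  have huu₀ : B u₀ u₀ = 0 := by rw [hu₀]; exact huu _ _
  obtain ⟨z₁, hz₁⟩ : ∃ z₁, z₁ = a₀ + e • u₀ := ⟨_, rfl⟩
  obtain ⟨z₂, hz₂⟩ : ∃ z₂, z₂ = a₀ + σ e • u₀ := ⟨_, rfl⟩
  have h2F : ∀ t : F, t + t = 0 := fun t => CharTwo.add_self_eq_zero t
  have h11 : B z₁ z₁ = 1 := by
    rw [hz₁]
    simp only [map_add, map_smul, LinearMap.add_apply, LinearMap.map_smulₛₗ₂, smul_eq_mul, haa, hua, hau, huu₀, mul_zero, add_zero, zero_add, mul_one]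
    rw [add_comm]
    exact he
  have h22 : B z₂ z₂ = 1 := by
    rw [hz₂]
    simp only [map_add, map_smul, LinearMap.add_apply, LinearMap.map_smulₛₗ₂, smul_eq_mul, haa, hua, hau, huu₀, mul_zero, add_zero, zero_add, mul_one, h.σσ]
    exact he
  have h12 : B z₁ z₂ = 0 := by
    rw [hz₁, hz₂]
    simp only [map_add, map_smul, LinearMap.add_apply, LinearMap.map_smulₛₗ₂, smul_eq_mul, haa, hua, hau, huu₀, mul_zero, add_zero, zero_add, mul_one]
    exact h2F _
  have h21 : B z₂ z₁ = 0 := h.zero_symm h12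
  have hsum : z₁ + z₂ = u₀ := by
    rw [hz₁, hz₂]
    have e1 : a₀ + e • u₀ + (a₀ + σ e • u₀) = (a₀ + a₀) + (e + σ e) • u₀ := by module
    have e2 : a₀ + a₀ = (1 + 1 : F) • a₀ := by module
    rw [e1, he, one_smul, e2, CharTwo.add_self_eq_zero (1 : F), zero_smul, zero_add]
  obtain ⟨r₁, hr₁, hr₁f, hr₁z, hr₁d⟩ := exists_qr' h z₁ (by rw [h11]; exact one_ne_zero) l hln
  obtain ⟨r₂, hr₂, hr₂f, hr₂z, hr₂d⟩ := exists_qr' h z₂ (by rw [h22]; exact one_ne_zero) l hln
  have hrz₁ : r₁ (r₂ z₁) = l • z₁ := by rw [hr₂f z₁ h21, hr₁z]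
  have hrz₂ : r₁ (r₂ z₂) = l • z₂ := by rw [hr₂z, map_smul, hr₁f z₂ h12]
  have hru₀ : r₁ (r₂ u₀) = l • u₀ := by
    rw [← hsum, map_add, map_add, hrz₁, hrz₂, smul_add]
  have hrμ : ∀ i, ∃ μ, r₁ (r₂ (N (x i))) = μ • N (x i) ∧ μ * σ μ = 1 := by
    intro i
    by_cases hi : i = i₀
    · subst hi
      refine ⟨l, ?_, hln⟩
      rw [← hu₀, hru₀]
    · refine ⟨1, ?_, by simp⟩
      have e1 : B a₀ (N (x i)) = 0 := by rw [ha₀, hxu, if_neg hi]
      have e2 : B u₀ (N (x i)) = 0 := by rw [hu₀]; exact huu _ _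
      have e3 : B z₁ (N (x i)) = 0 := by
        rw [hz₁]
        simp only [map_add, map_smul, LinearMap.add_apply, LinearMap.map_smulₛₗ₂, smul_eq_mul, e1, e2, mul_zero, add_zero]
      have e4 : B z₂ (N (x i)) = 0 := by
        rw [hz₂]
        simp only [map_add, map_smul, LinearMap.add_apply, LinearMap.map_smulₛₗ₂, smul_eq_mul, e1, e2, mul_zero, add_zero]
      rw [hr₂f _ e4, hr₁f _ e3, one_smul]
  have hcomm : ∀ y, N (r₁ (r₂ y)) = r₁ (r₂ (N y)) := by
    intro y
    rw [hform (r₁ (r₂ y)), hform y, map_sum, map_sum]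
    refine Finset.sum_congr rfl (fun i _ => ?_)
    obtain ⟨μ, hμ, hμn⟩ := hrμ i
    rw [map_smul, map_smul, hμ]
    have e : B (N (x i)) y = σ μ * B (N (x i)) (r₁ (r₂ y)) := by
      rw [← hr₂ (N (x i)) y, ← hr₁ (r₂ (N (x i))) (r₂ y), hμ]
      simp only [LinearMap.map_smulₛₗ₂, LinearMap.smul_apply, smul_eq_mul]
    rw [e, smul_smul]
    congr 1
    linear_combination (-B (N (x i)) (r₁ (r₂ y))) * hμn
  refine ⟨(r₂.trans r₁).trans g, ?_, ?_, ?_⟩
  · intro a b
    simp only [LinearEquiv.trans_apply]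
    rw [hg, hr₁, hr₂]
  · have e : (((r₂.trans r₁).trans g : V ≃ₗ[F] V) : V →ₗ[F] V) = (g : V →ₗ[F] V) ∘ₗ (r₁ : V →ₗ[F] V) ∘ₗ (r₂ : V →ₗ[F] V) := rfl
    rw [e, LinearMap.det_comp, LinearMap.det_comp, ← hD, hr₁d, hr₂d]
    have e5 : l * l = D⁻¹ := by rw [← hl]; ring
    rw [e5]
    field_simp
  · intro y
    simp only [LinearEquiv.trans_apply]
    rw [← hcomm, hgN]

end abstr

section std

open Matrix Cfsg

variable {K : Type*} [Field K] [Fintype K] {q n : ℕ}

/-- The matrix `A - 1` as a linear map. -/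
noncomputable def nMap (A : Matrix.SpecialLinearGroup (Fin n) K) : (Fin n → K) →ₗ[K] (Fin n → K) :=
  ((A : Matrix (Fin n) (Fin n) K) - 1).mulVecLin

theorem nMap_apply (A : Matrix.SpecialLinearGroup (Fin n) K) (y : Fin n → K) : nMap A y = slLin n A y - y := by
  rw [slLin_apply]
  simp [nMap, Matrix.sub_mulVec]

theorem conj_rank (A A' : Matrix.SpecialLinearGroup (Fin n) K) (h : IsConj A A') :
    ((A : Matrix (Fin n) (Fin n) K) - 1).rank = ((A' : Matrix (Fin n) (Fin n) K) - 1).rank := by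
  obtain ⟨c, hc⟩ := isConj_iff.mp h
  have e0 : (c : Matrix (Fin n) (Fin n) K) * ((c⁻¹ : Matrix.SpecialLinearGroup (Fin n) K) : Matrix (Fin n) (Fin n) K) = 1 := by
    rw [← Matrix.SpecialLinearGroup.coe_mul, mul_inv_cancel, Matrix.SpecialLinearGroup.coe_one]
  have e : ((A' : Matrix (Fin n) (Fin n) K) - 1) =
      (c : Matrix (Fin n) (Fin n) K) * ((A : Matrix (Fin n) (Fin n) K) - 1) * ((c⁻¹ : Matrix.SpecialLinearGroup (Fin n) K) : Matrix (Fin n) (Fin n) K) := by
    rw [← hc, Matrix.SpecialLinearGroup.coe_mul, Matrix.SpecialLinearGroup.coe_mul, mul_sub, sub_mul, mul_one, e0]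
  rw [e, Matrix.rank_mul_eq_left_of_isUnit_det, Matrix.rank_mul_eq_right_of_isUnit_det]
  · rw [c.2]
    exact isUnit_one
  · rw [(c⁻¹ : Matrix.SpecialLinearGroup (Fin n) K).2]
    exact isUnit_one

theorem main_conj [CharP K 2] (hK : Fintype.card K = q ^ 2) (a b : ↥(SU n K q)) (ha : a * a = 1) (hb : b * b = 1) (ha1 : a ≠ 1)
    (hr : (((a : Matrix.SpecialLinearGroup (Fin n) K) : Matrix (Fin n) (Fin n) K) - 1).rank =
      (((b : Matrix.SpecialLinearGroup (Fin n) K) : Matrix (Fin n) (Fin n) K) - 1).rank) : IsConj a b := by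
  classical
  have hH := stdH_hform n hK
  have key : ∀ c : ↥(SU n K q), c * c = 1 → (∀ y, nMap c.1 (nMap c.1 y) = 0) ∧
      (∀ y z, stdH n hK (nMap c.1 y) z = stdH n hK y (nMap c.1 z)) := by
    intro c hc
    have h1 : ∀ y, slLin n c.1 (slLin n c.1 y) = y := by
      intro y
      have e : c.1 * c.1 = 1 := congrArg Subtype.val hc
      have e2 := slLin_mul n c.1 c.1
      rw [e] at e2
      have e3 : slLin n (1 : Matrix.SpecialLinearGroup (Fin n) K) = 1 := by
        apply LinearEquiv.ext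
        intro x
        rw [slLin_apply]
        simp
      rw [e3] at e2
      have := LinearEquiv.congr_fun e2 y
      exact this.symm
    have hiso := (mem_SU_iff n hK c.1).mp c.2
    constructor
    · intro y
      rw [nMap_apply, nMap_apply, map_sub, h1]
      ext i
      simp only [Pi.sub_apply, Pi.zero_apply]
      have e := CharTwo.add_self_eq_zero (y i - slLin n c.1 y i)
      linear_combination e
    · intro y z
      rw [nMap_apply, nMap_apply]
      simp only [map_sub, LinearMap.sub_apply]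
      have := hiso (slLin n c.1 y) z
      rw [h1] at this
      rw [this]
  obtain ⟨ka1, ka2⟩ := key a ha
  obtain ⟨kb1, kb2⟩ := key b hb
  have hN0 : nMap a.1 ≠ 0 := by
    intro h0
    apply ha1
    apply Subtype.ext
    apply slLin_injective n
    apply LinearEquiv.ext
    intro y
    have h1 := LinearMap.congr_fun h0 y
    rw [nMap_apply, LinearMap.zero_apply, sub_eq_zero] at h1
    rw [h1, slLin_apply]
    simp
  obtain ⟨g, hg, hgdet, hgN⟩ := exists_conj_det_one hH (nMap a.1) (nMap b.1) ka1 ka2 kb1 kb2 hr hN0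
  obtain ⟨A, hA⟩ := exists_sl_of_det n g hgdet
  have hAm : A ∈ SU n K q := by
    rw [mem_SU_iff n hK, hA]
    exact hg
  rw [isConj_iff]
  refine ⟨⟨A, hAm⟩, ?_⟩
  apply Subtype.ext
  apply slLin_injective n
  change slLin n (A * a.1 * A⁻¹) = slLin n b.1
  rw [slLin_mul, slLin_mul, slLin_inv, hA]
  ext1 x
  rw [LinearEquiv.mul_apply, LinearEquiv.mul_apply]
  obtain ⟨y, rfl⟩ : ∃ y, x = g y := ⟨g⁻¹ x, by simp [← LinearEquiv.mul_apply]⟩
  have e1 : g⁻¹ (g y) = y := by simp [← LinearEquiv.mul_apply]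
  rw [e1]
  have := hgN y
  rw [nMap_apply, nMap_apply, map_sub, sub_left_inj] at this
  exact this

end std

end CfsgLib.ClassGeo.UInv
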